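import Cfsg.Agent.H23.Ore3D4.Rank

/-!
# Cosets of the parabolic subgroup of ³D₄(q)
-/

set_option autoImplicit false
set_option maxRecDepth 100000

namespace Cfsg.Agent.H23.Ore3D4

open Cfsg.Lie Cfsg.Agent.H46 Cfsg.Agent.H47
open scoped Matrix

variable {K : Type*} [Field K]

/-- Monomial elements permute the root vectors. -/
theorem monomial_mulVec {g : GL chevD4.Idx K} (hg : g ∈ chevD4.monomialSubgroup K) :
    ∀ s : Fin chevD4.nroots, ∃ c : K, c ≠ 0 ∧
      (g : Matrix chevD4.Idx chevD4.Idx K) *ᵥ bvec chevD4 K (chevD4.rank + s.val) =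
        c • bvec chevD4 K (chevD4.rank + (goodD4.perm g s).val) := by
  obtain ⟨L, h, hh, rfl⟩ := goodD4.exists_word hg
  rw [goodD4.perm_mul (goodD4.nProd_mem L) (Subgroup.mem_sup_left hh), goodD4.perm_diagonal hh, mul_one,
    goodD4.perm_nProd]
  obtain ⟨z, rfl⟩ := goodD4.mem_diagonal.1 hh
  intro s
  have key : ∀ (L : List (Fin chevD4.rank)) (v : Fin chevD4.nroots), ∃ c : K, c ≠ 0 ∧
      ((goodD4.nProd L : GL chevD4.Idx K) : Matrix chevD4.Idx chevD4.Idx K) *ᵥ bvec chevD4 K (chevD4.rank + v.val) =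
        c • bvec chevD4 K (chevD4.rank + ((L.map goodD4.sPerm).prod v).val) := by
    intro L v
    induction L with
    | nil => exact ⟨1, one_ne_zero, by simp [Good.nProd]⟩
    | cons i L ih =>
      obtain ⟨c, hc0, hc⟩ := ih
      refine ⟨c * (goodD4.tab.eta i ((L.map goodD4.sPerm).prod v).val : K), mul_ne_zero hc0 ?_, ?_⟩
      · exact left_ne_zero_of_mul_eq_one (goodD4.eta_cast_sq _ _)
      · rw [goodD4.nProd_cons, Units.val_mul, ← Matrix.mulVec_mulVec, hc, Matrix.mulVec_smul, Good.coe_ng,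
          goodD4.nSimple_mulVec_e i.2 ((L.map goodD4.sPerm).prod v).2, smul_smul]
        rfl
  obtain ⟨c, hc0, hc⟩ := key L s
  refine ⟨(goodD4.torusVal z s.val : K) * c, mul_ne_zero (Units.ne_zero _) hc0, ?_⟩
  rw [Units.val_mul, ← Matrix.mulVec_mulVec, goodD4.coe_torus, rdiag_mulVec_e _ s.2, Matrix.mulVec_smul, hc,
    smul_smul]

/-- The highest root. -/
def r23 : Fin chevD4.nroots := ⟨23, by decide⟩

theorem perm_fix_of_mem {g : GL chevD4.Idx K} (hg : g ∈ chevD4.monomialSubgroup K) (hP : g ∈ Pst (K := K)) :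
    goodD4.perm g r23 = r23 := by
  by_contra hne
  obtain ⟨c, hc0, hc⟩ := monomial_mulVec hg r23
  have h2 := mulVec_of_mem hP
  rw [e23] at h2
  rw [show chevD4.rank + r23.val = chevD4.rank + 23 from rfl, h2] at hc
  have h := congrFun hc (Sum.inr (goodD4.perm g r23))
  have hne' : ((goodD4.perm g r23 : Fin chevD4.nroots) : ℕ) ≠ 23 := fun e => hne (Fin.ext e)
  simp [bvec, code, hne'] at h
  exact hc0 h.symm

/-- Diagonal conjugates: the coefficient at the highest root. -/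
theorem chi_conj_torus {n : GL chevD4.Idx K} (hn : n ∈ chevD4.monomialSubgroup K) (z : Fin chevD4.rank → Kˣ)
    (s : Fin chevD4.nroots) (hs : goodD4.perm n s = r23) :
    chi (n * goodD4.torus z * n⁻¹) = (goodD4.torusVal z s.val : K) := by
  obtain ⟨c, hc0, hc⟩ := monomial_mulVec hn s
  rw [hs, show chevD4.rank + r23.val = chevD4.rank + 23 from rfl] at hc
  have h1 : ((n * goodD4.torus z * n⁻¹ : GL chevD4.Idx K) : Matrix chevD4.Idx chevD4.Idx K) *ᵥ
      (c • e23) = (goodD4.torusVal z s.val : K) • (c • e23) := by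
    rw [e23, ← hc, Matrix.mulVec_mulVec, ← Units.val_mul, inv_mul_cancel_right, Units.val_mul,
      ← Matrix.mulVec_mulVec, goodD4.coe_torus, rdiag_mulVec_e _ s.2, Matrix.mulVec_smul]
  rw [Matrix.mulVec_smul, smul_comm] at h1
  have h2 := smul_right_injective (chevD4.Idx → K) hc0 h1
  rw [chi, h2, Pi.smul_apply, e23_apply, smul_eq_mul, mul_one]

/-- The table of a permutation. -/
def enc (σ : Equiv.Perm (Fin chevD4.nroots)) : List ℕ := List.ofFn fun r => (σ r).val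

/-- Composition of tables. -/
def comp (s t : List ℕ) : List ℕ := t.map fun i => s.getD i 0

theorem enc_mul (σ τ : Equiv.Perm (Fin chevD4.nroots)) : enc (σ * τ) = comp (enc σ) (enc τ) := by
  rw [comp, enc, enc, enc, List.map_ofFn]
  refine congrArg List.ofFn (funext fun r => ?_)
  simp [List.getD_eq_getElem?_getD, List.getElem?_ofFn]

theorem enc_injective : Function.Injective enc := fun σ τ h =>
  Equiv.ext fun r => Fin.ext (congrFun (List.ofFn_injective h) r)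

/-- The table of the short reflection. -/
def tA : List ℕ := [0, 9, 8, 7, 6, 18, 4, 3, 2, 1, 13, 12, 11, 10, 22, 21, 20, 19, 5, 17, 16, 15, 14, 23]

/-- The table of the long reflection. -/
def tB : List ℕ := [1, 0, 2, 3, 5, 4, 6, 10, 11, 14, 7, 8, 15, 16, 9, 12, 13, 17, 19, 18, 20, 21, 23, 22]

/-- The table of the identity. -/
def t1 : List ℕ := [0, 1, 2, 3, 4, 5, 6, 7, 8, 9, 10, 11, 12, 13, 14, 15, 16, 17, 18, 19, 20, 21, 22, 23]

theorem enc_gens : enc 1 = t1 ∧ enc Pa = tA ∧ enc Pb = tB := by decide +kernel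

/-- The twisted Weyl group, by tables. -/
def wTab : List (List ℕ) :=
  [[0, 1, 2, 3, 4, 5, 6, 7, 8, 9, 10, 11, 12, 13, 14, 15, 16, 17, 18, 19, 20, 21, 22, 23],
   [0, 9, 8, 7, 6, 18, 4, 3, 2, 1, 13, 12, 11, 10, 22, 21, 20, 19, 5, 17, 16, 15, 14, 23],
   [1, 0, 2, 3, 5, 4, 6, 10, 11, 14, 7, 8, 15, 16, 9, 12, 13, 17, 19, 18, 20, 21, 23, 22],
   [9, 0, 8, 7, 18, 6, 4, 13, 12, 22, 3, 2, 21, 20, 1, 11, 10, 19, 17, 5, 16, 15, 23, 14],
   [1, 14, 11, 10, 6, 19, 5, 3, 2, 0, 16, 15, 8, 7, 23, 21, 20, 18, 4, 17, 13, 12, 9, 22],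
   [9, 22, 12, 13, 4, 17, 18, 7, 8, 0, 20, 21, 2, 3, 23, 15, 16, 5, 6, 19, 10, 11, 1, 14],
   [14, 1, 11, 10, 19, 6, 5, 16, 15, 23, 3, 2, 21, 20, 0, 8, 7, 18, 17, 4, 13, 12, 22, 9],
   [22, 9, 12, 13, 17, 4, 18, 20, 21, 23, 7, 8, 15, 16, 0, 2, 3, 5, 19, 6, 10, 11, 14, 1],
   [14, 23, 15, 16, 5, 17, 19, 10, 11, 1, 20, 21, 2, 3, 22, 12, 13, 4, 6, 18, 7, 8, 0, 9],
   [22, 23, 21, 20, 18, 19, 17, 13, 12, 9, 16, 15, 8, 7, 14, 11, 10, 6, 4, 5, 3, 2, 0, 1],
   [23, 14, 15, 16, 17, 5, 19, 20, 21, 22, 10, 11, 12, 13, 1, 2, 3, 4, 18, 6, 7, 8, 9, 0],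
   [23, 22, 21, 20, 19, 18, 17, 16, 15, 14, 13, 12, 11, 10, 9, 8, 7, 6, 5, 4, 3, 2, 1, 0]]

/-- The twisted Weyl group. -/
def w12 : Set (Equiv.Perm (Fin chevD4.nroots)) := {σ | enc σ ∈ wTab}

theorem wTab_closed : ∀ s ∈ wTab, comp s tA ∈ wTab ∧ comp s tB ∈ wTab := by decide +kernel

theorem wTab_cosets : ∀ s ∈ wTab, (s.getD 23 0 = 23 → s = t1 ∨ s = tA) ∧
    (s.getD 23 0 ≠ 23 → ∃ τ ∈ [tB, comp (comp tB tA) tB, comp (comp (comp tA tB) tA) (comp (comp tB tA) tB)],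
      ∃ A ∈ [t1, tA], ∃ B ∈ [t1, tA], s = comp (comp A τ) B) := by decide +kernel

theorem P_inv : Pa⁻¹ = Pa ∧ Pb⁻¹ = Pb := by
  constructor <;> refine inv_eq_of_mul_eq_one_right (enc_injective ?_)
  · rw [enc_mul, enc_gens.2.1, enc_gens.1]; decide +kernel
  · rw [enc_mul, enc_gens.2.2, enc_gens.1]; decide +kernel

theorem w12_closed : ∀ σ ∈ w12, σ * Pa ∈ w12 ∧ σ * Pb ∈ w12 := by
  intro σ hσ
  simp only [w12, Set.mem_ofPred_eq, enc_mul, enc_gens] at hσ ⊢
  exact wTab_closed _ hσ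

theorem mem_w12 {σ : Equiv.Perm (Fin chevD4.nroots)} (h : σ ∈ Subgroup.closure ({Pa, Pb} : Set _)) : σ ∈ w12 := by
  induction h using Subgroup.closure_induction_right with
  | one =>
    simp only [w12, Set.mem_ofPred_eq, enc_gens.1]
    decide +kernel
  | mul_right a _ b hb ih =>
    rcases hb with rfl | rfl
    · exact (w12_closed a ih).1
    · exact (w12_closed a ih).2
  | mul_inv_cancel a _ b hb ih =>
    rcases hb with rfl | rfl
    · rw [P_inv.1]; exact (w12_closed a ih).1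
    · rw [P_inv.2]; exact (w12_closed a ih).2

/-- The nontrivial double cosets of the parabolic subgroup. -/
def reps : List (Equiv.Perm (Fin chevD4.nroots)) := [Pb, Pb * Pa * Pb, Pa * Pb * Pa * (Pb * Pa * Pb)]

theorem w12_cosets : ∀ σ ∈ w12, (σ r23 = r23 → σ = 1 ∨ σ = Pa) ∧
    (σ r23 ≠ r23 → ∃ τ ∈ reps, ∃ A ∈ [1, Pa], ∃ B ∈ [1, Pa], σ = A * τ * B) := by
  intro σ hσ
  obtain ⟨h1, h2⟩ := wTab_cosets _ hσ
  have e : (enc σ).getD 23 0 = (σ r23).val := by
    simp [enc, r23, List.getD_eq_getElem?_getD, List.getElem?_ofFn, show (23 : ℕ) < chevD4.nroots by decide]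
  rw [e] at h1 h2
  refine ⟨fun h => ?_, fun h => ?_⟩
  · rcases h1 (congrArg Fin.val h) with h' | h'
    · exact Or.inl (enc_injective (h'.trans enc_gens.1.symm))
    · exact Or.inr (enc_injective (h'.trans enc_gens.2.1.symm))
  · obtain ⟨τ, hτ, A, hA, B, hB, hs⟩ := h2 fun hv => h (Fin.ext hv)
    have lift : ∀ A ∈ [t1, tA], ∃ A' ∈ [1, Pa], enc A' = A := by
      intro A hA
      simp only [List.mem_cons, List.not_mem_nil, or_false] at hA
      rcases hA with rfl | rfl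
      · exact ⟨1, by simp, enc_gens.1⟩
      · exact ⟨Pa, by simp, enc_gens.2.1⟩
    obtain ⟨A', hA', rfl⟩ := lift A hA
    obtain ⟨B', hB', rfl⟩ := lift B hB
    obtain ⟨τ', hτ', rfl⟩ : ∃ τ' ∈ reps, enc τ' = τ := by
      simp only [← enc_gens.2.1, ← enc_gens.2.2, ← enc_mul, List.mem_cons, List.not_mem_nil, or_false] at hτ
      rcases hτ with rfl | rfl | rfl <;> exact ⟨_, by simp [reps], rfl⟩
    exact ⟨τ', hτ', A', hA', B', hB', enc_injective (by rw [hs, enc_mul, enc_mul])⟩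

/-- The representative of the reflection in the root 22. -/
noncomputable def N22 : GL chevD4.Idx K := Na * Nb * Na⁻¹

/-- The representative of the reflection in the roots 19, 16, 15. -/
noncomputable def Nab : GL chevD4.Idx K := Nb * Na * Nb⁻¹

theorem N22_monomial : (N22 : GL chevD4.Idx K) ∈ chevD4.monomialSubgroup K :=
  mul_mem (mul_mem Na_monomial Nb_monomial) (inv_mem Na_monomial)

theorem Nab_monomial : (Nab : GL chevD4.Idx K) ∈ chevD4.monomialSubgroup K :=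
  mul_mem (mul_mem Nb_monomial Na_monomial) (inv_mem Nb_monomial)

theorem perm_N22 : goodD4.perm (N22 : GL chevD4.Idx K) = Pa * Pb * Pa := by
  rw [N22, goodD4.perm_mul (mul_mem Na_monomial Nb_monomial) (inv_mem Na_monomial),
    goodD4.perm_mul Na_monomial Nb_monomial, goodD4.perm_inv Na_monomial, perm_Na, perm_Nb, P_inv.1]

theorem perm_Nab : goodD4.perm (Nab : GL chevD4.Idx K) = Pb * Pa * Pb := by
  rw [Nab, goodD4.perm_mul (mul_mem Nb_monomial Na_monomial) (inv_mem Nb_monomial),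
    goodD4.perm_mul Nb_monomial Na_monomial, goodD4.perm_inv Nb_monomial, perm_Na, perm_Nb, P_inv.2]

variable [Fintype K] {q : ℕ} (f : K →+* K) (hf : ∀ x, f x = x ^ q) (hK : Fintype.card K = q ^ 3)

include hf hK

theorem N22_mem : (N22 : GL chevD4.Idx K) ∈ twistedD4 K q :=
  mul_mem (mul_mem (Na_mem f hf hK) (Nb_mem f hf hK)) (inv_mem (Na_mem f hf hK))

theorem Nab_mem : (Nab : GL chevD4.Idx K) ∈ twistedD4 K q :=
  mul_mem (mul_mem (Nb_mem f hf hK) (Na_mem f hf hK)) (inv_mem (Nb_mem f hf hK))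

/-- The twisted monomial elements have permutations in the twisted Weyl group. -/
theorem N0_perm {m : GL chevD4.Idx K} (hm : m ∈ (tdD4 f).N0) :
    m ∈ chevD4.monomialSubgroup K ∧ goodD4.perm m ∈ w12 := by
  have hsub : ∀ m ∈ (tdD4 f).N0, m ∈ chevD4.monomialSubgroup K := fun m hm => (tdD4 f).N0_le_N hm
  refine ⟨hsub m hm, mem_w12 ?_⟩
  rw [TwistData.N0, ← Subgroup.closure_eq (tdD4 f).H0, ← Subgroup.closure_union] at hm
  have hgen : ∀ x ∈ Set.range (tdD4 f).nS ∪ ((tdD4 f).H0 : Set (GL chevD4.Idx K)),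
      x ∈ chevD4.monomialSubgroup K ∧ goodD4.perm x ∈ Subgroup.closure ({Pa, Pb} : Set _) := by
    rintro x (⟨j, rfl⟩ | hx)
    · refine ⟨(tdD4 f).nS_mem j, ?_⟩
      change Fin 2 at j
      rw [tdD4, graphD4.tdata_nS]
      obtain rfl | rfl : j = 0 ∨ j = 1 := by omega
      · rw [← Na_eq_nPar, perm_Na]; exact Subgroup.subset_closure (Or.inl rfl)
      · rw [← Nb_eq_nPar, perm_Nb]; exact Subgroup.subset_closure (Or.inr rfl)
    · have hd := (tdD4 f).H0_le_H hx
      exact ⟨Subgroup.mem_sup_left hd, by rw [goodD4.perm_diagonal hd]; exact one_mem _⟩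
  have key : m ∈ chevD4.monomialSubgroup K ∧ goodD4.perm m ∈ Subgroup.closure ({Pa, Pb} : Set _) := by
    induction hm using Subgroup.closure_induction with
    | mem x hx => exact hgen x hx
    | one => exact ⟨one_mem _, by rw [goodD4.perm_eq goodD4.monRel_one]; exact one_mem _⟩
    | mul a b _ _ ha hb => exact ⟨mul_mem ha.1 hb.1, by rw [goodD4.perm_mul ha.1 hb.1]; exact mul_mem ha.2 hb.2⟩
    | inv a _ ha => exact ⟨inv_mem ha.1, by rw [goodD4.perm_inv ha.1]; exact inv_mem ha.2⟩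
  exact key.2

/-- Decomposition of a positive unipotent element of the twisted group. -/
theorem exists_Xa_split {u : GL chevD4.Idx K} (hu : u ∈ (tdD4 f).U1) :
    ∃ a, ∃ w ∈ UP (K := K) ⊓ twistedD4 K q, u = Xa f a * w := by
  obtain ⟨x, hx, u', hu', hc, rfl⟩ := (tdD4 f).split_fixed 0 hu
  obtain ⟨c, hcs, rfl⟩ := (graphD4.mem_X1_iff okD4 coxD4 f).1 hx
  obtain ⟨o0, -⟩ := orbD4
  obtain ⟨r0, r2, -⟩ := rhoD4
  obtain ⟨s0, -, s2, s3⟩ := simple_vals
  have e2 : c ⟨2, by decide⟩ = f (c ⟨0, by decide⟩) := by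
    have := hcs ⟨0, by decide⟩ (by rw [o0]; simp)
    rwa [r0] at this
  have e3 : c ⟨3, by decide⟩ = f (f (c ⟨0, by decide⟩)) := by
    have := hcs ⟨2, by decide⟩ (by rw [o0]; simp)
    rwa [r2, e2] at this
  refine ⟨c ⟨0, by decide⟩, u', ⟨?_, ?_⟩, ?_⟩
  · have hU : u' ∈ chevD4.posUnipotent K := by
      have := (tdD4 f).U1_le_U hu'
      rwa [tdD4, graphD4.tdata_U] at this
    have hU2 : Na * u' * (Na : GL chevD4.Idx K)⁻¹ ∈ chevD4.posUnipotent K := by
      have := (tdD4 f).U1_le_U hc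
      rwa [tdD4, graphD4.tdata_U, graphD4.tdata_nS, ← Na_eq_nPar] at this
    rw [goodD4.posUnipotent_eq] at hU
    obtain ⟨t, ⟨-, ht⟩, -⟩ := goodD4.posSub_normal_form goodD4.posClosed_univ hU
    have he : u' = X 18 (t 18) * X 13 (t 13) * X 12 (t 12) *
        ((X 18 (t 18))⁻¹ * (X 14 (t 14) * X 15 (t 15) * X 16 (t 16) * X 17 (t 17)) * X 18 (t 18) *
          (X 19 (t 19) * X 20 (t 20) * X 21 (t 21) * X 22 (t 22) * X 23 (t 23))) := by
      rw [ht, Good.ordProd, show List.range' (chevD4.nroots / 2) (chevD4.nroots - chevD4.nroots / 2) =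
        [12, 13, 14, 15, 16, 17, 18, 19, 20, 21, 22, 23] by decide +kernel]
      simp only [List.map_cons, List.map_nil, List.prod_cons, List.prod_nil, mul_one]
      have c1 : X 18 (t 18) * X 13 (t 13) * X 12 (t 12) = X 12 (t 12) * X 13 (t 13) * X 18 (t 18) := by
        rw [(X_comm (r := 18) (s := 13) (by decide +kernel) (t 18) (t 13)).eq, mul_assoc,
          (X_comm (r := 18) (s := 12) (by decide +kernel) (t 18) (t 12)).eq, ← mul_assoc,
          (X_comm (r := 13) (s := 12) (by decide +kernel) (t 13) (t 12)).eq]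
      rw [c1]
      simp only [X]
      group
    have hw : (X 18 (t 18))⁻¹ * (X 14 (t 14) * X 15 (t 15) * X 16 (t 16) * X 17 (t 17)) * X 18 (t 18) *
        (X 19 (t 19) * X 20 (t 20) * X 21 (t 21) * X 22 (t 22) * X 23 (t 23)) ∈ UP (K := K) := by
      have hm : ∀ {r : ℕ}, r ∈ UPset → ∀ v : K, X r v ∈ UP (K := K) := fun hr v =>
        goodD4.xg_mem_posSub (isPos_of_UPset hr) hr v
      refine mul_mem ?_ (mul_mem (mul_mem (mul_mem (mul_mem ?_ ?_) ?_) ?_) ?_)
      · have h18 : (X 18 (t 18))⁻¹ ∈ Lev (K := K) := inv_mem (X_mem_Lev (by decide) _)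
        have := conj_UP h18 (u := X 14 (t 14) * X 15 (t 15) * X 16 (t 16) * X 17 (t 17))
          (mul_mem (mul_mem (mul_mem (hm (by simp [UPset]) _) (hm (by simp [UPset]) _)) (hm (by simp [UPset]) _))
            (hm (by simp [UPset]) _))
        rwa [inv_inv] at this
      all_goals exact hm (by simp [UPset]) _
    set A := X 18 (t 18) * X 13 (t 13) * X 12 (t 12)
    have hA : Na * A * (Na : GL chevD4.Idx K)⁻¹ ∈ chevD4.negUnipotent K := by
      have hk : ∀ (k : Fin chevD4.rank) (v : K), k ∈ graphD4.orb 0 →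
          Na * X (chevD4.simple k) v * (Na : GL chevD4.Idx K)⁻¹ ∈ chevD4.negUnipotent K := by
        intro k v hk
        rw [X, Na_eq_nPar, graphD4.nPar_conj_xg okD4 hk]
        exact goodD4.xg_mem_neg (goodD4.isNegRoot_neg (goodD4.isPosRoot_simple k.2)) _
      have k0 := hk ⟨0, by decide⟩ (t 18) (by rw [o0]; simp)
      have k2 := hk ⟨2, by decide⟩ (t 13) (by rw [o0]; simp)
      have k3 := hk ⟨3, by decide⟩ (t 12) (by rw [o0]; simp)
      simp only [s0, s2, s3] at k0 k2 k3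
      have := mul_mem (mul_mem k0 k2) k3
      convert this using 1
      simp only [A]
      group
    have hA1 : Na * A * (Na : GL chevD4.Idx K)⁻¹ = 1 := by
      rw [← Subgroup.mem_bot, ← goodD4.pos_inf_neg]
      refine ⟨?_, hA⟩
      have h2 := UP_le_pos (conj_UP Na_mem_Lev hw)
      have h3 := mul_mem hU2 (inv_mem h2)
      refine Eq.mp (congrArg (· ∈ chevD4.posUnipotent K) ?_) h3
      conv_lhs => rw [he]
      group
    rw [conj_eq_one_iff] at hA1
    rw [he, hA1, one_mul]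
    exact hw
  · rw [twistedD4_eq f hf hK]
    exact (tdD4 f).U1_le_G1 hu'
  · simp only [GraphData.pX, GraphData.orbProd, o0, List.map_cons, List.map_nil, List.prod_cons, List.prod_nil,
      mul_one, s0, s2, s3, e2, e3, Xa, X, mul_assoc]

/-- Normal forms in the stabiliser of the highest root line. -/
theorem exists_LForm {p : GL chevD4.Idx K} (hS : p ∈ twistedD4 K q) (hP : p ∈ Pst (K := K)) :
    ∃ t s : Kˣ, ∃ l w, LForm f t s l ∧ w ∈ UP (K := K) ⊓ twistedD4 K q ∧ p = l * w ∧ chi p = (s : K) := by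
  rw [twistedD4_eq f hf hK] at hS
  obtain ⟨m, hm, u, hu, h, hh, u', hu', rfl⟩ := (tdD4 f).exists_cell hS
  have huF : ∀ {x}, x ∈ (tdD4 f).U1 → x ∈ Fix (K := K) := fun {x} hx => posUnipotent_le_Fix <| by
    have := (tdD4 f).U1_le_U hx
    rwa [tdD4, graphD4.tdata_U] at this
  have hm0 : m * h ∈ (tdD4 f).N0 := mul_mem hm ((tdD4 f).H0_le_N0 hh)
  have hmS : m * h ∈ twistedD4 K q := by rw [twistedD4_eq f hf hK]; exact (tdD4 f).N0_le_G1 hm0
  have hmP : m * h ∈ Pst (K := K) := by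
    have := mul_mem (mul_mem (inv_mem (fix_le (huF hu))) hP) (inv_mem (fix_le (huF hu')))
    simpa [mul_assoc] using this
  obtain ⟨hmon, hmem⟩ := N0_perm f hf hK hm0
  obtain ⟨a, w, hw, rfl⟩ := exists_Xa_split f hf hK hu
  obtain ⟨a', w', hw', rfl⟩ := exists_Xa_split f hf hK hu'
  have hchi : chi (Xa f a * w * (m * h) * (Xa f a' * w')) = chi (m * h) := by
    rw [chi_mul _ (fix_le (huF hu')), chi_mul _ hmP, chi_fix (huF hu), chi_fix (huF hu'), one_mul, mul_one]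
  have hdiag : ∀ g : GL chevD4.Idx K, g ∈ chevD4.monomialSubgroup K → goodD4.perm g = 1 →
      g ∈ chevD4.diagonalSubgroup K := fun g hg h1 => (goodD4.perm_eq_one_iff hg).1 h1
  rcases (w12_cosets _ hmem).1 (perm_fix_of_mem hmon hmP) with h1 | h1
  · obtain ⟨t, s, hs, e⟩ := exists_Tor f hf hK (hdiag _ hmon h1) hmS
    set B := (aVal t s : K) * a'
    have hmL : m * h * Xa f a' ∈ Lev (K := K) ⊓ twistedD4 K q := by
      rw [e]; exact ⟨mul_mem (Tor_mem_Lev f t s) (Xa_mem_Lev f a'),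
        mul_mem (Tor_mem f hf hK hs) (Xa_mem f hf hK a')⟩
    refine ⟨t, s, Xa f (a + B) * Tor f t s, (m * h * Xa f a')⁻¹ * w * (m * h * Xa f a') * w',
      ⟨hs, Or.inl ⟨_, rfl⟩⟩, mul_mem (Subgroup.mem_inf.2 ⟨?_, mul_mem (mul_mem (inv_mem hmL.2) hw.2) hmL.2⟩) hw', ?_, ?_⟩
    · have := conj_UP (inv_mem hmL.1) hw.1
      rwa [inv_inv] at this
    · rw [← Xa_add, show Xa f B = Tor f t s * Xa f a' * (Tor f t s)⁻¹ from (torus_conj_Xa' f hs a').symm, e]
      group
    · rw [hchi, e, chi_Tor]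
  · have hNa := Na_monomial (K := K)
    have hd : m * h * Na⁻¹ ∈ chevD4.diagonalSubgroup K := hdiag _ (mul_mem hmon (inv_mem hNa)) (by
      rw [goodD4.perm_mul hmon (inv_mem hNa), goodD4.perm_inv hNa, h1, perm_Na, mul_inv_cancel])
    obtain ⟨t, s, hs, e⟩ := exists_Tor f hf hK hd (mul_mem hmS (inv_mem (Na_mem f hf hK)))
    rw [mul_inv_eq_iff_eq_mul] at e
    have hmL : m * h * Xa f a' ∈ Lev (K := K) ⊓ twistedD4 K q := by
      rw [e]; exact ⟨mul_mem (mul_mem (Tor_mem_Lev f t s) Na_mem_Lev) (Xa_mem_Lev f a'),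
        mul_mem (mul_mem (Tor_mem f hf hK hs) (Na_mem f hf hK)) (Xa_mem f hf hK a')⟩
    refine ⟨t, s, Xa f a * Tor f t s * Na * Xa f a', (m * h * Xa f a')⁻¹ * w * (m * h * Xa f a') * w',
      ⟨hs, Or.inr ⟨_, _, rfl⟩⟩, mul_mem (Subgroup.mem_inf.2 ⟨?_, mul_mem (mul_mem (inv_mem hmL.2) hw.2) hmL.2⟩) hw', ?_, ?_⟩
    · have := conj_UP (inv_mem hmL.1) hw.1
      rwa [inv_inv] at this
    · rw [e]; group
    · rw [hchi, e, chi_mul _ (Lev_le_Pst Na_mem_Lev), chi_Tor, chi_fix, mul_one]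
      exact mul_mem (mul_mem (mul_mem (mul_mem (X_mem_Fix (by decide) (by decide) _)
        (X_mem_Fix (by decide +kernel) (by decide +kernel) _)) (X_mem_Fix (by decide) (by decide) _)) (mul_mem (mul_mem
        (X_mem_Fix (by decide) (by decide) _) (X_mem_Fix (by decide +kernel) (by decide +kernel) _))
        (X_mem_Fix (by decide) (by decide) _))) (mul_mem (mul_mem (X_mem_Fix (by decide) (by decide) _)
        (X_mem_Fix (by decide +kernel) (by decide +kernel) _)) (X_mem_Fix (by decide) (by decide) _))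

/-- Every nontrivial element is conjugate to an element outside the parabolic subgroup in normal form. -/
theorem exists_coset {g : GL chevD4.Idx K} (hg : g ∈ twistedD4 K q) (hne : g ≠ 1) :
    ∃ n ∈ [Nb, Nab, N22 * Nab], ∃ p ∈ Pst (K := K) ⊓ twistedD4 K q, ConjS q g (n * p) := by
  haveI := (simple_D4 f hf hK).1
  have hS := twistedD4_eq f hf hK
  obtain ⟨k, hk, hout⟩ : ∃ k ∈ twistedD4 K q, k * g * k⁻¹ ∉ Pst (K := K) := by
    by_contra hall
    push Not at hall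
    let g' : ↥(tdD4 f).G1 := ⟨g, hS ▸ hg⟩
    let N : Subgroup ↥(tdD4 f).G1 := Subgroup.normalClosure {g'}
    have hN : N ≤ (Pst (K := K)).subgroupOf (tdD4 f).G1 := by
      refine (Subgroup.closure_le _).2 fun x hx => ?_
      obtain ⟨y, hy, hc⟩ := Group.mem_conjugatesOfSet_iff.1 hx
      obtain ⟨k, rfl⟩ := isConj_iff.1 hc
      rw [Set.mem_singleton_iff] at hy
      subst hy
      have hk : (k : GL chevD4.Idx K) ∈ twistedD4 K q := by rw [hS]; exact k.2
      exact hall (k : GL chevD4.Idx K) hk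
    rcases (Subgroup.normalClosure_normal (s := {g'}) : N.Normal).eq_bot_or_eq_top with h | h
    · have hgN : g' ∈ N := Subgroup.subset_normalClosure (Set.mem_singleton g')
      rw [show N = ⊥ from h, Subgroup.mem_bot] at hgN
      exact hne (congrArg Subtype.val hgN)
    · refine X9_not_mem (K := K) ?_
      have h9 : X 9 (1 : K) ∈ (tdD4 f).G1 := hS ▸ Subgroup.subset_closure
        ⟨[(9, (1 : K))], Or.inl ⟨1, one_pow q, 9, by simp [d4m2], rfl⟩, (word_one goodD4 ..).2 rfl⟩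
      exact hN (show (⟨X 9 (1 : K), h9⟩ : ↥(tdD4 f).G1) ∈ N by rw [show N = ⊤ from h]; trivial)
  have hk' : k * g * k⁻¹ ∈ (tdD4 f).G1 := hS ▸ mul_mem (mul_mem hk hg) (inv_mem hk)
  obtain ⟨m, hm, u, hu, h, hh, u', hu', e⟩ := (tdD4 f).exists_cell hk'
  have hUP : ∀ {x}, x ∈ (tdD4 f).U1 → x ∈ Pst (K := K) ⊓ twistedD4 K q := fun {x} hx => by
    refine ⟨fix_le (posUnipotent_le_Fix ?_), hS ▸ (tdD4 f).U1_le_G1 hx⟩
    have := (tdD4 f).U1_le_U hx
    rwa [tdD4, graphD4.tdata_U] at this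
  have hm0 : m * h ∈ (tdD4 f).N0 := mul_mem hm ((tdD4 f).H0_le_N0 hh)
  obtain ⟨hmon, hmem⟩ := N0_perm f hf hK hm0
  have hmS : m * h ∈ twistedD4 K q := hS ▸ (tdD4 f).N0_le_G1 hm0
  have hdiag : ∀ x : GL chevD4.Idx K, x ∈ chevD4.monomialSubgroup K → x ∈ twistedD4 K q → goodD4.perm x = 1 →
      x ∈ Pst (K := K) ⊓ twistedD4 K q := fun x hx hxS h1 => by
    obtain ⟨z, rfl⟩ := goodD4.mem_diagonal.1 ((goodD4.perm_eq_one_iff hx).1 h1)
    exact ⟨torus_mem_Pst z, hxS⟩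
  have hne23 : goodD4.perm (m * h) r23 ≠ r23 := by
    intro hfix
    refine hout ?_
    rw [e]
    refine mul_mem (mul_mem (hUP hu).1 ?_) (hUP hu').1
    rcases (w12_cosets _ hmem).1 hfix with h1 | h1
    · exact (hdiag _ hmon hmS h1).1
    · have := hdiag _ (mul_mem hmon (inv_mem Na_monomial)) (mul_mem hmS (inv_mem (Na_mem f hf hK))) (by
        rw [goodD4.perm_mul hmon (inv_mem Na_monomial), goodD4.perm_inv Na_monomial, h1, perm_Na, mul_inv_cancel])
      simpa using mul_mem this.1 (Lev_le_Pst (Na_mem_Lev (K := K)))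
  obtain ⟨τ, hτ, A, hA, B, hB, hσ⟩ := (w12_cosets _ hmem).2 hne23
  have lift : ∀ σ ∈ [1, Pa], ∃ a ∈ Pst (K := K) ⊓ twistedD4 K q,
      a ∈ chevD4.monomialSubgroup K ∧ goodD4.perm a = σ := by
    intro σ hσ
    simp only [List.mem_cons, List.not_mem_nil, or_false] at hσ
    rcases hσ with rfl | rfl
    · exact ⟨1, one_mem _, one_mem _, goodD4.perm_eq goodD4.monRel_one⟩
    · exact ⟨Na, ⟨Lev_le_Pst Na_mem_Lev, Na_mem f hf hK⟩, Na_monomial, perm_Na⟩
  obtain ⟨a, ha, ham, hap⟩ := lift A hA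
  obtain ⟨b, hb, hbm, hbp⟩ := lift B hB
  obtain ⟨n, hn, hnS, hnm, hnp⟩ : ∃ n ∈ [(Nb : GL chevD4.Idx K), Nab, N22 * Nab],
      n ∈ twistedD4 K q ∧ n ∈ chevD4.monomialSubgroup K ∧ goodD4.perm n = τ := by
    simp only [reps, List.mem_cons, List.not_mem_nil, or_false] at hτ
    rcases hτ with rfl | rfl | rfl
    · exact ⟨_, by simp, Nb_mem f hf hK, Nb_monomial, perm_Nb⟩
    · exact ⟨_, by simp, Nab_mem f hf hK, Nab_monomial, perm_Nab⟩
    · exact ⟨_, by simp, mul_mem (N22_mem f hf hK) (Nab_mem f hf hK), mul_mem N22_monomial Nab_monomial,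
        by rw [goodD4.perm_mul N22_monomial Nab_monomial, perm_N22, perm_Nab]⟩
  set d := (a * n * b)⁻¹ * (m * h) with hd
  have hdP : d ∈ Pst (K := K) ⊓ twistedD4 K q := by
    have hanb := mul_mem (mul_mem ham hnm) hbm
    refine hdiag _ (mul_mem (inv_mem hanb) hmon)
      (mul_mem (inv_mem (mul_mem (mul_mem ha.2 hnS) hb.2)) hmS) ?_
    rw [goodD4.perm_mul (inv_mem hanb) hmon, goodD4.perm_inv hanb, goodD4.perm_mul (mul_mem ham hnm) hbm,
      goodD4.perm_mul ham hnm, hap, hnp, hbp, hσ, inv_mul_cancel]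
  refine ⟨n, hn, b * d * u' * (u * a), mul_mem (mul_mem (mul_mem hb hdP) (hUP hu')) (mul_mem (hUP hu) ha),
    (u * a)⁻¹ * k, mul_mem (inv_mem (mul_mem (hUP hu).2 ha.2)) hk, ?_⟩
  rw [show (u * a)⁻¹ * k * g * ((u * a)⁻¹ * k)⁻¹ = (u * a)⁻¹ * (k * g * k⁻¹) * (u * a) by group, e, hd]
  group

end Cfsg.Agent.H23.Ore3D4
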