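import Cfsg.Agent.H23.Ore3D4.Rank

/-!
# Torus elements of ³D₄(q) without trivial root value
-/

set_option autoImplicit false
set_option maxRecDepth 100000

namespace Cfsg.Agent.H23.Ore3D4

open Cfsg.Lie Cfsg.Agent.H46 Cfsg.Agent.H47
open scoped Matrix

variable {K : Type*} [Field K]

/-- An element of the torus, given by four parameters. -/
def z4 (a b c d : Kˣ) : Fin chevD4.rank → Kˣ := fun k => (![a, b, c, d] : Fin 4 → Kˣ) k

theorem torusVal_z4 (a b c d : Kˣ) (r : ℕ) (hr : r < 24) :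
    goodD4.torusVal (z4 a b c d) r = a ^ chevD4.cartan 0 r * b ^ chevD4.cartan 1 r *
      c ^ chevD4.cartan 2 r * d ^ chevD4.cartan 3 r := by
  have h : goodD4.torusVal (z4 a b c d) r = ∏ k : Fin 4, z4 a b c d k ^ chevD4.cartan k.val r :=
    Finset.prod_congr rfl fun (k : Fin chevD4.rank) _ => by
      rw [goodD4.cartan_eq (show r < chevD4.nroots from hr) k.2]
  rw [h, Fin.prod_univ_four]
  rfl

theorem ng18_conj (a b c d : Kˣ) :
    goodD4.ng 18 (1 : K) * goodD4.torus (z4 a b c d) * (goodD4.ng 18 (1 : K))⁻¹ =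
      goodD4.torus (z4 (b * a⁻¹) b c d) := by
  have h := goodD4.torus_conj_ng_simple (F := K) (⟨0, by decide⟩ : Fin chevD4.rank) (z4 a b c d)
  change goodD4.ng (chevD4.simple 0) (1 : K) * _ * _ = _ at h
  rw [simple_vals.1] at h
  rw [h]
  congr 1
  funext ⟨k, hk⟩
  have hk4 : k < 4 := hk
  interval_cases k
  · rw [Function.update_self,
      torusVal_z4 a b c d 18 (by decide), show chevD4.cartan 0 18 = 2 by decide +kernel, show chevD4.cartan 1 18 = -1 by decide +kernel,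
      show chevD4.cartan 2 18 = 0 by decide +kernel, show chevD4.cartan 3 18 = 0 by decide +kernel]
    change a * _ = b * a⁻¹
    rw [← Units.val_inj]
    simp [Units.val_zpow_eq_zpow_val, zpow_neg]
    field_simp
  all_goals exact Function.update_of_ne (by simp [Fin.ext_iff]) _ _

theorem ng14_conj (a b c d : Kˣ) :
    goodD4.ng 14 (1 : K) * goodD4.torus (z4 a b c d) * (goodD4.ng 14 (1 : K))⁻¹ =
      goodD4.torus (z4 a (a * c * d * b⁻¹) c d) := by
  have h := goodD4.torus_conj_ng_simple (F := K) (⟨1, by decide⟩ : Fin chevD4.rank) (z4 a b c d)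
  change goodD4.ng (chevD4.simple 1) (1 : K) * _ * _ = _ at h
  rw [simple_vals.2.1] at h
  rw [h]
  congr 1
  funext ⟨k, hk⟩
  have hk4 : k < 4 := hk
  interval_cases k
  case «1» =>
    rw [Function.update_self,
      torusVal_z4 a b c d 14 (by decide), show chevD4.cartan 0 14 = -1 by decide +kernel, show chevD4.cartan 1 14 = 2 by decide +kernel,
      show chevD4.cartan 2 14 = -1 by decide +kernel, show chevD4.cartan 3 14 = -1 by decide +kernel]
    change b * _ = a * c * d * b⁻¹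
    rw [← Units.val_inj]
    simp [Units.val_zpow_eq_zpow_val, zpow_neg]
    field_simp
  all_goals exact Function.update_of_ne (by simp [Fin.ext_iff]) _ _

theorem ng13_conj (a b c d : Kˣ) :
    goodD4.ng 13 (1 : K) * goodD4.torus (z4 a b c d) * (goodD4.ng 13 (1 : K))⁻¹ =
      goodD4.torus (z4 a b (b * c⁻¹) d) := by
  have h := goodD4.torus_conj_ng_simple (F := K) (⟨2, by decide⟩ : Fin chevD4.rank) (z4 a b c d)
  change goodD4.ng (chevD4.simple 2) (1 : K) * _ * _ = _ at h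
  rw [simple_vals.2.2.1] at h
  rw [h]
  congr 1
  funext ⟨k, hk⟩
  have hk4 : k < 4 := hk
  interval_cases k
  case «2» =>
    rw [Function.update_self,
      torusVal_z4 a b c d 13 (by decide), show chevD4.cartan 0 13 = 0 by decide +kernel, show chevD4.cartan 1 13 = -1 by decide +kernel,
      show chevD4.cartan 2 13 = 2 by decide +kernel, show chevD4.cartan 3 13 = 0 by decide +kernel]
    change c * _ = b * c⁻¹
    rw [← Units.val_inj]
    simp [Units.val_zpow_eq_zpow_val, zpow_neg]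
    field_simp
  all_goals exact Function.update_of_ne (by simp [Fin.ext_iff]) _ _

theorem ng12_conj (a b c d : Kˣ) :
    goodD4.ng 12 (1 : K) * goodD4.torus (z4 a b c d) * (goodD4.ng 12 (1 : K))⁻¹ =
      goodD4.torus (z4 a b c (b * d⁻¹)) := by
  have h := goodD4.torus_conj_ng_simple (F := K) (⟨3, by decide⟩ : Fin chevD4.rank) (z4 a b c d)
  change goodD4.ng (chevD4.simple 3) (1 : K) * _ * _ = _ at h
  rw [simple_vals.2.2.2] at h
  rw [h]
  congr 1
  funext ⟨k, hk⟩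
  have hk4 : k < 4 := hk
  interval_cases k
  case «3» =>
    rw [Function.update_self,
      torusVal_z4 a b c d 12 (by decide), show chevD4.cartan 0 12 = 0 by decide +kernel, show chevD4.cartan 1 12 = -1 by decide +kernel,
      show chevD4.cartan 2 12 = 0 by decide +kernel, show chevD4.cartan 3 12 = 2 by decide +kernel]
    change d * _ = b * d⁻¹
    rw [← Units.val_inj]
    simp [Units.val_zpow_eq_zpow_val, zpow_neg]
    field_simp
  all_goals exact Function.update_of_ne (by simp [Fin.ext_iff]) _ _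

variable (f : K →+* K)

/-- The norm of a unit. -/
def nrm (t : Kˣ) : Kˣ := t * fu f t * fu f (fu f t)

theorem zF_eq (t s : Kˣ) : zF f t s = z4 t s (fu f t) (fu f (fu f t)) := rfl

theorem fu_eq_self {s : Kˣ} (hs : f (s : K) = s) : fu f s = s := Units.ext hs

theorem Na_conj_Tor {t s : Kˣ} (hs : f (s : K) = s) :
    Na * Tor f t s * (Na : GL chevD4.Idx K)⁻¹ = Tor f (s * t⁻¹) s := by
  have e : Na * Tor f t s * (Na : GL chevD4.Idx K)⁻¹ =
      goodD4.ng 18 (1 : K) * (goodD4.ng 13 (1 : K) * (goodD4.ng 12 (1 : K) * Tor f t s *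
        (goodD4.ng 12 (1 : K))⁻¹) * (goodD4.ng 13 (1 : K))⁻¹) * (goodD4.ng 18 (1 : K))⁻¹ := by
    rw [Na]; group
  rw [e, Tor, zF_eq, ng12_conj, ng13_conj, ng18_conj, Tor, zF_eq, map_mul, map_mul, map_inv, map_inv,
    fu_eq_self f hs, fu_eq_self f hs]

theorem Nb_conj_Tor (t s : Kˣ) :
    Nb * Tor f t s * (Nb : GL chevD4.Idx K)⁻¹ = Tor f t (nrm f t * s⁻¹) := by
  rw [Nb, Tor, zF_eq, ng14_conj]
  rfl

theorem Tor_pow (t s : Kˣ) (n : ℕ) : Tor f t s ^ n = Tor f (t ^ n) (s ^ n) := by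
  induction n with
  | zero => simp [Tor_one]
  | succ n ih => rw [pow_succ, ih, Tor_mul, pow_succ, pow_succ]

/-- All root values are non-trivial. -/
def Reg (t s : Kˣ) : Prop := ∀ r < 24, goodD4.torusVal (zF f t s) r ≠ 1

theorem neg_chk : ∀ r : Fin 24, 12 ≤ r.val ∨
    (12 ≤ chevD4.neg r.val ∧ chevD4.neg r.val < 24 ∧ chevD4.neg (chevD4.neg r.val) = r.val) := by decide +kernel

theorem reg_of_pos {t s : Kˣ} (h : ∀ r, 12 ≤ r → r < 24 → goodD4.torusVal (zF f t s) r ≠ 1) : Reg f t s := by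
  intro r hr
  rcases neg_chk ⟨r, hr⟩ with h' | ⟨h1, h2, h3⟩
  · exact h r h' hr
  · have h4 := h _ h1 h2
    rw [goodD4.torusVal_neg (show r < chevD4.nroots from hr), inv_ne_one] at h4
    exact h4

theorem cartan_pos : ∀ r : Fin 24, 12 ≤ r.val →
    (chevD4.cartan 0 r.val, chevD4.cartan 1 r.val, chevD4.cartan 2 r.val, chevD4.cartan 3 r.val) ∈
      [((0 : ℤ), (-1 : ℤ), (0 : ℤ), (2 : ℤ)), (0, -1, 2, 0), (-1, 2, -1, -1), (-1, 1, -1, 1), (-1, 1, 1, -1),
        (-1, 0, 1, 1), (2, -1, 0, 0), (1, 1, -1, -1), (1, 0, -1, 1), (1, 0, 1, -1), (1, -1, 1, 1), (0, 1, 0, 0)] := by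
  decide +kernel

theorem reg_of {t s : Kˣ} (hs : f (s : K) = s) (h3 : ∀ u : Kˣ, fu f (fu f (fu f u)) = u)
    (h1 : t ^ 2 ≠ s) (h2 : s ^ 2 ≠ nrm f t) (hab : t ^ 2 * s ≠ nrm f t) (h2a : t * fu f t ≠ fu f (fu f t))
    (h3a : s ≠ nrm f t) (h4 : s ≠ 1) : Reg f t s := by
  have hs' := fu_eq_self f hs
  have finj : Function.Injective (fu f) := fun a b h => Units.ext (f.injective (congrArg Units.val h))
  have hN : fu f (nrm f t) = nrm f t := by
    simp only [nrm, map_mul, h3]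
    ac_rfl
  refine reg_of_pos f fun r h12 hr => ?_
  rw [torusVal_zF f t s r hr]
  have hm := cartan_pos ⟨r, hr⟩ h12
  simp only [List.mem_cons, List.not_mem_nil, or_false, Prod.mk.injEq] at hm
  have a0 : t ^ 2 * s⁻¹ ≠ 1 := fun h => h1 (mul_inv_eq_one.1 h)
  have a1 : (fu f t) ^ 2 * s⁻¹ ≠ 1 := fun h => a0 (finj (by simpa [map_mul, map_pow, map_inv, hs'] using h))
  have a2 : (fu f (fu f t)) ^ 2 * s⁻¹ ≠ 1 :=
    fun h => a1 (finj (by simpa [map_mul, map_pow, map_inv, hs'] using h))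
  have b0 : t ^ 2 * s * (nrm f t)⁻¹ ≠ 1 := fun h => hab (mul_inv_eq_one.1 h)
  have b1 : (fu f t) ^ 2 * s * (nrm f t)⁻¹ ≠ 1 :=
    fun h => b0 (finj (by simpa [map_mul, map_pow, map_inv, hs', hN] using h))
  have b2 : (fu f (fu f t)) ^ 2 * s * (nrm f t)⁻¹ ≠ 1 :=
    fun h => b1 (finj (by simpa [map_mul, map_pow, map_inv, hs', hN] using h))
  have c0 : t * fu f t * (fu f (fu f t))⁻¹ ≠ 1 := fun h => h2a (mul_inv_eq_one.1 h)
  have c1 : fu f t * fu f (fu f t) * t⁻¹ ≠ 1 :=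
    fun h => c0 (finj (by simpa [map_mul, map_pow, map_inv, h3] using h))
  have c2 : fu f (fu f t) * t * (fu f t)⁻¹ ≠ 1 :=
    fun h => c1 (finj (by simpa [map_mul, map_pow, map_inv, h3] using h))
  have d0 : nrm f t * s⁻¹ ≠ 1 := fun h => h3a (mul_inv_eq_one.1 h).symm
  have d1 : s ^ 2 * (nrm f t)⁻¹ ≠ 1 := fun h => h2 (mul_inv_eq_one.1 h)
  rcases hm with ⟨e0, e1, e2, e3⟩ | ⟨e0, e1, e2, e3⟩ | ⟨e0, e1, e2, e3⟩ | ⟨e0, e1, e2, e3⟩ | ⟨e0, e1, e2, e3⟩ |
    ⟨e0, e1, e2, e3⟩ | ⟨e0, e1, e2, e3⟩ | ⟨e0, e1, e2, e3⟩ | ⟨e0, e1, e2, e3⟩ | ⟨e0, e1, e2, e3⟩ |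
    ⟨e0, e1, e2, e3⟩ | ⟨e0, e1, e2, e3⟩ <;> rw [e0, e1, e2, e3]
  · convert a2 using 1; rw [← Units.val_inj]; simp; field_simp
  · convert a1 using 1; rw [← Units.val_inj]; simp; field_simp
  · convert d1 using 1; rw [← Units.val_inj]; simp [nrm]; field_simp
  · convert b2 using 1; rw [← Units.val_inj]; simp [nrm]; field_simp
  · convert b1 using 1; rw [← Units.val_inj]; simp [nrm]; field_simp
  · convert c1 using 1; rw [← Units.val_inj]; simp; field_simp
  · convert a0 using 1; rw [← Units.val_inj]; simp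
  · convert b0 using 1; rw [← Units.val_inj]; simp [nrm]; field_simp
  · convert c2 using 1; rw [← Units.val_inj]; simp; field_simp
  · convert c0 using 1; rw [← Units.val_inj]; simp
  · convert d0 using 1; rw [← Units.val_inj]; simp [nrm]; field_simp
  · simpa using h4

variable [Fintype K] {q : ℕ} (hf : ∀ x, f x = x ^ q) (hK : Fintype.card K = q ^ 3)

include hf hK

theorem fu_three (u : Kˣ) : fu f (fu f (fu f u)) = u := Units.ext (f_three f hf hK (u : K))

theorem fu_pow (u : Kˣ) : fu f u = u ^ q := Units.ext (by rw [fu_val, hf, Units.val_pow_eq_pow_val])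

theorem f_nrm (t : Kˣ) : f (nrm f t : K) = (nrm f t : K) := by
  rw [← fu_val, nrm, map_mul, map_mul, fu_three f hf hK]
  congr 1
  ac_rfl

/-- Conjugation by the longest element inverts the torus. -/
theorem n0_conj_Tor {t s : Kˣ} (hs : f (s : K) = s) :
    n0 * Tor f t s * (n0 : GL chevD4.Idx K)⁻¹ = (Tor f t s)⁻¹ := by
  have h3 := fu_three f hf hK
  have e : n0 * Tor f t s * (n0 : GL chevD4.Idx K)⁻¹ =
      Na * (Nb * (Na * (Nb * (Na * (Nb * Tor f t s * Nb⁻¹) * Na⁻¹) * Nb⁻¹) * Na⁻¹) * Nb⁻¹) * Na⁻¹ := by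
    rw [n0]; group
  have k : ∀ u v : Kˣ, f (v : K) = v → f ((nrm f u * v⁻¹ : Kˣ) : K) = ((nrm f u * v⁻¹ : Kˣ) : K) := fun u v hv => by
    rw [Units.val_mul, map_mul, f_nrm f hf hK, Units.val_inv_eq_inv_val, map_inv₀, hv]
  rw [e, Nb_conj_Tor, Na_conj_Tor f (k _ _ hs), Nb_conj_Tor, Na_conj_Tor f (k _ _ (k _ _ hs)), Nb_conj_Tor,
    Na_conj_Tor f (k _ _ (k _ _ (k _ _ hs))), Tor_inv]
  have hs' := fu_eq_self f hs
  congr 1 <;>
    simp only [nrm, map_mul, map_inv, h3, hs'] <;>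
    rw [← Units.val_inj] <;> simp <;> field_simp

end Cfsg.Agent.H23.Ore3D4
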