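import Cfsg.Agent.H23.Ore3D4.Cosets
import Cfsg.Agent.H23.Ore3D4.LargeTorus

/-!
# A Gauss form with prescribed coefficient at the highest root, and the covering criterion
-/

set_option autoImplicit false
set_option maxRecDepth 100000

namespace Cfsg.Agent.H23.Ore3D4

open Cfsg.Lie Cfsg.Agent.H46 Cfsg.Agent.H47
open scoped Matrix

variable {K : Type*} [Field K]

theorem conj_root {n : GL chevD4.Idx K} (hn : n ∈ chevD4.monomialSubgroup K) {σ : Equiv.Perm (Fin chevD4.nroots)}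
    (hσ : goodD4.perm n = σ) {r : ℕ} (hr : r < 24) (w : ℕ) (hw : (σ ⟨r, hr⟩).val = w) (v : K) :
    ∃ v', n * X r v * n⁻¹ = X w v' := by
  obtain ⟨c, hc⟩ := goodD4.conj_xg_eq hn ⟨r, hr⟩
  refine ⟨(c : K) * v, ?_⟩
  have h := hc v
  rw [hσ, hw] at h
  exact h

theorem X_mem_UP {r : ℕ} (hr : r ∈ UPset) (v : K) : X r v ∈ UP (K := K) :=
  goodD4.xg_mem_posSub (isPos_of_UPset hr) hr v

theorem Nb_conj_short (f : K →+* K) (a : K) : ∃ x y z, Nb * Xa f a * (Nb : GL chevD4.Idx K)⁻¹ =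
    X 19 x * X 16 y * X 15 z := by
  obtain ⟨a', h1⟩ := conj_root Nb_monomial (perm_Nb (K := K)) (r := 18) (by decide) 19 (by decide +kernel) a
  obtain ⟨b', h2⟩ := conj_root Nb_monomial (perm_Nb (K := K)) (r := 13) (by decide) 16 (by decide +kernel) (f a)
  obtain ⟨c', h3⟩ := conj_root Nb_monomial (perm_Nb (K := K)) (r := 12) (by decide) 15 (by decide +kernel) (f (f a))
  refine ⟨a', b', c', ?_⟩
  rw [← h1, ← h2, ← h3, Xa]
  group

theorem Nb_conj_short_neg (f : K →+* K) (a : K) : ∃ x y z, Nb * Xna f a * (Nb : GL chevD4.Idx K)⁻¹ =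
    X 4 x * X 7 y * X 8 z := by
  obtain ⟨a', h1⟩ := conj_root Nb_monomial (perm_Nb (K := K)) (r := 5) (by decide) 4 (by decide +kernel) a
  obtain ⟨b', h2⟩ := conj_root Nb_monomial (perm_Nb (K := K)) (r := 10) (by decide) 7 (by decide +kernel) (f a)
  obtain ⟨c', h3⟩ := conj_root Nb_monomial (perm_Nb (K := K)) (r := 11) (by decide) 8 (by decide +kernel) (f (f a))
  refine ⟨a', b', c', ?_⟩
  rw [← h1, ← h2, ← h3, Xna]
  group

theorem ab_mem_UP (a b c : K) : X 19 a * X 16 b * X 15 c ∈ UP (K := K) :=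
  mul_mem (mul_mem (X_mem_UP (by simp [UPset]) _) (X_mem_UP (by simp [UPset]) _)) (X_mem_UP (by simp [UPset]) _)

theorem ab_mem_UN (a b c : K) : X 4 a * X 7 b * X 8 c ∈ UN (K := K) :=
  mul_mem (mul_mem (neg_mem_UN (r := 19) (by simp [UPset]) _) (neg_mem_UN (r := 16) (by simp [UPset]) _))
    (neg_mem_UN (r := 15) (by simp [UPset]) _)

theorem UP_fix {u : GL chevD4.Idx K} (hu : u ∈ UP (K := K)) : u ∈ Fix (K := K) :=
  posUnipotent_le_Fix (UP_le_pos hu)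

variable [Fintype K] {q : ℕ} (f : K →+* K) (hf : ∀ x, f x = x ^ q) (hK : Fintype.card K = q ^ 3)

/-- The opposite factorisations of `n`, with every coefficient at the highest root. -/
def Opp (q : ℕ) (f : K →+* K) (n : GL chevD4.Idx K) : Prop :=
  ∀ C : Kˣ, f (C : K) = C → ∃ h ∈ Pst (K := K) ⊓ twistedD4 K q, ∃ u ∈ UP (K := K) ⊓ twistedD4 K q,
    ∃ Y ∈ UN (K := K) ⊓ twistedD4 K q, h * n = u * Y * u ∧ chi h = (C : K)

include hf hK

theorem X14_mem {t : K} (ht : f t = t) : X 14 t ∈ twistedD4 K q :=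
  Subgroup.subset_closure ⟨[(14, t)], Or.inl ⟨t, (hf t).symm.trans ht, 14, by simp [d4p2], rfl⟩,
    (word_one goodD4 ..).2 rfl⟩

theorem X9_mem {t : K} (ht : f t = t) : X 9 t ∈ twistedD4 K q :=
  Subgroup.subset_closure ⟨[(9, t)], Or.inl ⟨t, (hf t).symm.trans ht, 9, by simp [d4m2], rfl⟩,
    (word_one goodD4 ..).2 rfl⟩

theorem exists_nrm {C : Kˣ} (hC : f (C : K) = C) : ∃ a : Kˣ, nrm f a = C := by
  obtain ⟨g, hg⟩ := IsCyclic.exists_generator (α := Kˣ)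
  obtain ⟨m, rfl⟩ : ∃ m : ℕ, g ^ m = C := (mem_powers_iff_mem_zpowers.2 (hg C))
  have hg' : orderOf g = q ^ 3 - 1 := by
    rw [orderOf_eq_card_of_forall_mem_zpowers hg, Nat.card_units, Nat.card_eq_fintype_card, hK]
  have h1 : 1 < q ^ 3 := hK ▸ Fintype.one_lt_card
  have hq : 2 ≤ q := by
    by_contra hlt
    interval_cases q <;> simp at h1
  obtain ⟨d, rfl⟩ : ∃ d, q = d + 2 := ⟨q - 2, by omega⟩
  have he : (g ^ m) ^ (d + 1) = 1 := by
    refine mul_right_cancel (b := g ^ m) ?_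
    rw [← pow_succ, one_mul]
    exact Units.ext (by rw [Units.val_pow_eq_pow_val, ← hf]; exact hC)
  rw [← pow_mul, ← orderOf_dvd_iff_pow_eq_one, hg',
    show (d + 2) ^ 3 - 1 = ((d + 2) ^ 2 + (d + 2) + 1) * (d + 1) by
      have : (d + 2) ^ 3 = ((d + 2) ^ 2 + (d + 2) + 1) * (d + 1) + 1 := by ring
      omega] at he
  obtain ⟨k, rfl⟩ := (Nat.mul_dvd_mul_iff_right (Nat.succ_pos d)).1 he
  refine ⟨g ^ k, Units.ext ?_⟩
  simp only [nrm, Units.val_mul, fu_val, Units.val_pow_eq_pow_val, hf]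
  ring

theorem long_opp (C : Kˣ) : Tor f 1 C * Nb = X 14 (C : K) * X 9 (-(C : K)⁻¹) * X 14 (C : K) := by
  have : Tor f 1 C = goodD4.hg 14 (C : K) := by
    rw [← simple_vals.2.1,
      show goodD4.hg (chevD4.simple 1) (C : K) = goodD4.torus (Pi.mulSingle (⟨1, by decide⟩ : Fin chevD4.rank) C)
      from (goodD4.torus_mulSingle ⟨1, by decide⟩ C).symm, Tor]
    congr 1
    funext ⟨k, hk⟩
    have hk4 : k < 4 := hk
    rw [Pi.mulSingle_apply]
    interval_cases k <;> simp [zF, Fin.ext_iff] <;> rfl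
  rw [this, Nb, ← goodD4.ng_eq_hg_mul, ng_def, show chevD4.neg 14 = 9 by decide +kernel]

theorem opp_Nb : Opp q f (Nb : GL chevD4.Idx K) := by
  intro C hC
  refine ⟨Tor f 1 C, ⟨Lev_le_Pst (Tor_mem_Lev f 1 C), Tor_mem f hf hK hC⟩, X 14 (C : K),
    ⟨X_mem_UP (by simp [UPset]) _, X14_mem f hf hK hC⟩, X 9 (-(C : K)⁻¹),
    ⟨neg_mem_UN (r := 14) (by simp [UPset]) _, X9_mem f hf hK (by rw [map_neg, map_inv₀, hC])⟩, long_opp f hf hK C, chi_Tor f 1 C⟩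

/-- The opposite factorisation of the reflection in 19, 16, 15. -/
theorem short_opp (a : Kˣ) :
    Nb * Tor f a 1 * (Nb : GL chevD4.Idx K)⁻¹ * Nab =
      (Nb * Xa f (a : K) * Nb⁻¹) * (Nb * Xna f (-(a : K)⁻¹) * Nb⁻¹) * (Nb * Xa f (a : K) * Nb⁻¹) := by
  have h := (NA_eq f (a : K)).symm.trans (NA_split f a)
  calc Nb * Tor f a 1 * (Nb : GL chevD4.Idx K)⁻¹ * Nab = Nb * (Tor f a 1 * Na) * Nb⁻¹ := by rw [Nab]; group
    _ = _ := by rw [← h]; group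

theorem opp_Nab : Opp q f (Nab : GL chevD4.Idx K) := by
  intro C hC
  obtain ⟨a, rfl⟩ := exists_nrm f hf hK hC
  have hT : Tor f a 1 ∈ twistedD4 K q := Tor_mem f hf hK (by simp)
  have hb := Nb_mem f hf hK
  refine ⟨Nb * Tor f a 1 * Nb⁻¹, Subgroup.mem_inf.2 ⟨?_, mul_mem (mul_mem hb hT) (inv_mem hb)⟩, Nb * Xa f (a : K) * Nb⁻¹,
    Subgroup.mem_inf.2 ⟨?_, mul_mem (mul_mem hb (Xa_mem f hf hK _)) (inv_mem hb)⟩, Nb * Xna f (-(a : K)⁻¹) * Nb⁻¹,
    Subgroup.mem_inf.2 ⟨?_, mul_mem (mul_mem hb (Xna_mem f hf hK _)) (inv_mem hb)⟩, short_opp f hf hK a, ?_⟩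
  · rw [Nb_conj_Tor]; exact Lev_le_Pst (Tor_mem_Lev f _ _)
  · obtain ⟨x, y, z, h⟩ := Nb_conj_short f (a : K)
    rw [h]; exact ab_mem_UP x y z
  · obtain ⟨x, y, z, h⟩ := Nb_conj_short_neg f (-(a : K)⁻¹)
    rw [h]; exact ab_mem_UN x y z
  · rw [Nb_conj_Tor, chi_Tor, inv_one, mul_one]

theorem opp_top : Opp q f (N22 * Nab : GL chevD4.Idx K) := by
  intro C hC
  -- the short part with parameter one
  set u' : GL chevD4.Idx K := Nb * Xa f 1 * Nb⁻¹ with hu'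
  set Y' : GL chevD4.Idx K := Nb * Xna f (-1) * Nb⁻¹ with hY'
  have e' : Nab = u' * Y' * u' := by
    have := short_opp f hf hK 1
    rw [Tor_one, mul_one, mul_inv_cancel, one_mul, Units.val_one, inv_one] at this
    exact this
  have hNa := Na_mem f hf hK
  have hb := Nb_mem f hf hK
  have hh2 := long_opp f hf hK C
  obtain ⟨v, hv⟩ := conj_root Na_monomial (perm_Na (K := K)) (r := 14) (by decide) 22 (by decide +kernel) (C : K)
  obtain ⟨v', hv'⟩ := conj_root Na_monomial (perm_Na (K := K)) (r := 9) (by decide) 1 (by decide +kernel) (-(C : K)⁻¹)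
  have e22 : Tor f C C * N22 = X 22 v * X 1 v' * X 22 v := by
    have hc := Na_conj_Tor f (t := 1) (s := C) hC
    rw [inv_one, mul_one] at hc
    rw [← hc, ← hv, ← hv', N22]
    calc Na * Tor f 1 C * (Na : GL chevD4.Idx K)⁻¹ * (Na * Nb * Na⁻¹) = Na * (Tor f 1 C * Nb) * Na⁻¹ := by group
      _ = _ := by rw [hh2]; group
  obtain ⟨a1, b1, c1, f1⟩ := Nb_conj_short f (1 : K)
  obtain ⟨a2, b2, c2, f2⟩ := Nb_conj_short_neg f (-1 : K)
  have hu1 : X 22 v * u' ∈ UP (K := K) := by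
    rw [hu', f1]; exact mul_mem (X_mem_UP (by simp [UPset]) _) (ab_mem_UP a1 b1 c1)
  have hu2 : X 22 v * u' ∈ twistedD4 K q := by
    rw [← hv]
    exact mul_mem (mul_mem (mul_mem hNa (X14_mem f hf hK hC)) (inv_mem hNa))
      (mul_mem (mul_mem hb (Xa_mem f hf hK _)) (inv_mem hb))
  have hY1 : X 1 v' * Y' ∈ UN (K := K) := by
    rw [hY', f2]; exact mul_mem (neg_mem_UN (r := 22) (by simp [UPset]) _) (ab_mem_UN a2 b2 c2)
  have hY2 : X 1 v' * Y' ∈ twistedD4 K q := by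
    rw [← hv']
    exact mul_mem (mul_mem (mul_mem hNa (X9_mem f hf hK (by rw [map_neg, map_inv₀, hC]))) (inv_mem hNa))
      (mul_mem (mul_mem hb (Xna_mem f hf hK _)) (inv_mem hb))
  refine ⟨Tor f C C, Subgroup.mem_inf.2 ⟨Lev_le_Pst (Tor_mem_Lev f C C), Tor_mem f hf hK hC⟩, X 22 v * u',
    Subgroup.mem_inf.2 ⟨hu1, hu2⟩, X 1 v' * Y', Subgroup.mem_inf.2 ⟨hY1, hY2⟩, ?_, chi_Tor f C C⟩
  rw [← mul_assoc, e22, e']
  refine merge_two ?_ ?_ ?_
  · rw [hu', f1]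
    exact ((X_comm (by decide +kernel) _ _).mul_right (X_comm (by decide +kernel) _ _)).mul_right
      (X_comm (by decide +kernel) _ _)
  · rw [hY', f2]
    exact ((X_comm (by decide +kernel) _ _).mul_right (X_comm (by decide +kernel) _ _)).mul_right
      (X_comm (by decide +kernel) _ _)
  · rw [hu', f1]
    exact ((X_comm (by decide +kernel) _ _).mul_right (X_comm (by decide +kernel) _ _)).mul_right
      (X_comm (by decide +kernel) _ _)

/-- The Gauss form with a prescribed coefficient. -/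
theorem exists_gauss {g : GL chevD4.Idx K} (hg : g ∈ twistedD4 K q) (hne : g ≠ 1) {c : K} (hc : f c = c)
    (hc0 : c ≠ 0) : ∃ Y ∈ UN (K := K) ⊓ twistedD4 K q, ∃ p ∈ Pst (K := K) ⊓ twistedD4 K q,
      chi p = c ∧ ConjS q g (Y * p) := by
  obtain ⟨n, hn, p, hp, hgp⟩ := exists_coset f hf hK hg hne
  have hopp : Opp q f n := by
    simp only [List.mem_cons, List.not_mem_nil, or_false] at hn
    rcases hn with rfl | rfl | rfl
    · exact opp_Nb f hf hK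
    · exact opp_Nab f hf hK
    · exact opp_top f hf hK
  obtain ⟨t, s, -, -, ⟨hs, -⟩, -, -, hchi⟩ := exists_LForm f hf hK hp.2 hp.1
  have hC0 : chi p / c ≠ 0 := div_ne_zero (chi_ne_zero hp.1) hc0
  obtain ⟨h, hh, u, hu, Y, hY, e, hchih⟩ := hopp (Units.mk0 _ hC0) (by
    rw [Units.val_mk0, map_div₀, hc, hchi, hs])
  have huP : u ∈ Pst (K := K) ⊓ twistedD4 K q := ⟨fix_le (UP_fix hu.1), hu.2⟩
  refine ⟨Y, hY, u * p * h⁻¹ * u, mul_mem (mul_mem (mul_mem huP hp) (inv_mem hh)) huP, ?_,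
    hgp.trans ⟨u⁻¹ * h, mul_mem (inv_mem hu.2) hh.2, ?_⟩⟩
  · rw [chi_mul _ huP.1, chi_mul _ (inv_mem hh.1), chi_mul _ hp.1, chi_fix (UP_fix hu.1), chi_inv hh.1, hchih,
      Units.val_mk0, one_mul, mul_one, inv_div, mul_comm (chi p), div_mul_cancel₀ _ (chi_ne_zero hp.1)]
  · calc u⁻¹ * h * (n * p) * (u⁻¹ * h)⁻¹ = u⁻¹ * (h * n) * p * h⁻¹ * u := by group
      _ = _ := by rw [e]; group

/-- The covering criterion. -/
theorem covers_of_mid {x : GL chevD4.Idx K} {c : K} (hc : f c = c) (hc0 : c ≠ 0) (hmid : Mid q f x c) :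
    ∀ g ∈ twistedD4 K q, g ≠ 1 → ∃ a b, ConjS q x a ∧ ConjS q x b ∧ g = a * b := by
  intro g hg hne
  obtain ⟨Y, hY, p, hp, hchi, k, hk, hkg⟩ := exists_gauss f hf hK hg hne hc hc0
  obtain ⟨t, s, l, w, hl, hw, rfl, hs⟩ := exists_LForm f hf hK hp.2 hp.1
  obtain ⟨m, hm, a, b, hab, ha, hb⟩ := hmid t s l hl (hs.symm.trans hchi)
  have hY' : m * Y * m⁻¹ ∈ UN (K := K) ⊓ twistedD4 K q :=
    Subgroup.mem_inf.2 ⟨conj_UN hm.1 hY.1, mul_mem (mul_mem hm.2 hY.2) (inv_mem hm.2)⟩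
  have hw' : m * w * m⁻¹ ∈ UP (K := K) ⊓ twistedD4 K q :=
    Subgroup.mem_inf.2 ⟨conj_UP hm.1 hw.1, mul_mem (mul_mem hm.2 hw.2) (inv_mem hm.2)⟩
  have hmk : (m * k)⁻¹ ∈ twistedD4 K q := inv_mem (mul_mem hm.2 hk)
  refine ⟨_, _, (ha _ hY').trans ⟨(m * k)⁻¹, hmk, rfl⟩, (hb _ hw').trans ⟨(m * k)⁻¹, hmk, rfl⟩, ?_⟩
  calc g = k⁻¹ * (Y * (l * w)) * k := by rw [← hkg]; group
    _ = (m * k)⁻¹ * ((m * Y * m⁻¹) * (m * l * m⁻¹) * (m * w * m⁻¹)) * (m * k) := by group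
    _ = _ := by rw [hab]; group

end Cfsg.Agent.H23.Ore3D4
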