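import Cfsg.Agent.H23.Ore3D4.LargeTorus

/-!
# A semisimple element with the middle property, for four or more elements in the fixed field
-/

set_option autoImplicit false
set_option maxRecDepth 100000

namespace Cfsg.Agent.H23.Ore3D4

open Cfsg.Lie Cfsg.Agent.H46 Cfsg.Agent.H47
open scoped Matrix

variable {K : Type*} [Field K]

theorem Xa_pos (f : K →+* K) (a : K) : Xa f a ∈ chevD4.posUnipotent K := by
  rw [goodD4.posUnipotent_eq]
  exact mul_mem (mul_mem (goodD4.xg_mem_posSub (goodD4.isPosRoot_iff.2 (by decide +kernel)) (Set.mem_univ _) _)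
    (goodD4.xg_mem_posSub (goodD4.isPosRoot_iff.2 (by decide +kernel)) (Set.mem_univ _) _))
    (goodD4.xg_mem_posSub (goodD4.isPosRoot_iff.2 (by decide +kernel)) (Set.mem_univ _) _)

theorem X_neg_pos {r : ℕ} (hr : r < 12) (t : K) :
    (n0 : GL chevD4.Idx K)⁻¹ * X r t * n0 ∈ chevD4.posUnipotent K := by
  obtain ⟨c, hc⟩ := conj_neg (n := (n0 : GL chevD4.Idx K)⁻¹) (Or.inr rfl) (r := r) (by omega)
  have h := hc t
  rw [inv_inv] at h
  rw [h, goodD4.posUnipotent_eq]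
  exact goodD4.xg_mem_posSub (goodD4.isPosRoot_iff.2 ⟨show 12 ≤ 23 - r by omega, show 23 - r < 24 by omega⟩)
    (Set.mem_univ _) _

theorem Xna_opp (f : K →+* K) (a : K) :
    (n0 : GL chevD4.Idx K)⁻¹ * Xna f a * n0 ∈ chevD4.posUnipotent K := by
  have e : (n0 : GL chevD4.Idx K)⁻¹ * Xna f a * n0 =
      (n0⁻¹ * X 5 a * n0) * (n0⁻¹ * X 10 (f a) * n0) * (n0⁻¹ * X 11 (f (f a)) * n0) := by
    rw [Xna]; group
  rw [e]
  exact mul_mem (mul_mem (X_neg_pos (by decide) _) (X_neg_pos (by decide) _)) (X_neg_pos (by decide) _)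

theorem Xna_eq (f : K →+* K) (v : Kˣ) :
    Xna f (-(v : K)) = Xa f (-((v⁻¹ : Kˣ) : K)) * Tor f v⁻¹ 1 * Na * Xa f (-((v⁻¹ : Kˣ) : K)) := by
  have h := (NA_eq f ((v⁻¹ : Kˣ) : K)).symm.trans (NA_split f v⁻¹)
  rw [show -(((v⁻¹ : Kˣ) : K))⁻¹ = -(v : K) by simp] at h
  rw [← Xa_inv, mul_assoc _ (Tor f v⁻¹ 1), ← h]
  group

theorem pow_eq_one_of_twist {G : Type*} [Group G] {u : G} {q : ℕ} (hq : 4 ≤ q) (h : u * u ^ q = (u ^ q) ^ q) :
    u ^ (q * q - q - 1) = 1 := by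
  have hh : q * q = q * q - q - 1 + (q + 1) := by
    have : q * 4 ≤ q * q := Nat.mul_le_mul_left _ hq
    omega
  rw [← pow_mul, ← pow_succ'] at h
  conv_rhs at h => rw [hh, pow_add]
  exact mul_eq_right.1 h.symm

theorem exists_params [Fintype K] (p : ℕ) [Fact p.Prime] [CharP K p] {q : ℕ} (f : K →+* K)
    (hf : ∀ x, f x = x ^ q) (hK : Fintype.card K = q ^ 3) (hq : 4 ≤ q) :
    ∃ t s : Kˣ, f (s : K) = s ∧ Reg f t s ∧ Reg f t (nrm f t * s⁻¹) ∧
      ∀ u : Kˣ, u ^ 2 = nrm f t → u = 1 ∧ nrm f t = 1 := by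
  classical
  obtain ⟨g, hg⟩ := IsCyclic.exists_generator (α := Kˣ)
  have ho : orderOf g = q ^ 3 - 1 := by
    rw [orderOf_eq_card_of_forall_mem_zpowers hg, Nat.card_eq_fintype_card, Fintype.card_units, hK]
  have h3 := fu_three f hf hK
  have hgn : g ^ (q ^ 3 - 1) = 1 := ho ▸ pow_orderOf_eq_one g
  set n := q ^ 2 + q + 1 with hn
  have hq1 : 1 ≤ q := by omega
  have hmul : (q - 1) * n = q ^ 3 - 1 := by
    obtain ⟨r, rfl⟩ := Nat.exists_eq_add_of_le hq1
    rw [Nat.add_sub_cancel_left, hn]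
    have : (1 + r) ^ 3 = r * ((1 + r) ^ 2 + (1 + r) + 1) + 1 := by ring
    omega
  have hn0 : 0 < n := by omega
  have small : ∀ k, g ^ k = 1 → k < q ^ 3 - 1 → k = 0 := fun k hk hlt =>
    Nat.eq_zero_of_dvd_of_lt (ho ▸ orderOf_dvd_of_pow_eq_one hk) hlt
  set M := g ^ n with hM
  have hM1 : M ^ (q - 1) = 1 := by rw [hM, ← pow_mul, mul_comm, hmul, hgn]
  have hMs : ∀ k, M ^ k = 1 → k < q - 1 → k = 0 := fun k hk hlt => by
    have := small (n * k) (by rw [pow_mul]; exact hk)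
      (by rw [← hmul, mul_comm n k]; exact Nat.mul_lt_mul_of_pos_right hlt hn0)
    rcases mul_eq_zero.1 this with h | h
    · omega
    · exact h
  have fix : ∀ u : Kˣ, u ^ (q - 1) = 1 → fu f u = u := fun u hu => by
    rw [fu_pow f hf hK, show q = q - 1 + 1 by omega, pow_succ, hu, one_mul]
  have fix' : ∀ u : Kˣ, fu f u = u → u ^ (q - 1) = 1 := fun u hu => by
    rw [fu_pow f hf hK, show q = q - 1 + 1 by omega, pow_succ, mul_eq_right] at hu
    exact hu
  have hN : nrm f g = M := by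
    rw [nrm, fu_pow f hf hK, fu_pow f hf hK, ← pow_mul, hM, hn, ← sq, pow_add, pow_add, pow_one]
    ac_rfl
  have hfM : fu f M = M := fix M hM1
  have key : ∀ t : Kˣ, t ^ (2 * (q - 1)) ≠ 1 → t * fu f t ≠ fu f (fu f t) →
      fu f (nrm f t) = nrm f t → M ^ 2 ≠ nrm f t → (M ^ 2) ^ 2 ≠ nrm f t →
      Reg f t (M ^ 2) ∧ Reg f t (nrm f t * (M ^ 2)⁻¹) := by
    intro t ht2 h2a hfN hsN hs2N
    have hs : fu f (M ^ 2) = M ^ 2 := by rw [map_pow, hfM]
    have hs' : fu f (nrm f t * (M ^ 2)⁻¹) = nrm f t * (M ^ 2)⁻¹ := by rw [map_mul, map_inv, hs, hfN]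
    have hsq : ∀ u : Kˣ, fu f u = u → t ^ 2 ≠ u := fun u hu h => ht2 (by rw [pow_mul, h]; exact fix' u hu)
    have hab : ∀ u : Kˣ, fu f u = u → t ^ 2 * u ≠ nrm f t := fun u hu h =>
      hsq (nrm f t * u⁻¹) (by rw [map_mul, map_inv, hu, hfN]) (eq_mul_inv_of_mul_eq h)
    have hM2 : M ^ 2 ≠ 1 := fun h => by
      have := hMs 2 h (by omega)
      omega
    refine ⟨reg_of f (congrArg Units.val hs) h3 (hsq _ hs) hs2N (hab _ hs) h2a hsN hM2,
      reg_of f (congrArg Units.val hs') h3 (hsq _ hs') (fun h => ?_) (hab _ hs') h2a (fun h => ?_)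
        fun h => hsN (mul_inv_eq_one.1 h).symm⟩
    · refine hs2N ?_
      rw [mul_pow, sq (nrm f t), mul_assoc, mul_eq_left, inv_pow, mul_inv_eq_one] at h
      exact h.symm
    · rw [mul_eq_left, inv_eq_one] at h
      exact hM2 h
  have hfs : f ((M ^ 2 : Kˣ) : K) = ((M ^ 2 : Kˣ) : K) := by rw [← fu_val, map_pow, hfM]
  have hbound : q * q - q - 1 < q ^ 3 - 1 := by
    have h1 : q * q * 4 ≤ q * q * q := Nat.mul_le_mul_left _ hq
    have h2 : q ^ 3 = q * q * q := by ring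
    have h3 : 4 * 4 ≤ q * q := Nat.mul_le_mul hq hq
    omega
  rcases eq_or_ne p 2 with hp | hp
  · have hchar : (2 : K) = 0 := by
      subst hp
      exact_mod_cast CharP.cast_eq_zero K 2
    have hu2 : ∀ u : Kˣ, u ^ 2 = 1 → u = 1 := fun u hu => by
      have h : ((u : K) - 1) ^ 2 = 0 := by
        have h' : (u : K) ^ 2 = 1 := by rw [← Units.val_pow_eq_pow_val, hu, Units.val_one]
        linear_combination h' + (1 - (u : K)) * hchar
      exact Units.ext (sub_eq_zero.1 ((pow_eq_zero_iff two_ne_zero).1 h))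
    set t := g ^ (q - 1) with ht
    have hNt : nrm f t = 1 := by
      rw [nrm, ht, map_pow, map_pow, ← mul_pow, ← mul_pow, show g * fu f g * fu f (fu f g) = M from hN, hM1]
    have h1 : t ^ (2 * (q - 1)) ≠ 1 := fun h => by
      rw [mul_comm, pow_mul] at h
      have h' := hu2 _ h
      rw [ht, ← pow_mul] at h'
      have h'' := small _ h' (by
        rw [← hmul]; exact Nat.mul_lt_mul_of_pos_left (by omega) (by omega))
      rcases mul_eq_zero.1 h'' with h | h <;> omega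
    have h2 : t * fu f t ≠ fu f (fu f t) := fun h => by
      rw [fu_pow f hf hK, fu_pow f hf hK] at h
      have e : g ^ ((q - 1) * (q * q - q - 1)) = 1 := by rw [pow_mul, ← ht]; exact pow_eq_one_of_twist hq h
      have := small _ e (by
        rw [← hmul]; refine Nat.mul_lt_mul_of_pos_left ?_ (by omega)
        rw [hn, sq]; omega)
      have : q * 4 ≤ q * q := Nat.mul_le_mul_left _ hq
      rcases mul_eq_zero.1 ‹(q - 1) * (q * q - q - 1) = 0› with h | h <;> omega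
    obtain ⟨r1, r2⟩ := key t h1 h2 (by rw [hNt, map_one])
      (fun h => by rw [hNt] at h; have := hMs 2 h (by omega); omega)
      (fun h => by
        rw [hNt] at h
        have := hu2 _ h
        have := hMs 2 this (by omega)
        omega)
    exact ⟨t, M ^ 2, hfs, r1, r2, fun u hu => ⟨hu2 u (hu.trans hNt), hNt⟩⟩
  · have hodd : Odd q := by
      rcases Nat.even_or_odd q with h | h
      · exfalso
        refine hp ?_
        have h2 : ((q ^ 3 : ℕ) : K) = 0 := by rw [← hK]; exact FiniteField.cast_card_eq_zero K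
        rw [CharP.cast_eq_zero_iff K p] at h2
        obtain ⟨m, hm, hmc⟩ := FiniteField.card K p
        rw [hK] at hmc
        exact (Nat.prime_dvd_prime_iff_eq Nat.prime_two hm).1
          (Nat.prime_two.dvd_of_dvd_pow (n := m) (hmc ▸ dvd_pow h.two_dvd (by norm_num))) |>.symm
      · exact h
    have hnodd : Odd n := by
      obtain ⟨k, rfl⟩ := hodd
      exact ⟨2 * k ^ 2 + 3 * k + 1, by rw [hn]; ring⟩
    have noSq : ∀ u : Kˣ, u ^ 2 ≠ M := by
      intro u hu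
      obtain ⟨k, rfl⟩ := (mem_powers_iff_mem_zpowers (x := g)).2 (hg u)
      simp only at hu
      rw [hM, ← pow_mul, pow_eq_pow_iff_modEq, ho] at hu
      have he : 2 ∣ q ^ 3 - 1 := by
        obtain ⟨k, rfl⟩ := hodd
        rw [← hmul]
        exact Dvd.dvd.mul_right ⟨k, by omega⟩ _
      have := hu.of_dvd he
      obtain ⟨j, hj⟩ := hnodd
      unfold Nat.ModEq at this
      omega
    have h1 : g ^ (2 * (q - 1)) ≠ 1 := fun h => by
      have := small _ h (by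
        rw [← hmul, mul_comm 2]; exact Nat.mul_lt_mul_of_pos_left (by omega) (by omega))
      omega
    have h2 : g * fu f g ≠ fu f (fu f g) := fun h => by
      rw [fu_pow f hf hK, fu_pow f hf hK] at h
      have := small _ (pow_eq_one_of_twist hq h) hbound
      have : q * 4 ≤ q * q := Nat.mul_le_mul_left _ hq
      omega
    obtain ⟨r1, r2⟩ := key g h1 h2 (by rw [hN, hfM]) (fun h => noSq M (h.trans hN))
      (fun h => noSq (M ^ 2) (h.trans hN))
    exact ⟨g, M ^ 2, hfs, r1, r2, fun u hu => absurd (hu.trans hN) (noSq u)⟩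

section mid

variable [Fintype K] {q : ℕ} (f : K →+* K) (hf : ∀ x, f x = x ^ q) (hK : Fintype.card K = q ^ 3)

include hf hK

/-- A regular torus element of the class absorbs unipotent elements from either side. -/
theorem absorb {x : GL chevD4.Idx K} {t s : Kˣ} (hs : f (s : K) = s) (hr : Reg f t s)
    (hx : ConjS q x (Tor f t s)) :
    (∀ v, v ∈ chevD4.posUnipotent K → v ∈ twistedD4 K q → ConjS q x (Tor f t s * v)) ∧
      ∀ v, n0⁻¹ * v * (n0 : GL chevD4.Idx K) ∈ chevD4.posUnipotent K → v ∈ twistedD4 K q →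
        ConjS q x (v * Tor f t s) := by
  have hT := Tor_mem f hf hK (t := t) hs
  have nrmz : ∀ z : Fin chevD4.rank → Kˣ, ∀ v ∈ chevD4.posUnipotent K,
      goodD4.torus z * v * (goodD4.torus z)⁻¹ ∈ chevD4.posUnipotent K := fun z v hv =>
    (Subgroup.mem_normalizer_iff.1 (goodD4.diagonal_le_normalizer_pos (goodD4.mem_diagonal.2 ⟨z, rfl⟩)) v).1 hv
  refine ⟨fun v hv hvS => hx.trans ((conjS_mul_of_regular (V := chevD4.posUnipotent K ⊓ twistedD4 K q)
    inf_le_right (fun w hw => Subgroup.mem_inf.2 ⟨nrmz _ w (Subgroup.mem_inf.1 hw).1,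
      mul_mem (mul_mem hT (Subgroup.mem_inf.1 hw).2) (inv_mem hT)⟩)
    fun w hw h => RegularTorus.eq_one_of_commute goodD4 _ hr (Subgroup.mem_inf.1 hw).1 h).2 v
      (Subgroup.mem_inf.2 ⟨hv, hvS⟩)), fun v hv hvS => hx.trans ?_⟩
  let V : Subgroup (GL chevD4.Idx K) :=
    (chevD4.posUnipotent K).comap (MulAut.conj (n0 : GL chevD4.Idx K)⁻¹).toMonoidHom ⊓ twistedD4 K q
  have hmem : ∀ w, w ∈ V ↔ n0⁻¹ * w * (n0 : GL chevD4.Idx K) ∈ chevD4.posUnipotent K ∧ w ∈ twistedD4 K q :=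
    fun w => by
      simp only [V, Subgroup.mem_inf, Subgroup.mem_comap, MulEquiv.coe_toMonoidHom, MulAut.conj_apply, inv_inv]
  have e0 := n0_conj_Tor f hf hK (t := t) hs
  have e1 : n0⁻¹ * Tor f t s * (n0 : GL chevD4.Idx K) = (Tor f t s)⁻¹ := by
    have := congrArg (fun g => (n0⁻¹ * g⁻¹ * (n0 : GL chevD4.Idx K))) e0
    simp only [inv_inv] at this
    rw [← this]
    group
  have cj : ∀ w, n0⁻¹ * (Tor f t s * w * (Tor f t s)⁻¹) * (n0 : GL chevD4.Idx K) =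
      goodD4.torus (zF f t s)⁻¹ * (n0⁻¹ * w * n0) * (goodD4.torus (zF f t s)⁻¹)⁻¹ := fun w => by
    rw [show n0⁻¹ * (Tor f t s * w * (Tor f t s)⁻¹) * (n0 : GL chevD4.Idx K) =
      (n0⁻¹ * Tor f t s * n0) * (n0⁻¹ * w * n0) * (n0⁻¹ * Tor f t s * n0)⁻¹ by group, e1, map_inv]
    rfl
  refine (conjS_mul_of_regular (V := V) inf_le_right (fun w hw => ?_) fun w hw h => ?_).1 v ((hmem v).2 ⟨hv, hvS⟩)
  · rw [hmem] at hw ⊢
    refine ⟨?_, mul_mem (mul_mem hT hw.2) (inv_mem hT)⟩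
    rw [cj w, ← map_inv]
    exact nrmz _ _ hw.1
  · rw [hmem] at hw
    have hr' : ∀ r < chevD4.nroots, goodD4.torusVal (zF f t s)⁻¹ r ≠ 1 := fun r h1 e => hr r h1 (by
      have := goodD4.torusVal_mul (zF f t s) (zF f t s)⁻¹ r
      rwa [mul_inv_cancel, goodD4.torusVal_one, e, mul_one, eq_comm] at this)
    have h1 := RegularTorus.eq_one_of_commute goodD4 _ hr' hw.1 (by rw [← cj w, h])
    calc w = n0 * (n0⁻¹ * w * n0) * (n0 : GL chevD4.Idx K)⁻¹ := by group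
      _ = 1 := by rw [h1]; group

end mid

/-- For `q ≥ 4` some element of order prime to `p` has the middle property. -/
theorem exists_large [Fintype K] (p : ℕ) [Fact p.Prime] [CharP K p] {q : ℕ} (f : K →+* K)
    (hf : ∀ x, f x = x ^ q) (hK : Fintype.card K = q ^ 3) (hq : 4 ≤ q) (_hqp : IsPrimePow q) :
    ∃ x ∈ twistedD4 K q, ¬ p ∣ orderOf x ∧ ∃ c : K, f c = c ∧ c ≠ 0 ∧ Mid q f x c := by
  classical
  obtain ⟨t₀, s₀, hs₀, hreg, hreg₂, hsq⟩ := exists_params p f hf hK hq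
  set N := nrm f t₀ with hN
  set x := Tor f t₀ s₀ with hx
  have hfN : f (N : K) = N := f_nrm f hf hK t₀
  have hs₂ : f ((N * s₀⁻¹ : Kˣ) : K) = ((N * s₀⁻¹ : Kˣ) : K) := by
    rw [Units.val_mul, map_mul, hfN, Units.val_inv_eq_inv_val, map_inv₀, hs₀]
  set x₂ := Tor f t₀ (N * s₀⁻¹) with hx₂
  have hxS := Tor_mem f hf hK (t := t₀) hs₀
  have hx2c : ConjS q x x₂ := ⟨Nb, Nb_mem f hf hK, Nb_conj_Tor f t₀ s₀⟩
  have hH : x * x₂ = Tor f (t₀ * t₀) N := by
    rw [hx, hx₂, Tor_mul]; congr 1; rw [mul_comm N, mul_inv_cancel_left]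
  refine ⟨x, hxS, ?_, (N : K), hfN, N.ne_zero, ?_⟩
  · intro hdvd
    have h1 : x ^ (q ^ 3 - 1) = 1 := by
      have hu : ∀ u : Kˣ, u ^ (q ^ 3 - 1) = 1 := fun u => by
        rw [← hK, ← Fintype.card_units]; exact pow_card_eq_one
      rw [hx, Tor_pow, hu, hu, Tor_one]
    have h2 := hdvd.trans (orderOf_dvd_of_pow_eq_one h1)
    have h3 : p ∣ q ^ 3 := by
      rw [← CharP.cast_eq_zero_iff K p, ← hK]; exact FiniteField.cast_card_eq_zero K
    have h4 : 1 ≤ q ^ 3 := Nat.one_le_pow _ _ (by omega)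
    have := Nat.dvd_sub h3 h2
    rw [show q ^ 3 - (q ^ 3 - 1) = 1 by omega] at this
    exact (Fact.out : p.Prime).not_dvd_one this
  intro t s l hl hsc
  obtain ⟨hs, hl⟩ := hl
  have hsN : s = N := Units.ext hsc
  clear_value N
  subst hsN
  have hA := absorb f hf hK hs₀ hreg (conjS_refl q x)
  have hB := absorb f hf hK hs₂ hreg₂ hx2c
  set Q : GL chevD4.Idx K → Prop := fun l => ∃ m ∈ Lev (K := K) ⊓ twistedD4 K q, ∃ a b, m * l * m⁻¹ = a * b ∧
      (∀ Y ∈ UN (K := K) ⊓ twistedD4 K q, ConjS q x (Y * a)) ∧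
      (∀ V ∈ UP (K := K) ⊓ twistedD4 K q, ConjS q x (b * V)) with hQ
  have mk : ∀ w u : K, Q (Xna f w * (x * x₂) * Xa f u) := fun w u => by
    refine ⟨1, one_mem _, Xna f w * x, x₂ * Xa f u, by group, fun Y hY => ?_, fun V hV => ?_⟩
    · rw [← mul_assoc]
      refine hA.2 _ ?_ (mul_mem hY.2 (Xna_mem f hf hK w))
      obtain ⟨y, hy, he⟩ := hY.1
      rw [MulEquiv.coe_toMonoidHom, MulAut.conj_apply] at he
      rw [← he, show n0⁻¹ * (n0 * y * n0⁻¹ * Xna f w) * (n0 : GL chevD4.Idx K) =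
        y * (n0⁻¹ * Xna f w * n0) by group]
      exact mul_mem (UP_le_pos hy) (Xna_opp f w)
    · rw [mul_assoc]
      exact hB.1 _ (mul_mem (Xa_pos f u) (UP_le_pos hV.1)) (mul_mem (Xa_mem f hf hK u) hV.2)
  have tr : ∀ (m l l' : GL chevD4.Idx K), m ∈ Lev (K := K) ⊓ twistedD4 K q → m * l * m⁻¹ = l' → Q l' → Q l := by
    rintro m l l' hm rfl ⟨m', hm', a, b, he, h1, h2⟩
    exact ⟨m' * m, mul_mem hm' hm, a, b, by rw [← he]; group, h1, h2⟩
  have memXa : ∀ v : K, Xa f v ∈ Lev (K := K) ⊓ twistedD4 K q := fun v =>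
    ⟨Xa_mem_Lev f v, Xa_mem f hf hK v⟩
  -- forms through the monomial element
  have big : ∀ (t : Kˣ) (w : K), Q (Tor f t s * Na * Xa f w) := by
    intro t w
    set t₂ := s * (t₀ * t₀)⁻¹ with ht₂
    set τ := t * t₂⁻¹ with hτ
    set y : K := ((aVal (t₀ * t₀)⁻¹ s⁻¹ : Kˣ) : K) * (-(τ : K)) with hy
    have hmove : Xa f (-(τ : K)) * Tor f (t₀ * t₀) s = Tor f (t₀ * t₀) s * Xa f y := by
      have h := torus_conj_Xa' f (t := (t₀ * t₀)⁻¹) (s := s⁻¹)
        (by rw [Units.val_inv_eq_inv_val, map_inv₀, hs]) (-(τ : K))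
      rw [← Tor_inv, inv_inv] at h
      rw [hy, ← h]
      group
    have hNaH : Na * Tor f (t₀ * t₀) s = Tor f t₂ s * (Na : GL chevD4.Idx K) := by
      rw [← mul_inv_eq_iff_eq_mul]; exact Na_conj_Tor f hs
    have hne : Xna f (-((τ⁻¹ : Kˣ) : K)) = Xa f (-(τ : K)) * Tor f τ 1 * Na * Xa f (-(τ : K)) := by
      rw [Xna_eq, inv_inv]
    have key : Xna f (-((τ⁻¹ : Kˣ) : K)) * (x * x₂) * Xa f (w + τ - y) =
        Xa f (-(τ : K)) * (Tor f t s * Na * Xa f w) * (Xa f (-(τ : K)))⁻¹ := by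
      rw [hne, hH, Xa_inv, neg_neg]
      calc Xa f (-(τ : K)) * Tor f τ 1 * Na * Xa f (-(τ : K)) * Tor f (t₀ * t₀) s * Xa f (w + τ - y)
          = Xa f (-(τ : K)) * Tor f τ 1 * Na * (Xa f (-(τ : K)) * Tor f (t₀ * t₀) s) * Xa f (w + τ - y) := by
            group
        _ = Xa f (-(τ : K)) * Tor f τ 1 * (Na * Tor f (t₀ * t₀) s) * (Xa f y * Xa f (w + τ - y)) := by
            rw [hmove]; group
        _ = Xa f (-(τ : K)) * (Tor f τ 1 * Tor f t₂ s) * Na * Xa f (w + τ) := by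
            rw [hNaH, Xa_add, add_sub_cancel]; group
        _ = _ := by
            rw [Tor_mul, one_mul, hτ, inv_mul_cancel_right, ← Xa_add]; group
    exact tr _ _ _ (memXa _) key.symm (mk _ _)
  have full : ∀ (t : Kˣ) (v v' : K), Q (Xa f v * Tor f t s * Na * Xa f v') := fun t v v' =>
    tr (Xa f v)⁻¹ _ _ (inv_mem (memXa v)) (by rw [← Xa_add]; group) (big t (v' + v))
  have nz : ∀ (t : Kˣ) (v : Kˣ), Q (Xa f (v : K) * Tor f t s) := by
    intro t v
    refine tr Na _ _ ⟨Na_mem_Lev, Na_mem f hf hK⟩ ?_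
      (full (v⁻¹ * t) (-((v⁻¹ : Kˣ) : K))
        (((aVal (s * t⁻¹)⁻¹ s⁻¹ : Kˣ) : K) * (-((v⁻¹ : Kˣ) : K))))
    set a : K := -((v⁻¹ : Kˣ) : K)
    set h' := Tor f (s * t⁻¹) s with hh'
    have e1 : Na * h' = Tor f t s * (Na : GL chevD4.Idx K) := by
      rw [hh', ← mul_inv_eq_iff_eq_mul, Na_conj_Tor f hs, mul_inv, inv_inv, mul_inv_cancel_left]
    have e2 : Xa f a * h' = h' * Xa f (((aVal (s * t⁻¹)⁻¹ s⁻¹ : Kˣ) : K) * a) := by
      have h := torus_conj_Xa' f (t := (s * t⁻¹)⁻¹) (s := s⁻¹)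
        (by rw [Units.val_inv_eq_inv_val, map_inv₀, hs]) a
      rw [← Tor_inv, inv_inv] at h
      rw [← h, hh']
      group
    calc Na * (Xa f (v : K) * Tor f t s) * (Na : GL chevD4.Idx K)⁻¹
        = (Na * Xa f (v : K) * Na⁻¹) * (Na * Tor f t s * Na⁻¹) := by group
      _ = Xa f a * Tor f v⁻¹ 1 * Na * (Xa f a * h') := by
          rw [Na_conj_Xa, Na_conj_Tor f hs, Xna_eq]; simp only [a, hh']; group
      _ = Xa f a * Tor f v⁻¹ 1 * (Na * h') * Xa f (((aVal (s * t⁻¹)⁻¹ s⁻¹ : Kˣ) : K) * a) := by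
          rw [e2]; group
      _ = Xa f a * (Tor f v⁻¹ 1 * Tor f t s) * Na * Xa f (((aVal (s * t⁻¹)⁻¹ s⁻¹ : Kˣ) : K) * a) := by
          rw [e1]; group
      _ = _ := by rw [Tor_mul, one_mul]
  change Q l
  rcases hl with ⟨v, rfl⟩ | ⟨v, v', rfl⟩
  swap
  · exact full t v v'
  by_cases hv : v = 0
  swap
  · exact nz t (Units.mk0 v hv)
  subst hv
  rw [Xa_zero, one_mul]
  by_cases hα : (aVal t s : K) = 1
  · have h2 : t ^ 2 = s := mul_inv_eq_one.1 (Units.ext hα)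
    obtain ⟨rfl, hN1⟩ := hsq t h2
    rw [hN1, Tor_one]
    refine ⟨1, one_mem _, x, x⁻¹, by group, fun Y hY => hA.2 _ ?_ hY.2, fun V hV => ?_⟩
    · obtain ⟨y, hy, rfl⟩ := hY.1
      rw [MulEquiv.coe_toMonoidHom, MulAut.conj_apply]
      simpa [mul_assoc] using UP_le_pos hy
    · have hinv : ConjS q x (Tor f t₀⁻¹ s₀⁻¹) :=
        ⟨n0, n0_mem f hf hK, by rw [hx, n0_conj_Tor f hf hK hs₀, Tor_inv]⟩
      rw [hx, Tor_inv]
      refine (absorb f hf hK (by rw [Units.val_inv_eq_inv_val, map_inv₀, hs₀]) ?_ hinv).1 _ (UP_le_pos hV.1) hV.2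
      intro r hr h
      refine hreg r hr ?_
      have e := torusVal_zF f t₀⁻¹ s₀⁻¹ r hr
      rw [h, map_inv, map_inv, inv_zpow, inv_zpow, inv_zpow, inv_zpow, ← mul_inv, ← mul_inv, ← mul_inv,
        eq_comm, inv_eq_one] at e
      rwa [torusVal_zF f t₀ s₀ r hr]
  · refine tr (Xa f 1) _ _ (memXa 1) ?_ (nz t (Units.mk0 (1 - (aVal t s : K)) (sub_ne_zero.2 (Ne.symm hα))))
    have h := torus_conj_Xa' f (t := t) hs (-1)
    calc Xa f 1 * Tor f t s * (Xa f 1)⁻¹ = Xa f 1 * (Tor f t s * Xa f (-1) * (Tor f t s)⁻¹) * Tor f t s := by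
          rw [Xa_inv]; group
      _ = _ := by rw [h, Xa_add, mul_neg, mul_one, ← sub_eq_add_neg, Units.val_mk0]

end Cfsg.Agent.H23.Ore3D4
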