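import Cfsg.Agent.H23.RegularTorus
import Cfsg.Agent.H46.TwistPerfect

/-!
# The stabiliser of the highest root line in D₄(K)
-/

set_option autoImplicit false
set_option maxRecDepth 100000

namespace Cfsg.Agent.H23.Ore3D4

open Cfsg.Lie Cfsg.Agent.H46
open scoped Matrix

variable {K : Type*} [Field K]

/-- A root element of D₄. -/
noncomputable abbrev X (r : ℕ) (t : K) : GL chevD4.Idx K := goodD4.xg r t

/-- The vector of the highest root. -/
def e23 : chevD4.Idx → K := bvec chevD4 K (chevD4.rank + 23)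

/-- The index of the highest root vector. -/
def i23 : chevD4.Idx := Sum.inr ⟨23, by decide⟩

theorem e23_apply : (e23 : chevD4.Idx → K) i23 = 1 := by
  simp [e23, bvec, code, i23]

/-- The coefficient at the highest root vector. -/
def chi (g : GL chevD4.Idx K) : K := ((g : Matrix chevD4.Idx chevD4.Idx K) *ᵥ e23) i23

/-- The stabiliser of the highest root line. -/
def Pst : Subgroup (GL chevD4.Idx K) where
  carrier := {g | ∃ c : K, (g : Matrix chevD4.Idx chevD4.Idx K) *ᵥ e23 = c • e23}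
  one_mem' := ⟨1, by simp⟩
  mul_mem' := by
    rintro a b ⟨c, hc⟩ ⟨d, hd⟩
    refine ⟨d * c, ?_⟩
    rw [Units.val_mul, ← Matrix.mulVec_mulVec, hd, Matrix.mulVec_smul, hc, smul_smul]
  inv_mem' := by
    rintro a ⟨c, hc⟩
    refine ⟨c⁻¹, ?_⟩
    have h1 : ((a⁻¹ : GL chevD4.Idx K) : Matrix chevD4.Idx chevD4.Idx K) *ᵥ (c • e23) = e23 := by
      rw [← hc, Matrix.mulVec_mulVec, ← Units.val_mul, inv_mul_cancel, Units.val_one, Matrix.one_mulVec]
    rw [Matrix.mulVec_smul] at h1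
    have hc0 : c ≠ 0 := by
      rintro rfl
      rw [zero_smul] at h1
      exact zero_ne_one ((congrFun h1 i23).trans e23_apply)
    conv_rhs => rw [← h1]
    rw [smul_smul, inv_mul_cancel₀ hc0, one_smul]

theorem mulVec_of_mem {g : GL chevD4.Idx K} (h : g ∈ Pst (K := K)) :
    (g : Matrix chevD4.Idx chevD4.Idx K) *ᵥ e23 = chi g • e23 := by
  obtain ⟨c, hc⟩ := h
  rw [hc, chi, hc, Pi.smul_apply, e23_apply, smul_eq_mul, mul_one]

theorem chi_one : chi (1 : GL chevD4.Idx K) = 1 := by simp [chi, e23_apply]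

theorem chi_mul (g : GL chevD4.Idx K) {h : GL chevD4.Idx K} (hh : h ∈ Pst (K := K)) :
    chi (g * h) = chi g * chi h := by
  rw [chi, Units.val_mul, ← Matrix.mulVec_mulVec, mulVec_of_mem hh, Matrix.mulVec_smul, Pi.smul_apply,
    smul_eq_mul, mul_comm]
  rfl

theorem chi_mul_inv {g : GL chevD4.Idx K} (hg : g ∈ Pst (K := K)) : chi g * chi g⁻¹ = 1 := by
  rw [← chi_mul g (inv_mem hg), mul_inv_cancel, chi_one]

theorem chi_inv {g : GL chevD4.Idx K} (hg : g ∈ Pst (K := K)) : chi g⁻¹ = (chi g)⁻¹ :=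
  eq_inv_of_mul_eq_one_right (chi_mul_inv hg)

theorem chi_ne_zero {g : GL chevD4.Idx K} (hg : g ∈ Pst (K := K)) : chi g ≠ 0 := fun h => by
  have := chi_mul_inv hg
  rw [h, zero_mul] at this
  exact zero_ne_one this

theorem chi_conj {g h : GL chevD4.Idx K} (hg : g ∈ Pst (K := K)) (hh : h ∈ Pst (K := K)) :
    chi (g * h * g⁻¹) = chi h := by
  rw [chi_mul _ (inv_mem hg), chi_mul _ hh, chi_inv hg, mul_comm (chi g), mul_inv_cancel_right₀ (chi_ne_zero hg)]

/-- The pointwise stabiliser of the highest root vector. -/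
def Fix : Subgroup (GL chevD4.Idx K) where
  carrier := {g | (g : Matrix chevD4.Idx chevD4.Idx K) *ᵥ e23 = e23}
  one_mem' := by simp
  mul_mem' := by
    intro a b ha hb
    simp only [Set.mem_ofPred_eq] at *
    rw [Units.val_mul, ← Matrix.mulVec_mulVec, hb, ha]
  inv_mem' := by
    intro a ha
    simp only [Set.mem_ofPred_eq] at *
    conv_lhs => rw [← ha]
    rw [Matrix.mulVec_mulVec, ← Units.val_mul, inv_mul_cancel, Units.val_one, Matrix.one_mulVec]

theorem fix_le : Fix (K := K) ≤ Pst := fun g hg => ⟨1, by rw [one_smul]; exact hg⟩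

theorem chi_fix {g : GL chevD4.Idx K} (hg : g ∈ Fix (K := K)) : chi g = 1 := by
  rw [chi, show (g : Matrix chevD4.Idx chevD4.Idx K) *ᵥ e23 = e23 from hg, e23_apply]

theorem ent23 : ∀ r : Fin 24, (12 ≤ r.val ∨ r.val = 5 ∨ r.val = 10 ∨ r.val = 11) →
    r.val = 23 ∨ (23 ≠ r.val ∧ 23 ≠ chevD4.neg r.val ∧ goodD4.tab.ent r.val 23 = []) := by decide +kernel

theorem X_mem_Fix {r : ℕ} (hr : r < 24) (h : 12 ≤ r ∨ r = 5 ∨ r = 10 ∨ r = 11) (t : K) : X r t ∈ Fix (K := K) := by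
  change (X r t : Matrix chevD4.Idx chevD4.Idx K) *ᵥ e23 = e23
  rw [X, Good.coe_xg]
  rcases ent23 ⟨r, hr⟩ h with rfl | ⟨h1, h2, h3⟩
  · exact goodD4.x_mulVec_self (show 23 < chevD4.nroots by decide) t
  · rw [e23, goodD4.x_mulVec_e (show r < chevD4.nroots from hr) t (show 23 < chevD4.nroots by decide) h1 h2, h3]
    simp

theorem posUnipotent_le_Fix : chevD4.posUnipotent K ≤ Fix := by
  rw [goodD4.posUnipotent_eq]
  refine (Subgroup.closure_le _).2 ?_
  rintro g ⟨r, t, ⟨hr, -⟩, rfl⟩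
  exact X_mem_Fix hr.1 (Or.inl (goodD4.isPosRoot_iff.1 hr).1) t

theorem torus_mulVec (z : Fin chevD4.rank → Kˣ) :
    (goodD4.torus z : Matrix chevD4.Idx chevD4.Idx K) *ᵥ e23 = (goodD4.torusVal z 23 : K) • e23 := by
  rw [goodD4.coe_torus, e23, rdiag_mulVec_e _ (show 23 < chevD4.nroots by decide)]

theorem torus_mem_Pst (z : Fin chevD4.rank → Kˣ) : goodD4.torus z ∈ Pst (K := K) := ⟨_, torus_mulVec z⟩

theorem chi_torus (z : Fin chevD4.rank → Kˣ) : chi (goodD4.torus z) = (goodD4.torusVal z 23 : K) := by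
  rw [chi, torus_mulVec, Pi.smul_apply, e23_apply, smul_eq_mul, mul_one]

/-- Some element outside the stabiliser. -/
theorem X9_not_mem : X 9 (1 : K) ∉ Pst (K := K) := by
  rintro ⟨c, hc⟩
  have h : goodD4.tab.ent 9 23 = [(22, 1)] ∨ goodD4.tab.ent 9 23 = [(22, -1)] := by decide +kernel
  rw [X, Good.coe_xg, e23, goodD4.x_mulVec_e (show 9 < chevD4.nroots by decide) 1
    (show 23 < chevD4.nroots by decide) (by decide) (by decide +kernel)] at hc
  have h22 := congrFun hc (Sum.inr ⟨22, by decide⟩)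
  rcases h with h | h <;> rw [h] at h22 <;> simp [bvec, code] at h22

/-- The roots of the unipotent radical. -/
def UPset : Set ℕ := {r | r ∈ [14, 15, 16, 17, 19, 20, 21, 22, 23]}

/-- The unipotent radical of the parabolic subgroup. -/
noncomputable def UP : Subgroup (GL chevD4.Idx K) := goodD4.posSub UPset

theorem UP_le_pos : UP (K := K) ≤ chevD4.posUnipotent K := goodD4.posSub_le_posUnipotent _

/-- Generators of the Levi subgroup. -/
def levGen : Set (GL chevD4.Idx K) :=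
  {g | (∃ z, g = goodD4.torus z) ∨ ∃ r ∈ [5, 10, 11, 12, 13, 18], ∃ t, g = X r t}

/-- The Levi subgroup. -/
noncomputable def Lev : Subgroup (GL chevD4.Idx K) := Subgroup.closure levGen

theorem torus_mem_Lev (z : Fin chevD4.rank → Kˣ) : goodD4.torus z ∈ Lev (K := K) :=
  Subgroup.subset_closure (Or.inl ⟨z, rfl⟩)

theorem X_mem_Lev {r : ℕ} (hr : r ∈ [5, 10, 11, 12, 13, 18]) (t : K) : X r t ∈ Lev (K := K) :=
  Subgroup.subset_closure (Or.inr ⟨r, hr, t, rfl⟩)

theorem ng_mem_Lev {r : ℕ} (hr : r ∈ [12, 13, 18]) (a : K) : goodD4.ng r a ∈ Lev (K := K) := by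
  have h : ∀ r ∈ [12, 13, 18], r ∈ [5, 10, 11, 12, 13, 18] ∧ chevD4.neg r ∈ [5, 10, 11, 12, 13, 18] := by
    decide +kernel
  exact mul_mem (mul_mem (X_mem_Lev (h r hr).1 _) (X_mem_Lev (h r hr).2 _)) (X_mem_Lev (h r hr).1 _)

theorem Lev_le_Pst : Lev (K := K) ≤ Pst := by
  refine (Subgroup.closure_le _).2 ?_
  rintro g (⟨z, rfl⟩ | ⟨r, hr, t, rfl⟩)
  · exact torus_mem_Pst z
  · fin_cases hr <;> exact fix_le (X_mem_Fix (by decide) (by decide) t)

theorem UP_comm_chk : ∀ r : Fin 24, (r.val = 12 ∨ r.val = 13 ∨ r.val = 18) →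
    ∀ s : Fin 24, s.val ∈ [14, 15, 16, 17, 19, 20, 21, 22, 23] →
      ∀ c ∈ chevD4.commTerms r.val s.val, c.1 ∈ [14, 15, 16, 17, 19, 20, 21, 22, 23] := by decide +kernel

theorem posX_normalizes {r : ℕ} (hr : r = 12 ∨ r = 13 ∨ r = 18) (t : K) :
    X r t ∈ Subgroup.normalizer (UP (K := K) : Set (GL chevD4.Idx K)) := by
  have hr24 : r < 24 := by omega
  refine goodD4.xg_mem_normalizer_posSub (T := UPset) (goodD4.isPosRoot_iff.2 ⟨?_, hr24⟩) (fun s hs hsT _ => ?_) t
  · change 12 ≤ r; omega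
  · exact UP_comm_chk ⟨r, hr24⟩ hr ⟨s, hs.1⟩ hsT

theorem UP_perm_chk : ∀ i : Fin 4, i ≠ 1 → ∀ s : Fin 24, s.val ∈ [14, 15, 16, 17, 19, 20, 21, 22, 23] →
    chevD4.reflectRoot i.val s.val ∈ [14, 15, 16, 17, 19, 20, 21, 22, 23] := by decide +kernel

theorem isPos_of_UPset {s : ℕ} (h : s ∈ UPset) : chevD4.IsPosRoot s := by
  refine goodD4.isPosRoot_iff.2 ?_
  change 12 ≤ s ∧ s < 24
  simp only [UPset, Set.mem_ofPred_eq, List.mem_cons, List.not_mem_nil, or_false] at h
  omega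

theorem map_posSub_le {g : GL chevD4.Idx K} {S : Set ℕ} {H : Subgroup (GL chevD4.Idx K)}
    (h : ∀ s, chevD4.IsPosRoot s → s ∈ S → ∀ t : K, g * X s t * g⁻¹ ∈ H) :
    ∀ u ∈ goodD4.posSub (F := K) S, g * u * g⁻¹ ∈ H := by
  intro u hu
  have : goodD4.posSub (F := K) S ≤ H.comap (MulAut.conj g).toMonoidHom := by
    refine (Subgroup.closure_le _).2 ?_
    rintro x ⟨s, t, ⟨hs, hsS⟩, rfl⟩
    exact h s hs hsS t
  exact this hu

theorem conj_ng_simple {i : Fin 4} (s : ℕ) (hs : s < 24) (t : K) :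
    goodD4.ng (chevD4.simple i.val) (1 : K) * X s t * (goodD4.ng (chevD4.simple i.val) (1 : K))⁻¹ =
      X (chevD4.reflectRoot i.val s) ((goodD4.tab.eta i.val s : K) * t) := by
  rw [X, goodD4.ng_simple_mul_xg i.2 (show s < chevD4.nroots from hs), mul_inv_cancel_right]

theorem ng_normalizes (i : Fin 4) (hi : i ≠ 1) :
    goodD4.ng (chevD4.simple i.val) (1 : K) ∈ Subgroup.normalizer (UP (K := K) : Set (GL chevD4.Idx K)) := by
  have key : ∀ u ∈ UP (K := K),
      goodD4.ng (chevD4.simple i.val) (1 : K) * u * (goodD4.ng (chevD4.simple i.val) (1 : K))⁻¹ ∈ UP (K := K) :=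
    map_posSub_le fun s hs hsS t => by
      rw [conj_ng_simple s hs.1]
      have := UP_perm_chk i hi ⟨s, hs.1⟩ hsS
      exact goodD4.xg_mem_posSub (isPos_of_UPset this) this _
  refine mem_normalizer_closure (fun g hg => ?_) fun g hg => ?_
  · exact key g (Subgroup.subset_closure hg)
  · obtain ⟨s, t, ⟨hs, hsS⟩, rfl⟩ := hg
    have h' := UP_perm_chk i hi ⟨s, hs.1⟩ hsS
    have he : (goodD4.tab.eta i.val (chevD4.reflectRoot i.val s) : K) *
        (goodD4.tab.eta i.val (chevD4.reflectRoot i.val s) : K) = 1 := goodD4.eta_cast_sq _ _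
    have hc := conj_ng_simple (i := i) (chevD4.reflectRoot i.val s) (isPos_of_UPset h').1
      ((goodD4.tab.eta i.val (chevD4.reflectRoot i.val s) : K) * t)
    have hrr : chevD4.reflectRoot i.val (chevD4.reflectRoot i.val s) = s := by
      have hh : ∀ j : Fin 4, ∀ s : Fin 24, chevD4.reflectRoot j.val (chevD4.reflectRoot j.val s.val) = s.val := by
        decide +kernel
      exact hh i ⟨s, hs.1⟩
    rw [hrr, ← mul_assoc, he, one_mul] at hc
    rw [show goodD4.xg s t = X s t from rfl, ← hc]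
    simp only [mul_assoc, inv_mul_cancel_left, inv_mul_cancel, mul_one]
    exact goodD4.xg_mem_posSub (isPos_of_UPset h') h' _

theorem Lev_normalizes : Lev (K := K) ≤ Subgroup.normalizer (UP (K := K) : Set (GL chevD4.Idx K)) := by
  refine (Subgroup.closure_le _).2 ?_
  rintro g (⟨z, rfl⟩ | ⟨r, hr, t, rfl⟩)
  · refine mem_normalizer_closure (fun x hx => ?_) fun x hx => ?_
    · obtain ⟨s, t, ⟨hs, hsS⟩, rfl⟩ := hx
      rw [goodD4.torus_conj_xg z hs.1]
      exact goodD4.xg_mem_posSub hs hsS _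
    · obtain ⟨s, t, ⟨hs, hsS⟩, rfl⟩ := hx
      have := goodD4.torus_conj_xg z⁻¹ hs.1 t
      rw [map_inv, inv_inv] at this
      rw [this]
      exact goodD4.xg_mem_posSub hs hsS _
  · have hneg : ∀ r i : ℕ, (r = 5 ∧ i = 0) ∨ (r = 10 ∧ i = 2) ∨ (r = 11 ∧ i = 3) →
        ∀ hi : i < 4, X r t ∈ Subgroup.normalizer (UP (K := K) : Set (GL chevD4.Idx K)) := by
      intro r i h hi
      have h1 : chevD4.neg (chevD4.simple i) = r ∧ chevD4.simple i < 24 ∧
          (chevD4.simple i = 12 ∨ chevD4.simple i = 13 ∨ chevD4.simple i = 18) ∧ (⟨i, hi⟩ : Fin 4) ≠ 1 := by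
        rcases h with ⟨rfl, rfl⟩ | ⟨rfl, rfl⟩ | ⟨rfl, rfl⟩ <;>
          exact ⟨by decide +kernel, by decide +kernel, by decide +kernel, fun e => by simpa using congrArg Fin.val e⟩
      rw [← h1.1, X, goodD4.xg_neg_eq (show chevD4.simple i < chevD4.nroots from h1.2.1)]
      exact mul_mem (mul_mem (ng_normalizes ⟨i, hi⟩ h1.2.2.2) (posX_normalizes h1.2.2.1 _))
        (inv_mem (ng_normalizes ⟨i, hi⟩ h1.2.2.2))
    simp only [List.mem_cons, List.not_mem_nil, or_false] at hr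
    rcases hr with rfl | rfl | rfl | rfl | rfl | rfl
    · exact hneg 5 0 (by tauto) (by decide)
    · exact hneg 10 2 (by tauto) (by decide)
    · exact hneg 11 3 (by tauto) (by decide)
    all_goals exact posX_normalizes (by tauto) t

theorem conj_UP {l u : GL chevD4.Idx K} (hl : l ∈ Lev (K := K)) (hu : u ∈ UP (K := K)) : l * u * l⁻¹ ∈ UP :=
  (Subgroup.mem_normalizer_iff.1 (Lev_normalizes hl) u).1 hu

end Cfsg.Agent.H23.Ore3D4
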