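import Cfsg.Agent.H23.Ore3D4.Setup

/-!
# Rank one relations and the longest element
-/

set_option autoImplicit false
set_option maxRecDepth 100000

namespace Cfsg.Agent.H23.Ore3D4

open Cfsg.Lie Cfsg.Agent.H46 Cfsg.Agent.H47
open scoped Matrix

variable {K : Type*} [Field K]

theorem X_comm {r s : ℕ} (h : r < 24 ∧ s < 24 ∧ s ≠ r ∧ s ≠ chevD4.neg r ∧ chevD4.commTerms r s = []) (t u : K) :
    Commute (X r t) (X s u) := by
  obtain ⟨hr, hs, h1, h2, h3⟩ := h
  obtain ⟨w, hw, e⟩ := goodD4.exists_comm (show r < chevD4.nroots from hr) (show s < chevD4.nroots from hs) h1 h2 t u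
  have : w = 1 := by
    rw [h3] at hw
    simpa using hw
  rw [this, mul_one] at e
  exact e.symm

theorem ng_def (r : ℕ) (a : K) : goodD4.ng r a = X r a * X (chevD4.neg r) (-a⁻¹) * X r a := rfl

/-- Merging two products of the shape `a b a`. -/
theorem merge_two {M : Type*} [Group M] {a b c d : M} (h1 : Commute a c) (h2 : Commute a d) (h3 : Commute b c) :
    a * b * a * (c * d * c) = a * c * (b * d) * (a * c) := by
  calc a * b * a * (c * d * c) = a * b * (a * (c * d)) * c := by group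
    _ = a * b * (c * d * a) * c := by rw [(h1.mul_right h2).eq]
    _ = a * (b * c) * d * a * c := by group
    _ = a * (c * b) * d * a * c := by rw [h3.eq]
    _ = _ := by group

theorem ng_comm {r s : ℕ} (hc : (r < 24 ∧ s < 24 ∧ s ≠ r ∧ s ≠ chevD4.neg r ∧ chevD4.commTerms r s = []) ∧
    (r < 24 ∧ chevD4.neg s < 24 ∧ chevD4.neg s ≠ r ∧ chevD4.neg s ≠ chevD4.neg r ∧
      chevD4.commTerms r (chevD4.neg s) = []) ∧
    (chevD4.neg r < 24 ∧ s < 24 ∧ s ≠ chevD4.neg r ∧ s ≠ chevD4.neg (chevD4.neg r) ∧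
      chevD4.commTerms (chevD4.neg r) s = []) ∧
    (chevD4.neg r < 24 ∧ chevD4.neg s < 24 ∧ chevD4.neg s ≠ chevD4.neg r ∧
      chevD4.neg s ≠ chevD4.neg (chevD4.neg r) ∧ chevD4.commTerms (chevD4.neg r) (chevD4.neg s) = [])) (a b : K) :
    Commute (goodD4.ng r a) (goodD4.ng s b) := by
  obtain ⟨h1, h2, h3, h4⟩ := hc
  have k1 : ∀ u, Commute (goodD4.ng r a) (X s u) := fun u =>
    ((X_comm h1 a u).mul_left (X_comm h3 _ u)).mul_left (X_comm h1 a u)
  have k2 : ∀ u, Commute (goodD4.ng r a) (X (chevD4.neg s) u) := fun u =>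
    ((X_comm h2 a u).mul_left (X_comm h4 _ u)).mul_left (X_comm h2 a u)
  exact ((k1 _).mul_right (k2 _)).mul_right (k1 _)

section rank

variable (f : K →+* K)

theorem NA_eq (a : K) : NA f a = Xa f a * Xna f (-a⁻¹) * Xa f a := by
  simp only [NA, Xa, Xna, ng_def, show chevD4.neg 18 = 5 by decide +kernel, show chevD4.neg 13 = 10 by decide +kernel,
    show chevD4.neg 12 = 11 by decide +kernel, map_neg, map_inv₀]
  rw [merge_two (X_comm (by decide +kernel) _ _) (X_comm (by decide +kernel) _ _) (X_comm (by decide +kernel) _ _)]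
  exact merge_two ((X_comm (by decide +kernel) _ _).mul_left (X_comm (by decide +kernel) _ _))
    ((X_comm (by decide +kernel) _ _).mul_left (X_comm (by decide +kernel) _ _))
    ((X_comm (by decide +kernel) _ _).mul_left (X_comm (by decide +kernel) _ _))

theorem Tor_eq_hg (a : Kˣ) : Tor f a 1 = goodD4.hg 18 (a : K) * goodD4.hg 13 (f a) * goodD4.hg 12 (f (f a)) := by
  obtain ⟨s0, -, s2, s3⟩ := simple_vals
  rw [← s0, ← s2, ← s3, ← fu_val, ← fu_val]
  rw [show goodD4.hg (chevD4.simple 0) (a : K) = goodD4.torus (Pi.mulSingle (⟨0, by decide⟩ : Fin chevD4.rank) a)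
      from (goodD4.torus_mulSingle ⟨0, by decide⟩ a).symm,
    show goodD4.hg (chevD4.simple 2) ((fu f a : Kˣ) : K) =
      goodD4.torus (Pi.mulSingle (⟨2, by decide⟩ : Fin chevD4.rank) (fu f a))
      from (goodD4.torus_mulSingle ⟨2, by decide⟩ _).symm,
    show goodD4.hg (chevD4.simple 3) ((fu f (fu f a) : Kˣ) : K) =
      goodD4.torus (Pi.mulSingle (⟨3, by decide⟩ : Fin chevD4.rank) (fu f (fu f a)))
      from (goodD4.torus_mulSingle ⟨3, by decide⟩ _).symm, ← map_mul, ← map_mul, Tor]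
  congr 1
  funext ⟨k, hk⟩
  have hk4 : k < 4 := hk
  rw [Pi.mul_apply, Pi.mul_apply, Pi.mulSingle_apply, Pi.mulSingle_apply, Pi.mulSingle_apply]
  interval_cases k <;> simp [zF, Fin.ext_iff] <;> rfl

theorem NA_split (a : Kˣ) : NA f a = Tor f a 1 * Na := by
  rw [Tor_eq_hg, NA, Na, goodD4.ng_eq_hg_mul (r := 18) (a : K), goodD4.ng_eq_hg_mul (r := 13) (f a),
    goodD4.ng_eq_hg_mul (r := 12) (f (f a))]
  have c1 : Commute (goodD4.ng 18 (1 : K)) (goodD4.hg 13 (f a)) := by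
    rw [Good.hg]; exact (ng_comm (by decide +kernel) _ _).mul_right (ng_comm (by decide +kernel) _ _)
  have c2 : Commute (goodD4.ng 18 (1 : K) * goodD4.ng 13 1) (goodD4.hg 12 (f (f a))) := by
    rw [Good.hg]
    exact ((ng_comm (by decide +kernel) _ _).mul_right (ng_comm (by decide +kernel) _ _)).mul_left
      ((ng_comm (by decide +kernel) _ _).mul_right (ng_comm (by decide +kernel) _ _))
  calc goodD4.hg 18 (a : K) * goodD4.ng 18 1 * (goodD4.hg 13 (f a) * goodD4.ng 13 1) *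
        (goodD4.hg 12 (f (f a)) * goodD4.ng 12 1)
      = goodD4.hg 18 (a : K) * (goodD4.ng 18 1 * goodD4.hg 13 (f a)) * goodD4.ng 13 1 * goodD4.hg 12 (f (f a)) *
          goodD4.ng 12 1 := by group
    _ = goodD4.hg 18 (a : K) * (goodD4.hg 13 (f a) * goodD4.ng 18 1) * goodD4.ng 13 1 * goodD4.hg 12 (f (f a)) *
          goodD4.ng 12 1 := by rw [c1.eq]
    _ = goodD4.hg 18 (a : K) * goodD4.hg 13 (f a) * ((goodD4.ng 18 1 * goodD4.ng 13 1) * goodD4.hg 12 (f (f a))) *
          goodD4.ng 12 1 := by group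
    _ = _ := by rw [c2.eq]; group

theorem Na_eq_nPar : (Na : GL chevD4.Idx K) = graphD4.nPar goodD4 0 (fun _ => (1 : K)) := by
  obtain ⟨o0, -⟩ := orbD4
  obtain ⟨s0, -, s2, s3⟩ := simple_vals
  simp [Na, GraphData.nPar, GraphData.orbProd, o0, s0, s2, s3, mul_assoc]

theorem Nb_eq_nPar : (Nb : GL chevD4.Idx K) = graphD4.nPar goodD4 1 (fun _ => (1 : K)) := by
  obtain ⟨-, o1, -⟩ := orbD4
  simp [Nb, GraphData.nPar, GraphData.orbProd, o1, simple_vals.2.1]

theorem Na_conj_Xa (a : K) : Na * Xa f a * (Na : GL chevD4.Idx K)⁻¹ = Xna f (-a) := by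
  obtain ⟨o0, -⟩ := orbD4
  obtain ⟨s0, -, s2, s3⟩ := simple_vals
  have h := graphD4.nPar_conj_orbProd okD4 (F := K) 0
    (fun k => if k.val = 0 then a else if k.val = 2 then f a else f (f a))
  rw [← Na_eq_nPar] at h
  simp only [GraphData.orbProd, o0, List.map_cons, List.map_nil, List.prod_cons, List.prod_nil, mul_one, s0, s2, s3,
    show chevD4.neg 18 = 5 by decide +kernel, show chevD4.neg 13 = 10 by decide +kernel,
    show chevD4.neg 12 = 11 by decide +kernel] at h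
  simpa [Xa, Xna, mul_assoc] using h

theorem torus_conj_Xa (t s : Kˣ) (a : K) :
    Tor f t s * Xa f a * (Tor f t s)⁻¹ =
      X 18 ((goodD4.torusVal (zF f t s) 18 : K) * a) * X 13 ((goodD4.torusVal (zF f t s) 13 : K) * f a) *
        X 12 ((goodD4.torusVal (zF f t s) 12 : K) * f (f a)) := by
  rw [Tor, ← MulAut.conj_apply, Xa, map_mul, map_mul, MulAut.conj_apply, MulAut.conj_apply, MulAut.conj_apply,
    goodD4.torus_conj_xg _ (by decide), goodD4.torus_conj_xg _ (by decide), goodD4.torus_conj_xg _ (by decide)]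

/-- The value of a torus element at the short simple root. -/
def aVal (t s : Kˣ) : Kˣ := t ^ 2 * s⁻¹

theorem torus_conj_Xa' {t s : Kˣ} (hs : f (s : K) = s) (a : K) :
    Tor f t s * Xa f a * (Tor f t s)⁻¹ = Xa f ((aVal t s : K) * a) := by
  rw [torus_conj_Xa, torusVal_zF f t s 18 (by decide), torusVal_zF f t s 13 (by decide),
    torusVal_zF f t s 12 (by decide), Xa]
  simp [aVal, fu_val, hs,
    show chevD4.cartan 0 18 = 2 by decide +kernel, show chevD4.cartan 1 18 = -1 by decide +kernel,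
    show chevD4.cartan 2 18 = 0 by decide +kernel, show chevD4.cartan 3 18 = 0 by decide +kernel,
    show chevD4.cartan 0 13 = 0 by decide +kernel, show chevD4.cartan 1 13 = -1 by decide +kernel,
    show chevD4.cartan 2 13 = 2 by decide +kernel, show chevD4.cartan 3 13 = 0 by decide +kernel,
    show chevD4.cartan 0 12 = 0 by decide +kernel, show chevD4.cartan 1 12 = -1 by decide +kernel,
    show chevD4.cartan 2 12 = 0 by decide +kernel, show chevD4.cartan 3 12 = 2 by decide +kernel]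
  ring_nf

theorem Xa_add (a b : K) : Xa f a * Xa f b = Xa f (a + b) := by
  simp only [Xa, map_add, X, ← goodD4.xg_add]
  calc X 18 a * X 13 (f a) * X 12 (f (f a)) * (X 18 b * X 13 (f b) * X 12 (f (f b)))
      = X 18 a * ((X 13 (f a) * X 12 (f (f a))) * X 18 b) * X 13 (f b) * X 12 (f (f b)) := by group
    _ = X 18 a * (X 18 b * (X 13 (f a) * X 12 (f (f a)))) * X 13 (f b) * X 12 (f (f b)) := by
        rw [((X_comm (by decide +kernel) _ _).mul_left (X_comm (by decide +kernel) _ _)).eq]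
    _ = X 18 a * X 18 b * X 13 (f a) * (X 12 (f (f a)) * X 13 (f b)) * X 12 (f (f b)) := by group
    _ = X 18 a * X 18 b * X 13 (f a) * (X 13 (f b) * X 12 (f (f a))) * X 12 (f (f b)) := by
        rw [(X_comm (r := 12) (s := 13) (by decide +kernel) _ _).eq]
    _ = _ := by simp only [X, mul_assoc]

theorem Xa_zero : Xa f 0 = 1 := by simp [Xa, X, goodD4.xg_zero]

theorem Xa_inv (a : K) : (Xa f a)⁻¹ = Xa f (-a) :=
  inv_eq_of_mul_eq_one_right (by rw [Xa_add, add_neg_cancel, Xa_zero])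

end rank

/-! ### The longest element -/

theorem Na_monomial : (Na : GL chevD4.Idx K) ∈ chevD4.monomialSubgroup K :=
  mul_mem (mul_mem (goodD4.ng_mem_monomial (by decide)) (goodD4.ng_mem_monomial (by decide)))
    (goodD4.ng_mem_monomial (by decide))

theorem Nb_monomial : (Nb : GL chevD4.Idx K) ∈ chevD4.monomialSubgroup K := goodD4.ng_mem_monomial (by decide)

theorem n0_monomial : (n0 : GL chevD4.Idx K) ∈ chevD4.monomialSubgroup K :=
  mul_mem (mul_mem (mul_mem Na_monomial Nb_monomial) Na_monomial)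
    (mul_mem (mul_mem Nb_monomial Na_monomial) Nb_monomial)

/-- The permutation of the short reflection. -/
def Pa : Equiv.Perm (Fin chevD4.nroots) :=
  goodD4.sPerm ⟨0, by decide⟩ * goodD4.sPerm ⟨2, by decide⟩ * goodD4.sPerm ⟨3, by decide⟩

/-- The permutation of the long reflection. -/
def Pb : Equiv.Perm (Fin chevD4.nroots) := goodD4.sPerm ⟨1, by decide⟩

theorem perm_Na : goodD4.perm (Na : GL chevD4.Idx K) = Pa := by
  obtain ⟨o0, -⟩ := orbD4
  rw [Na_eq_nPar, graphD4.perm_nPar_one okD4, o0]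
  simp [Pa, mul_assoc]

theorem perm_Nb : goodD4.perm (Nb : GL chevD4.Idx K) = Pb := by
  obtain ⟨-, o1, -⟩ := orbD4
  rw [Nb_eq_nPar, graphD4.perm_nPar_one okD4, o1]
  simp [Pb]

theorem perm_n0 : goodD4.perm (n0 : GL chevD4.Idx K) = Pa * Pb * Pa * (Pb * Pa * Pb) := by
  have ha := Na_monomial (K := K)
  have hb := Nb_monomial (K := K)
  rw [n0, goodD4.perm_mul (mul_mem (mul_mem ha hb) ha) (mul_mem (mul_mem hb ha) hb),
    goodD4.perm_mul (mul_mem ha hb) ha, goodD4.perm_mul ha hb,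
    goodD4.perm_mul (mul_mem hb ha) hb, goodD4.perm_mul hb ha, perm_Na, perm_Nb]

theorem w0_chk : ∀ r : Fin chevD4.nroots, ((Pa * Pb * Pa * (Pb * Pa * Pb)) r).val = 23 - r.val ∧
    (Pa * Pb * Pa * (Pb * Pa * Pb))⁻¹ r = (Pa * Pb * Pa * (Pb * Pa * Pb)) r := by decide +kernel

theorem perm_n0_inv : goodD4.perm (n0 : GL chevD4.Idx K)⁻¹ = goodD4.perm (n0 : GL chevD4.Idx K) := by
  rw [goodD4.perm_inv n0_monomial, perm_n0]
  exact Equiv.ext fun r => (w0_chk r).2

/-- Conjugation by `n` or its inverse negates roots. -/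
theorem conj_neg {n : GL chevD4.Idx K} (hn : n = n0 ∨ n = n0⁻¹) {r : ℕ} (hr : r < 24) :
    ∃ c : Kˣ, ∀ t : K, n * X r t * n⁻¹ = X (23 - r) ((c : K) * t) := by
  have hm : n ∈ chevD4.monomialSubgroup K := by
    rcases hn with rfl | rfl
    · exact n0_monomial
    · exact inv_mem n0_monomial
  obtain ⟨c, hc⟩ := goodD4.conj_xg_eq hm ⟨r, hr⟩
  refine ⟨c, fun t => ?_⟩
  have e : goodD4.perm n = goodD4.perm (n0 : GL chevD4.Idx K) := by
    rcases hn with rfl | rfl
    · rfl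
    · exact perm_n0_inv
  have h2 := (w0_chk ⟨r, hr⟩).1
  rw [X, hc t, e, perm_n0, h2]

theorem n0_conj_Lev {n l : GL chevD4.Idx K} (hn : n = n0 ∨ n = n0⁻¹) (hl : l ∈ Lev (K := K)) :
    n * l * n⁻¹ ∈ Lev (K := K) := by
  have hm : n ∈ chevD4.monomialSubgroup K := by
    rcases hn with rfl | rfl
    · exact n0_monomial
    · exact inv_mem n0_monomial
  have : Lev (K := K) ≤ (Lev (K := K)).comap (MulAut.conj n).toMonoidHom := by
    refine (Subgroup.closure_le _).2 ?_
    rintro x (⟨z, rfl⟩ | ⟨r, hr, t, rfl⟩)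
    · obtain ⟨z', hz'⟩ := goodD4.mem_diagonal.1 (goodD4.diagonal_normalized hm (goodD4.mem_diagonal.2 ⟨z, rfl⟩))
      exact (show n * goodD4.torus z * n⁻¹ ∈ Lev (K := K) from hz' ▸ torus_mem_Lev z')
    · have h' : ∀ r ∈ [5, 10, 11, 12, 13, 18], r < 24 ∧ 23 - r ∈ [5, 10, 11, 12, 13, 18] := by decide
      obtain ⟨c, hc⟩ := conj_neg hn (h' r hr).1
      exact (show n * X r t * n⁻¹ ∈ Lev (K := K) from hc t ▸ X_mem_Lev (h' r hr).2 _)
  exact this hl

/-- The Levi subgroup normalises the opposite radical. -/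
theorem conj_UN {l u : GL chevD4.Idx K} (hl : l ∈ Lev (K := K)) (hu : u ∈ UN (K := K)) : l * u * l⁻¹ ∈ UN := by
  obtain ⟨v, hv, rfl⟩ := hu
  have h1 := n0_conj_Lev (Or.inr rfl) hl
  rw [inv_inv] at h1
  refine ⟨_, conj_UP h1 hv, ?_⟩
  simp only [MulEquiv.coe_toMonoidHom, MulAut.conj_apply]
  group

theorem neg_mem_UN {r : ℕ} (hr : r ∈ UPset) (t : K) : X (23 - r) t ∈ UN (K := K) := by
  have hp := isPos_of_UPset hr
  obtain ⟨c, hc⟩ := conj_neg (n := (n0 : GL chevD4.Idx K)) (Or.inl rfl) hp.1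
  refine ⟨X r ((c : K)⁻¹ * t), goodD4.xg_mem_posSub hp hr _, ?_⟩
  simp only [MulEquiv.coe_toMonoidHom, MulAut.conj_apply]
  rw [hc, ← mul_assoc, mul_inv_cancel₀ c.ne_zero, one_mul]

section diag

variable [Fintype K] {q : ℕ} (f : K →+* K) (hf : ∀ x, f x = x ^ q) (hK : Fintype.card K = q ^ 3)

include hf hK

/-- Diagonal elements of the twisted group are torus elements. -/
theorem exists_Tor {g : GL chevD4.Idx K} (hd : g ∈ chevD4.diagonalSubgroup K) (hg : g ∈ twistedD4 K q) :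
    ∃ t s : Kˣ, f (s : K) = s ∧ g = Tor f t s := by
  have h : g ∈ graphD4.fixTorus goodD4 f := by
    rw [← graphD4.inf_H_G1 okD4 coxD4 f]
    exact ⟨hd, twistedD4_eq f hf hK ▸ hg⟩
  obtain ⟨z, hz, rfl⟩ := h
  obtain ⟨r0, r2, r1⟩ := rhoD4
  have e1 := congrArg Units.val (hz ⟨1, by decide⟩)
  rw [r1, Units.coe_map] at e1
  refine ⟨z ⟨0, by decide⟩, z ⟨1, by decide⟩, e1.symm, ?_⟩
  rw [Tor]
  congr 1
  funext ⟨k, hk⟩
  have hk4 : k < 4 := hk
  have e2 : z ⟨2, by decide⟩ = fu f (z ⟨0, by decide⟩) := by rw [← r0]; exact hz _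
  interval_cases k
  · rfl
  · rfl
  · exact e2
  · change z ⟨3, _⟩ = fu f (fu f (z ⟨0, by decide⟩))
    rw [← e2, ← r2]
    exact hz _

end diag

end Cfsg.Agent.H23.Ore3D4
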