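import Cfsg.Agent.H23.Ore3D4.Parabolic

/-!
# Elements and predicates for the covering property of ³D₄(q)
-/

set_option autoImplicit false
set_option maxRecDepth 100000

namespace Cfsg.Agent.H23.Ore3D4

open Cfsg.Lie Cfsg.Agent.H46 Cfsg.Agent.H47
open scoped Matrix

variable {K : Type*} [Field K]

/-- The twist of units. -/
def fu (f : K →+* K) : Kˣ →* Kˣ := Units.map f.toMonoidHom

/-- Parameters of the twisted torus. -/
def zF (f : K →+* K) (t s : Kˣ) : Fin chevD4.rank → Kˣ :=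
  fun k => (![t, s, fu f t, fu f (fu f t)] : Fin 4 → Kˣ) k

/-- An element of the twisted torus. -/
noncomputable def Tor (f : K →+* K) (t s : Kˣ) : GL chevD4.Idx K := goodD4.torus (zF f t s)

/-- A short root element. -/
noncomputable def Xa (f : K →+* K) (a : K) : GL chevD4.Idx K := X 18 a * X 13 (f a) * X 12 (f (f a))

/-- A negative short root element. -/
noncomputable def Xna (f : K →+* K) (a : K) : GL chevD4.Idx K := X 5 a * X 10 (f a) * X 11 (f (f a))

/-- A short monomial element. -/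
noncomputable def NA (f : K →+* K) (a : K) : GL chevD4.Idx K :=
  goodD4.ng 18 a * goodD4.ng 13 (f a) * goodD4.ng 12 (f (f a))

/-- The representative of the short reflection. -/
noncomputable def Na : GL chevD4.Idx K :=
  goodD4.ng 18 (1 : K) * goodD4.ng 13 1 * goodD4.ng 12 1

/-- The representative of the long reflection. -/
noncomputable def Nb : GL chevD4.Idx K := goodD4.ng 14 (1 : K)

/-- A representative of the longest element. -/
noncomputable def n0 : GL chevD4.Idx K := (Na * Nb * Na) * (Nb * Na * Nb)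

/-- The opposite unipotent radical. -/
noncomputable def UN : Subgroup (GL chevD4.Idx K) := (UP (K := K)).map (MulAut.conj n0).toMonoidHom

/-- Conjugacy inside the twisted group. -/
def ConjS (q : ℕ) (x a : GL chevD4.Idx K) : Prop := ∃ k ∈ twistedD4 K q, k * x * k⁻¹ = a

/-- Normal forms of elements of the twisted Levi subgroup: `χ` of either form is `s`. -/
def LForm (f : K →+* K) (t s : Kˣ) (l : GL chevD4.Idx K) : Prop :=
  f (s : K) = s ∧ ((∃ v, l = Xa f v * Tor f t s) ∨ ∃ v v', l = Xa f v * Tor f t s * Na * Xa f v')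

/-- The middle property of `x` for the value `c`. -/
def Mid (q : ℕ) (f : K →+* K) (x : GL chevD4.Idx K) (c : K) : Prop :=
  ∀ (t s : Kˣ) (l : GL chevD4.Idx K), LForm f t s l → (s : K) = c →
    ∃ m ∈ Lev (K := K) ⊓ twistedD4 K q, ∃ a b, m * l * m⁻¹ = a * b ∧
      (∀ Y ∈ UN (K := K) ⊓ twistedD4 K q, ConjS q x (Y * a)) ∧
      (∀ V ∈ UP (K := K) ⊓ twistedD4 K q, ConjS q x (b * V))

theorem ConjS.trans {q : ℕ} {x a b : GL chevD4.Idx K} (h : ConjS q x a) (h' : ConjS q a b) : ConjS q x b := by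
  obtain ⟨k, hk, rfl⟩ := h
  obtain ⟨k', hk', rfl⟩ := h'
  exact ⟨k' * k, mul_mem hk' hk, by group⟩

theorem ConjS.symm {q : ℕ} {x a : GL chevD4.Idx K} (h : ConjS q x a) : ConjS q a x := by
  obtain ⟨k, hk, rfl⟩ := h
  exact ⟨k⁻¹, inv_mem hk, by group⟩

theorem conjS_refl (q : ℕ) (x : GL chevD4.Idx K) : ConjS q x x := ⟨1, one_mem _, by group⟩

/-- An element normalising a finite group with trivial centraliser absorbs it into its class. -/
theorem conjS_mul_of_regular [Finite K] {q : ℕ} {a : GL chevD4.Idx K} {V : Subgroup (GL chevD4.Idx K)}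
    (hV : V ≤ twistedD4 K q) (hn : ∀ v ∈ V, a * v * a⁻¹ ∈ V) (hreg : ∀ v ∈ V, a * v * a⁻¹ = v → v = 1) :
    (∀ v ∈ V, ConjS q a (v * a)) ∧ ∀ v ∈ V, ConjS q a (a * v) := by
  have key : ∀ v ∈ V, ConjS q a (v * a) := by
    intro v hv
    let φ : V → V := fun w => ⟨(w : GL chevD4.Idx K) * (a * (w : GL chevD4.Idx K)⁻¹ * a⁻¹),
      mul_mem w.2 (hn _ (inv_mem w.2))⟩
    have hφ : Function.Injective φ := by
      rintro ⟨w, hw⟩ ⟨w', hw'⟩ h
      have h' : w * (a * w⁻¹ * a⁻¹) = w' * (a * w'⁻¹ * a⁻¹) := congrArg Subtype.val h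
      have h1 : a * (w'⁻¹ * w) * a⁻¹ = w'⁻¹ * w := by
        have : a * (w'⁻¹ * w) * a⁻¹ = (a * w'⁻¹ * a⁻¹) * (a * w⁻¹ * a⁻¹)⁻¹ := by group
        rw [this, show a * w'⁻¹ * a⁻¹ = w'⁻¹ * (w * (a * w⁻¹ * a⁻¹)) by rw [h']; group]
        group
      have h2 := hreg _ (mul_mem (inv_mem hw') hw) h1
      exact Subtype.ext (inv_mul_eq_one.1 h2).symm
    obtain ⟨w, hw⟩ := Finite.injective_iff_surjective.1 hφ ⟨v, hv⟩
    refine ⟨w, hV w.2, ?_⟩
    rw [show v = (w : GL chevD4.Idx K) * (a * (w : GL chevD4.Idx K)⁻¹ * a⁻¹) from (congrArg Subtype.val hw).symm]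
    group
  refine ⟨key, fun v hv => ?_⟩
  have h := key _ (hn v hv)
  rwa [show a * v * a⁻¹ * a = a * v by group] at h

section basic

variable (f : K →+* K)

theorem fu_val (t : Kˣ) : ((fu f t : Kˣ) : K) = f t := rfl

theorem simple_vals : chevD4.simple 0 = 18 ∧ chevD4.simple 1 = 14 ∧ chevD4.simple 2 = 13 ∧
    chevD4.simple 3 = 12 := by decide +kernel

theorem torusVal_zF (t s : Kˣ) (r : ℕ) (hr : r < 24) :
    goodD4.torusVal (zF f t s) r = t ^ chevD4.cartan 0 r * s ^ chevD4.cartan 1 r *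
      fu f t ^ chevD4.cartan 2 r * fu f (fu f t) ^ chevD4.cartan 3 r := by
  have h : goodD4.torusVal (zF f t s) r = ∏ k : Fin 4, zF f t s k ^ chevD4.cartan k.val r :=
    Finset.prod_congr rfl fun (k : Fin chevD4.rank) _ => by
      rw [goodD4.cartan_eq (show r < chevD4.nroots from hr) k.2]
  rw [h, Fin.prod_univ_four]
  rfl

theorem chi_Tor (t s : Kˣ) : chi (Tor f t s) = (s : K) := by
  rw [Tor, chi_torus, torusVal_zF f t s 23 (by decide)]
  simp [show chevD4.cartan 0 23 = 0 by decide +kernel, show chevD4.cartan 1 23 = 1 by decide +kernel,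
    show chevD4.cartan 2 23 = 0 by decide +kernel, show chevD4.cartan 3 23 = 0 by decide +kernel]

theorem Tor_mul (t s t' s' : Kˣ) : Tor f t s * Tor f t' s' = Tor f (t * t') (s * s') := by
  rw [Tor, Tor, Tor, ← map_mul]
  congr 1
  funext ⟨k, hk⟩
  have hk4 : k < 4 := hk
  interval_cases k
  · rfl
  · rfl
  · exact (map_mul (fu f) t t').symm
  · exact ((congrArg (fu f) (map_mul (fu f) t t')).trans (map_mul (fu f) _ _)).symm

theorem Tor_one : Tor f 1 1 = 1 := by
  rw [Tor]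
  convert map_one goodD4.torus
  funext ⟨k, hk⟩
  have hk4 : k < 4 := hk
  interval_cases k
  · rfl
  · rfl
  · exact map_one (fu f)
  · exact (congrArg (fu f) (map_one (fu f))).trans (map_one (fu f))

theorem Tor_inv (t s : Kˣ) : (Tor f t s)⁻¹ = Tor f t⁻¹ s⁻¹ :=
  inv_eq_of_mul_eq_one_right (by rw [Tor_mul, mul_inv_cancel, mul_inv_cancel, Tor_one])

theorem Tor_mem_Lev (t s : Kˣ) : Tor f t s ∈ Lev (K := K) := torus_mem_Lev _

theorem Xa_mem_Lev (a : K) : Xa f a ∈ Lev (K := K) :=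
  mul_mem (mul_mem (X_mem_Lev (by decide) _) (X_mem_Lev (by decide) _)) (X_mem_Lev (by decide) _)

theorem Xna_mem_Lev (a : K) : Xna f a ∈ Lev (K := K) :=
  mul_mem (mul_mem (X_mem_Lev (by decide) _) (X_mem_Lev (by decide) _)) (X_mem_Lev (by decide) _)

theorem Na_mem_Lev : (Na : GL chevD4.Idx K) ∈ Lev (K := K) :=
  mul_mem (mul_mem (ng_mem_Lev (by decide) _) (ng_mem_Lev (by decide) _)) (ng_mem_Lev (by decide) _)

theorem NA_one : NA f 1 = (Na : GL chevD4.Idx K) := by simp [NA, Na]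

variable [Fintype K] {q : ℕ} (hf : ∀ x, f x = x ^ q) (hK : Fintype.card K = q ^ 3)

include hf hK

theorem f_three (x : K) : f (f (f x)) = x := period_D4 f hf hK x

theorem Tor_mem {t s : Kˣ} (hs : f (s : K) = s) : Tor f t s ∈ twistedD4 K q := by
  rw [twistedD4_eq f hf hK, tdD4, graphD4.G1_eq_closure okD4 coxD4 f]
  refine graphD4.fixTorus_le_closure okD4 f ⟨zF f t s, fun k => Units.ext ?_, rfl⟩
  obtain ⟨r0, r2, r1⟩ := rhoD4
  have r3 : graphD4.ρF ⟨3, by decide⟩ = ⟨0, by decide⟩ := by decide +kernel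
  obtain ⟨k, hk⟩ := k
  have hk4 : k < 4 := hk
  rw [Units.coe_map]
  change ((zF f t s (graphD4.ρF _) : Kˣ) : K) = f (zF f t s _ : Kˣ)
  interval_cases k
  · rw [r0]; rfl
  · rw [r1]; exact hs.symm
  · rw [r2]; rfl
  · rw [r3]; exact (f_three f hf hK (t : K)).symm

theorem Xa_mem (a : K) : Xa f a ∈ twistedD4 K q := by
  have e2 : f (f a) = a ^ q ^ 2 := by rw [hf a, hf, ← pow_mul, sq]
  refine Subgroup.subset_closure ⟨_, Or.inr ⟨a, (18, 13, 12), by simp [d4p1, d4p3, d4p4], rfl⟩,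
    (word_three goodD4 ..).2 ?_⟩
  rw [Xa, e2, hf a]

theorem Xna_mem (a : K) : Xna f a ∈ twistedD4 K q := by
  have e2 : f (f a) = a ^ q ^ 2 := by rw [hf a, hf, ← pow_mul, sq]
  refine Subgroup.subset_closure ⟨_, Or.inr ⟨a, (5, 10, 11), by simp [d4m1, d4m3, d4m4], rfl⟩,
    (word_three goodD4 ..).2 ?_⟩
  rw [Xna, e2, hf a]

theorem Na_mem : (Na : GL chevD4.Idx K) ∈ twistedD4 K q := by
  rw [twistedD4_eq f hf hK, tdD4, graphD4.G1_eq_closure okD4 coxD4 f]
  have := graphD4.nPar_mem_closure okD4 f 0 (c := fun _ => (1 : K)) fun _ _ => (map_one f).symm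
  obtain ⟨o0, -⟩ := orbD4
  obtain ⟨s0, -, s2, s3⟩ := simple_vals
  simpa [Na, GraphData.nPar, GraphData.orbProd, o0, s0, s2, s3, mul_assoc] using this

theorem Nb_mem : (Nb : GL chevD4.Idx K) ∈ twistedD4 K q := by
  rw [twistedD4_eq f hf hK, tdD4, graphD4.G1_eq_closure okD4 coxD4 f]
  have := graphD4.nPar_mem_closure okD4 f 1 (c := fun _ => (1 : K)) fun _ _ => (map_one f).symm
  obtain ⟨-, o1, -⟩ := orbD4
  simpa [Nb, GraphData.nPar, GraphData.orbProd, o1, simple_vals.2.1] using this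

theorem n0_mem : (n0 : GL chevD4.Idx K) ∈ twistedD4 K q :=
  mul_mem (mul_mem (mul_mem (Na_mem f hf hK) (Nb_mem f hf hK)) (Na_mem f hf hK))
    (mul_mem (mul_mem (Nb_mem f hf hK) (Na_mem f hf hK)) (Nb_mem f hf hK))

end basic

end Cfsg.Agent.H23.Ore3D4
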