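import Cfsg.Agent.H23.Ore3D4.Rank
import Cfsg.Agent.H23.D4Torus.RankOne

/-!
# The middle property for an element of order eight of ³D₄(3)
-/

set_option autoImplicit false
set_option maxRecDepth 100000

namespace Cfsg.Agent.H23.Ore3D4.Three

open Cfsg.Lie Cfsg.Agent.H46 Cfsg.Agent.H23.RankOne Cfsg.Agent.H23.Ore3D4
open scoped Matrix

variable {K : Type*} [Field K]

local notation "SL2" => Matrix.SpecialLinearGroup (Fin 2)

theorem lt18 : 18 < chevD4.nroots := by decide +kernel
theorem lt13 : 13 < chevD4.nroots := by decide +kernel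
theorem lt12 : 12 < chevD4.nroots := by decide +kernel

theorem slHom_comm {r s : ℕ} (hr : r < chevD4.nroots) (hs : s < chevD4.nroots)
    (h1 : ∀ t u : K, Commute (X r t) (X s u)) (h2 : ∀ t u : K, Commute (X r t) (X (chevD4.neg s) u))
    (h3 : ∀ t u : K, Commute (X (chevD4.neg r) t) (X s u))
    (h4 : ∀ t u : K, Commute (X (chevD4.neg r) t) (X (chevD4.neg s) u)) (g h : SL2 K) :
    Commute (slHom goodD4 hr g) (slHom goodD4 hs h) := by
  have key : ∀ y : GL chevD4.Idx K, (∀ u, Commute y (X s u)) → (∀ u, Commute y (X (chevD4.neg s) u)) →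
      ∀ h : SL2 K, Commute y (slHom goodD4 hs h) := by
    intro y hX hY h
    have := DFunLike.congr_fun (sl_hom_ext (a := (MulAut.conj y).toMonoidHom.comp (slHom goodD4 hs))
      (b := slHom goodD4 hs) (fun t => ?_) fun t => ?_) h
    · exact mul_inv_eq_iff_eq_mul.1 (by simpa using this)
    · simp only [MonoidHom.comp_apply, MulEquiv.coe_toMonoidHom, MulAut.conj_apply, slHom_X]
      exact mul_inv_eq_iff_eq_mul.2 (hX t).eq
    · simp only [MonoidHom.comp_apply, MulEquiv.coe_toMonoidHom, MulAut.conj_apply, slHom_Y]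
      exact mul_inv_eq_iff_eq_mul.2 (hY t).eq
  refine key _ (fun u => ?_) (fun u => ?_) h
  · have := DFunLike.congr_fun (sl_hom_ext (a := (MulAut.conj (X s u)).toMonoidHom.comp (slHom goodD4 hr))
      (b := slHom goodD4 hr) (fun t => ?_) fun t => ?_) g
    · exact (mul_inv_eq_iff_eq_mul.1 (by simpa using this)).symm
    · simp only [MonoidHom.comp_apply, MulEquiv.coe_toMonoidHom, MulAut.conj_apply, slHom_X]
      exact mul_inv_eq_iff_eq_mul.2 (h1 t u).eq.symm
    · simp only [MonoidHom.comp_apply, MulEquiv.coe_toMonoidHom, MulAut.conj_apply, slHom_Y]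
      exact mul_inv_eq_iff_eq_mul.2 (h3 t u).eq.symm
  · have := DFunLike.congr_fun (sl_hom_ext
      (a := (MulAut.conj (X (chevD4.neg s) u)).toMonoidHom.comp (slHom goodD4 hr))
      (b := slHom goodD4 hr) (fun t => ?_) fun t => ?_) g
    · exact (mul_inv_eq_iff_eq_mul.1 (by simpa using this)).symm
    · simp only [MonoidHom.comp_apply, MulEquiv.coe_toMonoidHom, MulAut.conj_apply, slHom_X]
      exact mul_inv_eq_iff_eq_mul.2 (h2 t u).eq.symm
    · simp only [MonoidHom.comp_apply, MulEquiv.coe_toMonoidHom, MulAut.conj_apply, slHom_Y]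
      exact mul_inv_eq_iff_eq_mul.2 (h4 t u).eq.symm

theorem comm_18_13 (g h : SL2 K) : Commute (slHom goodD4 lt18 g) (slHom goodD4 lt13 h) :=
  slHom_comm lt18 lt13 (X_comm (by decide +kernel)) (X_comm (by decide +kernel)) (X_comm (by decide +kernel))
    (X_comm (by decide +kernel)) g h

theorem comm_18_12 (g h : SL2 K) : Commute (slHom goodD4 lt18 g) (slHom goodD4 lt12 h) :=
  slHom_comm lt18 lt12 (X_comm (by decide +kernel)) (X_comm (by decide +kernel)) (X_comm (by decide +kernel))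
    (X_comm (by decide +kernel)) g h

theorem comm_13_12 (g h : SL2 K) : Commute (slHom goodD4 lt13 g) (slHom goodD4 lt12 h) :=
  slHom_comm lt13 lt12 (X_comm (by decide +kernel)) (X_comm (by decide +kernel)) (X_comm (by decide +kernel))
    (X_comm (by decide +kernel)) g h

variable (f : K →+* K)

/-- The short fundamental `SL₂`. -/
noncomputable def phi : SL2 K →* GL chevD4.Idx K where
  toFun g := slHom goodD4 lt18 g * slHom goodD4 lt13 (Matrix.SpecialLinearGroup.map f g) *
    slHom goodD4 lt12 (Matrix.SpecialLinearGroup.map f (Matrix.SpecialLinearGroup.map f g))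
  map_one' := by simp
  map_mul' g h := by
    simp only [map_mul]
    set a := slHom goodD4 lt18 g with ha
    set a' := slHom goodD4 lt18 h with ha'
    set b := slHom goodD4 lt13 (Matrix.SpecialLinearGroup.map f g) with hb
    set b' := slHom goodD4 lt13 (Matrix.SpecialLinearGroup.map f h) with hb'
    set c := slHom goodD4 lt12 (Matrix.SpecialLinearGroup.map f (Matrix.SpecialLinearGroup.map f g)) with hc
    set c' := slHom goodD4 lt12 (Matrix.SpecialLinearGroup.map f (Matrix.SpecialLinearGroup.map f h)) with hc'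
    have e1 : Commute b a' := (comm_18_13 _ _).symm
    have e2 : Commute c a' := (comm_18_12 _ _).symm
    have e3 : Commute c b' := (comm_13_12 _ _).symm
    calc a * a' * (b * b') * (c * c') = a * (a' * b) * (b' * c) * c' := by group
      _ = a * (b * a') * (c * b') * c' := by rw [e1.eq, e3.eq]
      _ = a * b * (a' * c) * b' * c' := by group
      _ = a * b * (c * a') * b' * c' := by rw [e2.eq]
      _ = _ := by group

theorem phi_apply (g : SL2 K) : phi f g = slHom goodD4 lt18 g * slHom goodD4 lt13 (Matrix.SpecialLinearGroup.map f g) *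
    slHom goodD4 lt12 (Matrix.SpecialLinearGroup.map f (Matrix.SpecialLinearGroup.map f g)) := rfl

theorem map_slX (t : K) : Matrix.SpecialLinearGroup.map f (slX t) = slX (f t) := by
  apply Subtype.ext
  ext i j
  fin_cases i <;> fin_cases j <;> simp [coe_slX]

theorem map_slY (t : K) : Matrix.SpecialLinearGroup.map f (slY t) = slY (f t) := by
  apply Subtype.ext
  ext i j
  fin_cases i <;> fin_cases j <;> simp [coe_slY]

theorem map_slD (a : K) (ha : a ≠ 0) :
    Matrix.SpecialLinearGroup.map f (slD a ha) = slD (f a) ((map_ne_zero f).2 ha) := by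
  apply Subtype.ext
  ext i j
  fin_cases i <;> fin_cases j <;> simp [coe_slD]

theorem phi_X (t : K) : phi f (slX t) = Xa f t := by
  simp only [phi_apply, map_slX, slHom_X, Xa, X]

theorem phi_Y (t : K) : phi f (slY t) = Xna f t := by
  simp only [phi_apply, map_slY, slHom_Y, Xna, X, show chevD4.neg 18 = 5 by decide +kernel,
    show chevD4.neg 13 = 10 by decide +kernel, show chevD4.neg 12 = 11 by decide +kernel]

theorem phi_D (a : Kˣ) : phi f (slD (a : K) a.ne_zero) = Tor f a 1 := by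
  simp only [phi_apply, map_slD, slHom_D, Tor_eq_hg]

theorem phi_W : phi f slW = Na := by
  rw [← NA_one f, NA_eq, slW_eq, map_mul, map_mul, phi_X, phi_Y, inv_one]

theorem phi_mem_Lev (g : SL2 K) : phi f g ∈ Lev (K := K) :=
  sl_generated ((Lev (K := K)).comap (phi f)) (fun t => by rw [Subgroup.mem_comap, phi_X]; exact Xa_mem_Lev f t)
    (by rw [Subgroup.mem_comap, phi_W]; exact Na_mem_Lev) g

theorem phi_mem [Fintype K] {q : ℕ} (hf : ∀ x, f x = x ^ q) (hK : Fintype.card K = q ^ 3) (g : SL2 K) :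
    phi f g ∈ twistedD4 K q :=
  sl_generated ((twistedD4 K q).comap (phi f)) (fun t => by rw [Subgroup.mem_comap, phi_X]; exact Xa_mem f hf hK t)
    (by rw [Subgroup.mem_comap, phi_W]; exact Na_mem f hf hK) g

/-! ### The outer torus element -/

/-- The torus element inducing `diag(1, -1)`. -/
noncomputable def hOut : GL chevD4.Idx K := Tor f 1 (-1)

theorem hOut_vals {r : ℕ} (hr : r = 18 ∨ r = 13 ∨ r = 12) : goodD4.torusVal (zF f 1 (-1)) r = -1 := by
  rw [torusVal_zF f 1 (-1) r (by omega)]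
  rcases hr with rfl | rfl | rfl <;>
    simp [show chevD4.cartan 1 18 = -1 by decide +kernel, show chevD4.cartan 1 13 = -1 by decide +kernel,
      show chevD4.cartan 1 12 = -1 by decide +kernel]

theorem map_slConj (g : SL2 K) :
    Matrix.SpecialLinearGroup.map f (slConj (-1) g) = slConj (-1) (Matrix.SpecialLinearGroup.map f g) := by
  apply Subtype.ext
  ext i j
  fin_cases i <;> fin_cases j <;> simp [coe_slConj]

theorem hOut_conj (g : SL2 K) : hOut f * phi f g * (hOut f)⁻¹ = phi f (slConj (-1) g) := by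
  simp only [hOut, Tor, ← MulAut.conj_apply, phi_apply, map_mul, map_slConj]
  simp only [MulAut.conj_apply, torus_conj_slHom, hOut_vals f (Or.inl rfl),
    hOut_vals f (Or.inr (Or.inl rfl)), hOut_vals f (Or.inr (Or.inr rfl))]

theorem hOut_sq : hOut f * hOut f = 1 := by
  rw [hOut, Tor_mul, one_mul, neg_one_mul, neg_neg, Tor_one]

theorem hOut_inv : (hOut f)⁻¹ = hOut f := inv_eq_of_mul_eq_one_right (hOut_sq f)

/-- The elements `φ(g) h`. -/
noncomputable def el (g : SL2 K) : GL chevD4.Idx K := phi f g * hOut f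

theorem el_mul_el (g g' : SL2 K) : el f g * el f g' = phi f (g * slConj (-1) g') := by
  rw [el, el, map_mul, ← hOut_conj, hOut_inv]
  group

theorem el_mem_Lev (g : SL2 K) : el f g ∈ Lev (K := K) := mul_mem (phi_mem_Lev f g) (Tor_mem_Lev f _ _)

theorem el_mem [Fintype K] {q : ℕ} (hf : ∀ x, f x = x ^ q) (hK : Fintype.card K = q ^ 3) (g : SL2 K) :
    el f g ∈ twistedD4 K q :=
  mul_mem (phi_mem f hf hK g) (Tor_mem f hf hK (by simp))

theorem conj_el (P g : SL2 K) : phi f P * el f g * (phi f P)⁻¹ = el f (P * g * slConj (-1) P⁻¹) := by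
  rw [el, el, map_mul, map_mul, ← hOut_conj, hOut_inv, map_inv]
  rw [show phi f P * phi f g * (hOut f * (phi f P)⁻¹ * hOut f) * hOut f =
    phi f P * phi f g * hOut f * (phi f P)⁻¹ * (hOut f * hOut f) by group, hOut_sq, mul_one]
  group

/-! ### Conjugation by the longest element -/

/-- One simple reflection acting on a signed root. -/
def stepN (i : ℕ) (p : ℕ × ℤ) : ℕ × ℤ := (chevD4.reflectRoot i p.1, goodD4.tab.eta i p.1 * p.2)

/-- The word of the longest element in simple indices. -/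
def n0Word : List ℕ := [0, 2, 3, 1, 0, 2, 3, 1, 0, 2, 3, 1]

theorem word_conj : ∀ (L : List ℕ), (∀ i ∈ L, i < 4) → ∀ (r : ℕ), r < 24 → ∀ t : K,
    (L.map fun i => goodD4.ng (chevD4.simple i) (1 : K)).prod * X r t *
      ((L.map fun i => goodD4.ng (chevD4.simple i) (1 : K)).prod)⁻¹ =
      X (L.foldr stepN (r, 1)).1 (((L.foldr stepN (r, 1)).2 : K) * t) ∧ (L.foldr stepN (r, 1)).1 < 24 := by
  intro L
  induction L with
  | nil => intro _ r hr t; simp [hr]
  | cons i L ih =>
    intro hL r hr t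
    obtain ⟨h, hlt⟩ := ih (fun j hj => hL j (List.mem_cons_of_mem _ hj)) r hr t
    have hi : i < 4 := hL i List.mem_cons_self
    have hlt' : ∀ j : Fin 4, ∀ s : Fin 24, chevD4.reflectRoot j.val s.val < 24 := by decide +kernel
    refine ⟨?_, hlt' ⟨i, hi⟩ ⟨_, hlt⟩⟩
    rw [List.map_cons, List.prod_cons, List.foldr_cons]
    rw [show ∀ a b c : GL chevD4.Idx K, a * b * c * (a * b)⁻¹ = a * (b * c * b⁻¹) * a⁻¹ from fun a b c => by group, h]
    rw [conj_ng_simple (i := ⟨i, hi⟩) _ hlt]
    simp only [stepN, Int.cast_mul, mul_assoc]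

theorem n0_eq_word : (n0 : GL chevD4.Idx K) = (n0Word.map fun i => goodD4.ng (chevD4.simple i) (1 : K)).prod := by
  obtain ⟨s0, s1, s2, s3⟩ := simple_vals
  simp [n0, Na, Nb, n0Word, s0, s1, s2, s3, mul_assoc]

theorem n0_X {r r' : ℕ} (h : n0Word.foldr stepN (r, 1) = (r', -1)) (hr : r < 24) (t : K) :
    n0 * X r t * (n0 : GL chevD4.Idx K)⁻¹ = X r' (-t) := by
  have h2 := (word_conj (K := K) n0Word (by decide) r hr t).1
  rw [← n0_eq_word, h] at h2
  simpa using h2

theorem n0_phi (g : SL2 K) : n0 * phi f g * (n0 : GL chevD4.Idx K)⁻¹ = phi f (slW * g * slW⁻¹) := by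
  refine DFunLike.congr_fun (sl_hom_ext (a := (MulAut.conj (n0 : GL chevD4.Idx K)).toMonoidHom.comp (phi f))
    (b := (phi f).comp (MulAut.conj (slW : SL2 K)).toMonoidHom) (fun t => ?_) fun t => ?_) g
  · have e : slW * slX t * slW⁻¹ = slY (-t) := by rw [slY_eq, neg_neg]
    simp only [MonoidHom.comp_apply, MulEquiv.coe_toMonoidHom, MulAut.conj_apply, e, phi_X, phi_Y]
    rw [Xa, ← MulAut.conj_apply, map_mul, map_mul, MulAut.conj_apply, MulAut.conj_apply, MulAut.conj_apply,
      n0_X (r' := 5) (by decide +kernel) (by decide), n0_X (r' := 10) (by decide +kernel) (by decide),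
      n0_X (r' := 11) (by decide +kernel) (by decide), Xna, map_neg, map_neg]
  · have e : slW * slY t * slW⁻¹ = slX (-t) := by
      rw [slY_eq]
      apply Subtype.ext
      ext i j
      fin_cases i <;> fin_cases j <;>
        simp [sl_mul_val, coe_slX, coe_slW, Matrix.mul_apply, Fin.sum_univ_two, Matrix.SpecialLinearGroup.coe_inv,
          Matrix.adjugate_fin_two]
    simp only [MonoidHom.comp_apply, MulEquiv.coe_toMonoidHom, MulAut.conj_apply, e, phi_X, phi_Y]
    rw [Xna, ← MulAut.conj_apply, map_mul, map_mul, MulAut.conj_apply, MulAut.conj_apply, MulAut.conj_apply,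
      n0_X (r' := 18) (by decide +kernel) (by decide), n0_X (r' := 13) (by decide +kernel) (by decide),
      n0_X (r' := 12) (by decide +kernel) (by decide), Xa, map_neg, map_neg]

theorem hg_neg_one {r : ℕ} (hr : r < chevD4.nroots) :
    goodD4.hg r (-1 : K) = goodD4.torus fun k => (-1 : Kˣ) ^ goodD4.tab.cor r k := by
  rw [← goodD4.hg_eq_torus hr]
  simp

theorem hOut_eq_hg : hOut f = goodD4.hg 14 (-1 : K) := by
  rw [hOut, Tor, hg_neg_one (by decide +kernel)]
  congr 1
  funext ⟨k, hk⟩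
  have hk4 : k < 4 := hk
  interval_cases k <;>
    simp [zF, show goodD4.tab.cor 14 0 = 0 by decide +kernel, show goodD4.tab.cor 14 1 = 1 by decide +kernel,
      show goodD4.tab.cor 14 2 = 0 by decide +kernel, show goodD4.tab.cor 14 3 = 0 by decide +kernel] <;> rfl

theorem n0_hOut : n0 * hOut f * (n0 : GL chevD4.Idx K)⁻¹ = hOut f := by
  have hn : n0 * goodD4.ng 14 (1 : K) * (n0 : GL chevD4.Idx K)⁻¹ = (goodD4.ng 9 (1 : K))⁻¹ := by
    rw [goodD4.ng_inv, ng_def, ← MulAut.conj_apply, map_mul, map_mul, MulAut.conj_apply, MulAut.conj_apply,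
      show chevD4.neg 14 = 9 by decide +kernel, n0_X (r' := 9) (by decide +kernel) (by decide),
      n0_X (r' := 14) (by decide +kernel) (by decide), ng_def, show chevD4.neg 9 = 14 by decide +kernel, inv_neg,
      inv_one]
  have h2 : n0 * hOut f * (n0 : GL chevD4.Idx K)⁻¹ = (goodD4.hg 9 (-1 : K))⁻¹ := by
    rw [hOut_eq_hg, ← goodD4.ng_sq (by decide +kernel), ← goodD4.ng_sq (by decide +kernel), mul_inv_rev,
      ← MulAut.conj_apply, map_mul, MulAut.conj_apply, hn]
  rw [h2, hOut_eq_hg, hg_neg_one (by decide +kernel), hg_neg_one (by decide +kernel), ← map_inv]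
  congr 1
  funext ⟨k, hk⟩
  have hk4 : k < 4 := hk
  rw [Pi.inv_apply, ← zpow_neg]
  congr 1
  have hh : ∀ j : Fin 4, -goodD4.tab.cor 9 j.val = goodD4.tab.cor 14 j.val := by decide +kernel
  exact hh ⟨k, hk4⟩

/-! ### Companion elements and their classes -/

/-- `g` with `g D` the companion matrix of `X² - τX - 1`. -/
def gT (τ : K) : SL2 K := ⟨!![τ, -1; 1, 0], by simp [Matrix.det_fin_two]⟩

/-- The trace of `g D`. -/
def tr (g : SL2 K) : K := g.1 0 0 - g.1 1 1

theorem coe_gT (τ : K) : (gT τ).1 = !![τ, -1; 1, 0] := rfl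

theorem sl_inv_val (g : SL2 K) : (g⁻¹).1 = !![g.1 1 1, -g.1 0 1; -g.1 1 0, g.1 0 0] := by
  rw [Matrix.SpecialLinearGroup.coe_inv, Matrix.adjugate_fin_two]

theorem tr_W (g : SL2 K) : tr (slW * g * slW⁻¹) = -tr g := by
  simp only [tr, sl_mul_val, sl_inv_val, coe_slW]
  simp [Matrix.mul_apply, Matrix.vecMul, dotProduct, Fin.sum_univ_two]

theorem tr_gT (τ : K) : tr (gT τ) = τ := by simp [tr, coe_gT]

variable [Fintype K] [CharP K 3]

theorem three_zero : (3 : K) = 0 := by exact_mod_cast CharP.cast_eq_zero K 3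

theorem two_ne_zero' : (2 : K) ≠ 0 := fun h => one_ne_zero (by linear_combination three_zero (K := K) - h)

theorem char_ne_two : ringChar K ≠ 2 := by
  rw [ringChar.eq K 3]
  decide

theorem exists_quad {A B C E : K} (hA : A ≠ 0) (hB : B ≠ 0) : ∃ u y : K, A * u ^ 2 + C * u + B * y ^ 2 + E = 0 := by
  obtain ⟨u, y, h⟩ := FiniteField.exists_root_sum_quadratic
    (f := Polynomial.C A * Polynomial.X ^ 2 + Polynomial.C C * Polynomial.X + Polynomial.C E)
    (g := Polynomial.C B * Polynomial.X ^ 2)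
    (by compute_degree!) (by compute_degree!)
    (FiniteField.odd_card_of_char_ne_two char_ne_two)
  refine ⟨u, y, ?_⟩
  simp at h
  linear_combination h

theorem no_root (hK : Fintype.card K = 27) {τ : K} (hτ : τ ^ 2 = 1) (a : K) : a ^ 2 - τ * a - 1 ≠ 0 := by
  intro h
  have h3 := three_zero (K := K)
  have h4 : a ^ 4 = -1 := by linear_combination (a ^ 2 + τ * a + 2) * h + (a ^ 2) * hτ + (a * τ) * h3 + h3
  have h27 : a ^ 27 = a := by
    have := FiniteField.pow_card a
    rwa [hK] at this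
  have h24 : a ^ 24 = 1 := by rw [show (24 : ℕ) = 4 * 6 from rfl, pow_mul, h4]; norm_num
  have : a ^ 3 = a := by linear_combination h27 - a ^ 3 * h24
  have ha : a ≠ 0 := by rintro rfl; simp at h
  have h2 : a ^ 2 = 1 := mul_left_cancel₀ ha (by linear_combination this)
  have : (1 : K) = -1 := by
    linear_combination h4 - (a ^ 2 + 1) * h2
  exact two_ne_zero' (by linear_combination this)

/-- Elements with the same trace are conjugate. -/
theorem exists_conj (hK : Fintype.card K = 27) {τ : K} (hτ : τ ^ 2 = 1) (g : SL2 K) (hg : tr g = τ) :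
    ∃ P : SL2 K, phi f P * el f (gT τ) * (phi f P)⁻¹ = el f g := by
  set al := g.1 0 0 with hal
  set be := -g.1 0 1 with hbe
  set ga := g.1 1 0 with hga
  set de := -g.1 1 1 with hde
  have h3 := three_zero (K := K)
  have hdet : al * de - be * ga = -1 := by
    rw [hal, hde, hbe, hga]
    linear_combination -(sl_det g)
  have htr : al + de = τ := by rw [← hg, tr, hal, hde]; ring
  have hga0 : ga ≠ 0 := fun h => by
    refine no_root hK hτ al ?_
    rw [h] at hdet
    linear_combination al * htr - hdet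
  obtain ⟨u, y, huy⟩ := exists_quad (A := -ga) (B := ga * (-1 / (ga * ga))) (C := 0) (E := -1)
    (neg_ne_zero.2 hga0) (mul_ne_zero hga0 (div_ne_zero (neg_ne_zero.2 one_ne_zero) (mul_ne_zero hga0 hga0)))
  obtain ⟨k, hg2⟩ : ∃ k, 2 * ga * k = al - de :=
    ⟨(al - de) / (2 * ga), mul_div_cancel₀ _ (mul_ne_zero two_ne_zero' hga0)⟩
  set x := u + k * y with hx
  have hgg : ga * ((-1) / (ga * ga)) * ga = -1 := by field_simp
  have key : (ga * k) ^ 2 + be * ga = -1 := by
    linear_combination (2 * ga * k + (al - de)) * hg2 - 4 * hdet + (al + de + τ) * htr + hτ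
      + (3 - ((ga * k) ^ 2 + be * ga + 1)) * h3
  have hQ : (al * x + be * y) * y - x * (ga * x + de * y) = 1 := by
    refine mul_left_cancel₀ hga0 ?_
    rw [hx]
    linear_combination ga * huy - y ^ 2 * hgg + y ^ 2 * key - (ga * u * y + ga * k * y ^ 2) * hg2
  clear_value x
  obtain ⟨P, hP⟩ : ∃ P : SL2 K, P.1 = !![al * x + be * y, x; ga * x + de * y, y] :=
    ⟨⟨!![al * x + be * y, x; ga * x + de * y, y], by rw [Matrix.det_fin_two_of]; exact hQ⟩, rfl⟩
  refine ⟨P, ?_⟩
  rw [conj_el]
  congr 1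
  have hga' : g.1 = !![al, -be; ga, -de] := by
    rw [hbe, hde, neg_neg, neg_neg, hal, hga]; exact Matrix.eta_fin_two g.1
  have e : P * gT τ = g * slConj (-1) P := by
    apply Subtype.ext
    rw [sl_mul_val, sl_mul_val, coe_gT, coe_slConj, hP, hga']
    simp only [Matrix.of_apply, Matrix.cons_val', Matrix.cons_val_zero, Matrix.cons_val_one, Matrix.cons_val_fin_one,
      Matrix.empty_val', Units.val_neg, Units.val_one, inv_neg, inv_one]
    ext i j
    fin_cases i <;> fin_cases j <;> simp [Matrix.mul_apply, Fin.sum_univ_two]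
    all_goals first
      | ring1
      | linear_combination (al * x + be * y) * (-htr) + x * hdet
      | linear_combination (ga * x + de * y) * (-htr) + y * hdet
  rw [map_inv, ← mul_inv_eq_iff_eq_mul.2 e]

/-- The element of order eight. -/
noncomputable def x0 : GL chevD4.Idx K := el f (gT 1)

theorem conjS_x0 (hf : ∀ x, f x = x ^ 3) (hK : Fintype.card K = 3 ^ 3) (g : SL2 K) (hg : tr g = 1 ∨ tr g = -1) :
    ConjS 3 (x0 f) (el f g) := by
  rcases hg with hg | hg
  · obtain ⟨P, hP⟩ := exists_conj f (by simpa using hK) (one_pow 2) g hg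
    exact ⟨phi f P, phi_mem f hf hK P, hP⟩
  · obtain ⟨P, hP⟩ := exists_conj f (by simpa using hK) (by norm_num : (-1 : K) ^ 2 = 1) g hg
    obtain ⟨P', hP'⟩ := exists_conj f (by simpa using hK) (by norm_num : (-1 : K) ^ 2 = 1)
      (slW * gT 1 * slW⁻¹) (by rw [tr_W, tr_gT])
    have e : n0 * x0 f * (n0 : GL chevD4.Idx K)⁻¹ = el f (slW * gT 1 * slW⁻¹) := by
      rw [x0, el, el, ← MulAut.conj_apply, map_mul, MulAut.conj_apply, MulAut.conj_apply, n0_phi, n0_hOut]
    refine ConjS.trans ⟨n0, n0_mem f hf hK, e⟩ (ConjS.trans ?_ ⟨phi f P, phi_mem f hf hK P, hP⟩)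
    exact ConjS.symm ⟨phi f P', phi_mem f hf hK P', hP'⟩

/-! ### The fourth power and regularity -/

theorem pow_four_gT {τ : K} (hτ : τ ^ 2 = 1) : el f (gT τ) ^ 4 = Tor f (-1) 1 := by
  have e : el f (gT τ) ^ 4 = el f (gT τ) * el f (gT τ) * (el f (gT τ) * el f (gT τ)) := by
    simp only [pow_succ, pow_zero, one_mul, mul_assoc]
  rw [e, el_mul_el, ← map_mul, ← phi_D]
  congr 1
  apply Subtype.ext
  rw [coe_slD, sl_mul_val, sl_mul_val, coe_slConj, coe_gT, Units.val_neg, Units.val_one]
  have h3 := three_zero (K := K)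
  ext i j
  fin_cases i <;> fin_cases j <;> simp [Matrix.mul_apply, Matrix.vecMul, dotProduct, Fin.sum_univ_two] <;>
    first
      | ring1
      | linear_combination (τ ^ 2 + 4) * hτ + 2 * h3
      | linear_combination (1 : K) * hτ + h3
      | linear_combination τ * hτ + τ * h3
      | linear_combination -τ * hτ - τ * h3

theorem el_pow_four (hK : Fintype.card K = 27) {g : SL2 K} (hg : tr g = 1 ∨ tr g = -1) :
    el f g ^ 4 = Tor f (-1) 1 := by
  obtain ⟨τ, hτ, hgτ⟩ : ∃ τ : K, τ ^ 2 = 1 ∧ tr g = τ := by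
    rcases hg with h | h
    · exact ⟨1, one_pow 2, h⟩
    · exact ⟨-1, by norm_num, h⟩
  obtain ⟨P, hP⟩ := exists_conj f hK hτ g hgτ
  rw [← hP, conj_pow, pow_four_gT f hτ, ← phi_D, ← map_mul, ← map_inv, ← map_mul]
  congr 1
  rw [mul_inv_eq_iff_eq_mul]
  apply Subtype.ext
  rw [sl_mul_val, sl_mul_val, coe_slD]
  ext i j
  fin_cases i <;> fin_cases j <;> simp [Matrix.mul_apply, Matrix.vecMul, dotProduct, Fin.sum_univ_two]

theorem ord_chk : ∀ r : Fin 24, 12 ≤ r.val → (r.val = 14 ∨ r.val = 15 ∨ r.val = 16 ∨ r.val = 17 ∨ r.val = 19 ∨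
    r.val = 20 ∨ r.val = 21 ∨ r.val = 22) →
    ((chevD4.cartan 0 r.val + chevD4.cartan 2 r.val + chevD4.cartan 3 r.val) % 2 = 1) ∧
    ((chevD4.cartan 0 (23 - r.val) + chevD4.cartan 2 (23 - r.val) + chevD4.cartan 3 (23 - r.val)) % 2 = 1) := by
  decide +kernel

theorem neg_one_zpow {e : ℤ} (he : e % 2 = 1) : (-1 : Kˣ) ^ e = -1 :=
  (Int.odd_iff.2 he).neg_one_zpow

theorem val_z {r : ℕ} (hr : r < 24)
    (he : (chevD4.cartan 0 r + chevD4.cartan 2 r + chevD4.cartan 3 r) % 2 = 1) :
    goodD4.torusVal (zF f (-1) 1) r = -1 := by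
  have h1 : fu f (-1) = -1 := Units.ext (by simp [fu_val])
  rw [torusVal_zF f _ _ r hr, h1, h1, one_zpow, mul_one, ← zpow_add, ← zpow_add, neg_one_zpow he]

theorem eq_zero_of_neg {t : K} (h : -t = t) : t = 0 := by
  have : (2 : K) * t = 0 := by linear_combination -h
  exact (mul_eq_zero.1 this).resolve_left two_ne_zero'

theorem UP_regular (hK : Fintype.card K = 27) {g : SL2 K} (hg : tr g = 1 ∨ tr g = -1)
    {u : GL chevD4.Idx K} (hu : u ∈ UP (K := K)) (hc : el f g * u * (el f g)⁻¹ = u) : u = 1 := by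
  have hz : Tor f (-1) 1 * u * (Tor f (-1) 1)⁻¹ = u := by
    rw [← el_pow_four f hK hg]
    have h : Commute (el f g) u := mul_inv_eq_iff_eq_mul.1 hc
    rw [(h.pow_left 4).eq, mul_inv_cancel_right]
  have hcl : goodD4.PosClosed UPset := by
    intro r s hr hs hrS hsS hne c hcT
    have hh : ∀ r ∈ [14, 15, 16, 17, 19, 20, 21, 22, 23], ∀ s ∈ [14, 15, 16, 17, 19, 20, 21, 22, 23],
        ∀ c ∈ chevD4.commTerms r s, c.1 ∈ [14, 15, 16, 17, 19, 20, 21, 22, 23] := by decide +kernel
    exact hh r hrS s hsS c hcT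
  obtain ⟨t, ⟨ht, rfl⟩, -⟩ := goodD4.posSub_normal_form hcl hu
  rw [Tor, RegularTorus.torus_conj_ordProd] at hz
  have h0 : ∀ r, chevD4.nroots / 2 ≤ r → r < chevD4.nroots → r ≠ 23 → t r = 0 := by
    intro r h1 h2 h3
    by_cases hS : r ∈ UPset
    · have h := goodD4.ordProd_injective _ le_rfl _ _ hz r h1 h2
      have hS' := hS
      simp only [UPset, Set.mem_ofPred_eq, List.mem_cons, List.not_mem_nil, or_false] at hS'
      rw [val_z f h2 (ord_chk ⟨r, h2⟩ h1 (by tauto)).1, Units.val_neg, Units.val_one, neg_one_mul] at h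
      exact eq_zero_of_neg h
    · exact ht r (Or.inl hS)
  have hu23 : goodD4.ordProd (chevD4.nroots / 2) t = X 23 (t 23) := by
    rw [goodD4.ordProd_congr (t' := fun r => if r = 23 then t 23 else 0) (fun r h1 h2 => by
      by_cases h : r = 23
      · simp [h]
      · simp [h, h0 r h1 h2 h])]
    rw [Good.ordProd, show chevD4.nroots / 2 = 12 by decide +kernel, show chevD4.nroots - 12 = 12 by decide +kernel]
    simp [List.range', goodD4.xg_zero]
  rw [hu23] at hc ⊢
  have hphi : Commute (phi f g) (X 23 (t 23)) := by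
    have h := DFunLike.congr_fun (sl_hom_ext
      (a := (MulAut.conj (X 23 (t 23))).toMonoidHom.comp (phi f)) (b := phi f) (fun a => ?_) fun a => ?_) g
    · exact (mul_inv_eq_iff_eq_mul.1 (by simpa using h)).symm
    all_goals
      simp only [MonoidHom.comp_apply, MulEquiv.coe_toMonoidHom, MulAut.conj_apply, phi_X, phi_Y]
      refine mul_inv_eq_iff_eq_mul.2 ?_
      simp only [Xa, Xna]
      exact (((X_comm (by decide +kernel) _ _).mul_right (X_comm (by decide +kernel) _ _)).mul_right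
        (X_comm (by decide +kernel) _ _)).eq
  have hh : hOut f * X 23 (t 23) * (hOut f)⁻¹ = X 23 (-(t 23)) := by
    rw [hOut, Tor, goodD4.torus_conj_xg _ (show 23 < chevD4.nroots by decide +kernel),
      torusVal_zF f _ _ 23 (by decide)]
    simp [show chevD4.cartan 0 23 = 0 by decide +kernel, show chevD4.cartan 1 23 = 1 by decide +kernel,
      show chevD4.cartan 2 23 = 0 by decide +kernel, show chevD4.cartan 3 23 = 0 by decide +kernel]
  have hp : ∀ s : K, phi f g * X 23 s = X 23 s * phi f g := by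
    intro s
    have h := DFunLike.congr_fun (sl_hom_ext
      (a := (MulAut.conj (X 23 s)).toMonoidHom.comp (phi f)) (b := phi f) (fun a => ?_) fun a => ?_) g
    · exact (mul_inv_eq_iff_eq_mul.1 (by simpa using h)).symm
    all_goals
      simp only [MonoidHom.comp_apply, MulEquiv.coe_toMonoidHom, MulAut.conj_apply, phi_X, phi_Y]
      refine mul_inv_eq_iff_eq_mul.2 ?_
      simp only [Xa, Xna]
      exact (((X_comm (by decide +kernel) _ _).mul_right (X_comm (by decide +kernel) _ _)).mul_right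
        (X_comm (by decide +kernel) _ _)).eq
  rw [el, mul_inv_rev, show phi f g * hOut f * X 23 (t 23) * ((hOut f)⁻¹ * (phi f g)⁻¹) =
    phi f g * (hOut f * X 23 (t 23) * (hOut f)⁻¹) * (phi f g)⁻¹ by group, hh, hp, mul_inv_cancel_right] at hc
  have := eq_zero_of_neg (goodD4.xg_injective (show 23 < chevD4.nroots by decide +kernel) hc)
  rw [this, X, goodD4.xg_zero]

theorem UN_regular (hK : Fintype.card K = 27) {g : SL2 K} (hg : tr g = 1 ∨ tr g = -1)
    {u : GL chevD4.Idx K} (hu : u ∈ UN (K := K)) (hc : el f g * u * (el f g)⁻¹ = u) : u = 1 := by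
  obtain ⟨v, hv, rfl⟩ := hu
  simp only [MulEquiv.coe_toMonoidHom, MulAut.conj_apply] at hc ⊢
  set g' : SL2 K := slW⁻¹ * g * slW with hg'
  have htr : tr g' = 1 ∨ tr g' = -1 := by
    have h : tr g = -tr g' := by rw [← tr_W g', hg']; congr 1; group
    rcases hg with e | e <;> rw [h] at e
    · exact Or.inr (neg_eq_iff_eq_neg.1 e)
    · exact Or.inl (by simpa using e)
  have hn : n0 * el f g' * (n0 : GL chevD4.Idx K)⁻¹ = el f g := by
    rw [el, el, ← MulAut.conj_apply, map_mul, MulAut.conj_apply, MulAut.conj_apply, n0_phi, n0_hOut, hg']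
    group
  have h2 : el f g' * v * (el f g')⁻¹ = v := by
    have e : n0 * (el f g' * v * (el f g')⁻¹) * (n0 : GL chevD4.Idx K)⁻¹ = n0 * v * n0⁻¹ := by
      conv_rhs => rw [← hc, ← hn]
      group
    exact mul_left_cancel (mul_right_cancel e)
  rw [UP_regular f hK htr hv h2]
  group

/-! ### The middle property -/

variable (hf : ∀ x, f x = x ^ 3) (hK : Fintype.card K = 3 ^ 3)

include hf hK

theorem twisted_frame {g : SL2 K} (hg : tr g = 1 ∨ tr g = -1) :
    (∀ Y ∈ UN (K := K) ⊓ twistedD4 K 3, ConjS 3 (x0 f) (Y * el f g)) ∧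
    ∀ V ∈ UP (K := K) ⊓ twistedD4 K 3, ConjS 3 (x0 f) (el f g * V) := by
  have hx := conjS_x0 f hf hK g hg
  have hK' : Fintype.card K = 27 := by simpa using hK
  have hS := el_mem f hf hK g
  refine ⟨fun Y hY => hx.trans ?_, fun V hV => hx.trans ?_⟩
  · exact (conjS_mul_of_regular (V := UN ⊓ twistedD4 K 3) inf_le_right
      (fun v hv => ⟨conj_UN (el_mem_Lev f g) hv.1, (twistedD4 K 3).mul_mem ((twistedD4 K 3).mul_mem hS hv.2) ((twistedD4 K 3).inv_mem hS)⟩)
      fun v hv h => UN_regular f hK' hg hv.1 h).1 Y hY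
  · exact (conjS_mul_of_regular (V := UP ⊓ twistedD4 K 3) inf_le_right
      (fun v hv => ⟨conj_UP (el_mem_Lev f g) hv.1, (twistedD4 K 3).mul_mem ((twistedD4 K 3).mul_mem hS hv.2) ((twistedD4 K 3).inv_mem hS)⟩)
      fun v hv h => UP_regular f hK' hg hv.1 h).2 V hV

omit hf hK in
/-- The trace of the second factor. -/
theorem factor_corner {p q r : K} (hqr : q * r = -1) (M : SL2 K) (hM : M.1 = !![p, q; r, 0]) :
    ∃ g g' : SL2 K, (tr g = 1 ∨ tr g = -1) ∧ (tr g' = 1 ∨ tr g' = -1) ∧ M = g * slConj (-1) g' := by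
  have h3 := three_zero (K := K)
  have hq : q ≠ 0 := fun h => by rw [h, zero_mul] at hqr; exact one_ne_zero (by linear_combination hqr)
  have main : ∀ τ a u : K, (τ = 1 ∨ τ = -1) → u ^ 2 - (τ + (1 - a) * p) * u + a ^ 2 - a - 1 = 0 →
      ∃ g g' : SL2 K, (tr g = 1 ∨ tr g = -1) ∧ (tr g' = 1 ∨ tr g' = -1) ∧ M = g * slConj (-1) g' := by
    intro τ a u hτ heq
    set c := u / q with hc
    set b := -q * (τ + (1 - a) * p - u) with hb
    have hcq : c * q = u := div_mul_cancel₀ u hq
    have hdet : a * (a - 1) - -b * c = 1 := by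
      rw [hb]
      linear_combination heq + (-(τ + (1 - a) * p - u)) * hcq
    obtain ⟨g, hg⟩ : ∃ g : SL2 K, g.1 = !![a, -b; c, a - 1] :=
      ⟨⟨!![a, -b; c, a - 1], by rw [Matrix.det_fin_two_of]; exact hdet⟩, rfl⟩
    refine ⟨g, slConj (-1) (g⁻¹ * M), Or.inl (by simp [tr, hg]), ?_, ?_⟩
    · have : tr (slConj (-1) (g⁻¹ * M)) = τ := by
        rw [tr, coe_slConj, sl_mul_val, sl_inv_val, hg, hM]
        simp [Matrix.mul_apply, Matrix.vecMul, dotProduct, Fin.sum_univ_two]
        rw [hb]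
        linear_combination (τ + (1 - a) * p - u) * (-hqr) + hcq
      rcases hτ with rfl | rfl
      · exact Or.inl this
      · exact Or.inr this
    · have e : ∀ h : SL2 K, slConj (-1) (slConj (-1) h) = h := fun h => by
        apply Subtype.ext
        rw [coe_slConj, coe_slConj]
        ext i j
        fin_cases i <;> fin_cases j <;> simp
      rw [e, mul_inv_cancel_left]
  by_cases h1 : p = 1
  · exact main (-1) (-1) (-1) (Or.inr rfl) (by rw [h1]; linear_combination (1 : K) * h3)
  by_cases h2 : p = -1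
  · exact main 1 (-1) 1 (Or.inl rfl) (by rw [h2]; linear_combination (1 : K) * h3)
  have hp : p ^ 2 - 1 ≠ 0 := by
    intro h
    have : (p - 1) * (p + 1) = 0 := by linear_combination h
    rcases mul_eq_zero.1 this with h' | h'
    · exact h1 (sub_eq_zero.1 h')
    · exact h2 (eq_neg_of_add_eq_zero_left h')
  obtain ⟨a', w, haw⟩ := exists_quad (A := p ^ 2 - 1) (B := -1) (C := 2 * p + 1) (E := 2) hp
    (neg_ne_zero.2 one_ne_zero)
  refine main 1 (1 - a') (-((1 + a' * p) + w)) (Or.inl rfl) ?_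
  linear_combination -haw + ((1 + a' * p) ^ 2 + (1 + a' * p) * w) * h3

omit hf hK in
theorem factor (M : SL2 K) : ∃ (P g g' : SL2 K), (tr g = 1 ∨ tr g = -1) ∧ (tr g' = 1 ∨ tr g' = -1) ∧
    P * M * P⁻¹ = g * slConj (-1) g' := by
  have h3 := three_zero (K := K)
  have hd := sl_det M
  have hw : ∀ N : SL2 K, N.1 1 0 ≠ 0 → ∃ (P g g' : SL2 K), (tr g = 1 ∨ tr g = -1) ∧
      (tr g' = 1 ∨ tr g' = -1) ∧ P * N * P⁻¹ = g * slConj (-1) g' := by
    intro N hN
    set k := N.1 1 1 / N.1 1 0 with hk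
    have hkN : k * N.1 1 0 = N.1 1 1 := div_mul_cancel₀ _ hN
    have e : (slX k * N * (slX k)⁻¹).1 =
        !![N.1 0 0 + N.1 1 1, N.1 0 1 + k * N.1 1 1 - k * (N.1 0 0 + N.1 1 1); N.1 1 0, 0] := by
      rw [sl_mul_val, sl_mul_val, sl_inv_val, coe_slX]
      ext i j
      fin_cases i <;> fin_cases j <;> simp [Matrix.mul_apply, Matrix.vecMul, dotProduct, Fin.sum_univ_two]
      · linear_combination hkN
      · linear_combination -k * hkN
      · linear_combination -hkN
    obtain ⟨g, g', h1, h2, h4⟩ := factor_corner (p := N.1 0 0 + N.1 1 1)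
      (q := N.1 0 1 + k * N.1 1 1 - k * (N.1 0 0 + N.1 1 1)) (r := N.1 1 0) (by
        linear_combination -(sl_det N) + (-N.1 0 0) * hkN) _ e
    exact ⟨slX k, g, g', h1, h2, h4⟩
  by_cases h10 : M.1 1 0 = 0
  · by_cases h01 : M.1 0 1 = 0
    · by_cases hsc : M.1 0 0 = M.1 1 1
      · rw [h10, h01, ← hsc] at hd
        have hcase : M.1 0 0 = 1 ∨ M.1 0 0 = -1 := by
          have : (M.1 0 0 - 1) * (M.1 0 0 + 1) = 0 := by linear_combination hd
          rcases mul_eq_zero.1 this with h' | h'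
          · exact Or.inl (sub_eq_zero.1 h')
          · exact Or.inr (eq_neg_of_add_eq_zero_left h')
        rcases hcase with hc | hc
        · refine ⟨1, gT 1, slConj (-1) (gT (1 : K))⁻¹, Or.inl (tr_gT 1), Or.inr ?_, ?_⟩
          · simp [tr, coe_slConj, sl_inv_val, coe_gT]
          · apply Subtype.ext
            rw [one_mul, inv_one, mul_one, sl_mul_val, coe_slConj, coe_slConj, sl_inv_val, coe_gT]
            ext i j
            fin_cases i <;> fin_cases j <;>
              simp [Matrix.mul_apply, Matrix.vecMul, dotProduct, Fin.sum_univ_two, h10, h01, hc, ← hsc]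
        · refine ⟨1, gT 1, slConj (-1) ((gT (1 : K))⁻¹ * M), Or.inl (tr_gT 1), Or.inl ?_, ?_⟩
          · simp [tr, coe_slConj, sl_mul_val, sl_inv_val, coe_gT, Matrix.mul_apply, Matrix.vecMul, dotProduct, Fin.sum_univ_two,
              h10, h01, hc, ← hsc]
          · apply Subtype.ext
            rw [one_mul, inv_one, mul_one, sl_mul_val, coe_slConj, coe_slConj, sl_mul_val, sl_inv_val, coe_gT]
            ext i j
            fin_cases i <;> fin_cases j <;>
              simp [Matrix.mul_apply, Matrix.vecMul, dotProduct, Fin.sum_univ_two, h10, h01, hc, ← hsc]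
      · obtain ⟨P, g, g', h1, h2, h4⟩ := hw (slY 1 * M * (slY 1)⁻¹) (by
          simp [sl_mul_val, sl_inv_val, coe_slY, Matrix.mul_apply, Matrix.vecMul, dotProduct, Fin.sum_univ_two, h10, h01]
          exact fun h => hsc (by linear_combination h))
        exact ⟨P * slY 1, g, g', h1, h2, by rw [← h4]; group⟩
    · obtain ⟨P, g, g', h1, h2, h4⟩ := hw (slW * M * slW⁻¹) (by
        simp [sl_mul_val, sl_inv_val, coe_slW, Matrix.mul_apply, Matrix.vecMul, dotProduct, Fin.sum_univ_two, h10, h01])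
      exact ⟨P * slW, g, g', h1, h2, by rw [← h4]; group⟩
  · exact hw M h10

theorem exists_three : ∃ x ∈ twistedD4 K 3, ¬ 3 ∣ orderOf x ∧ Mid 3 f x (1 : K) := by
  have hK' : Fintype.card K = 27 := by simpa using hK
  refine ⟨x0 f, el_mem f hf hK _, fun h => ?_, ?_⟩
  · have h8 : (x0 f) ^ 8 = 1 := by
      rw [x0, show (8 : ℕ) = 4 * 2 from rfl, pow_mul, el_pow_four f hK' (Or.inl (tr_gT 1)), sq, Tor_mul, one_mul,
        neg_one_mul, neg_neg, Tor_one]
    exact absurd (h.trans (orderOf_dvd_of_pow_eq_one h8)) (by norm_num)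
  intro t s l hl hs
  have hs1 : s = 1 := Units.ext hs
  subst hs1
  obtain ⟨M, rfl⟩ : ∃ M : SL2 K, l = phi f M := by
    rcases hl.2 with ⟨v, rfl⟩ | ⟨v, v', rfl⟩
    · exact ⟨slX v * slD (t : K) t.ne_zero, by rw [map_mul, phi_X, phi_D]⟩
    · exact ⟨slX v * slD (t : K) t.ne_zero * slW * slX v', by
        rw [map_mul, map_mul, map_mul, phi_X, phi_D, phi_W, phi_X]⟩
  obtain ⟨P, g, g', h1, h2, h4⟩ := factor M
  refine ⟨phi f P, ⟨phi_mem_Lev f P, phi_mem f hf hK P⟩, el f g, el f g', ?_, (twisted_frame f hf hK h1).1,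
    (twisted_frame f hf hK h2).2⟩
  rw [el_mul_el, ← h4, map_mul, map_mul, map_inv]

end Cfsg.Agent.H23.Ore3D4.Three

namespace Cfsg.Agent.H23.Ore3D4

/-- The middle property for some element of order prime to 3 of ³D₄(3). -/
theorem exists_three {K : Type*} [Field K] [Fintype K] (f : K →+* K) (hf : ∀ x, f x = x ^ 3)
    (hK : Fintype.card K = 3 ^ 3) [CharP K 3] :
    ∃ x ∈ Cfsg.Lie.twistedD4 K 3, ¬ 3 ∣ orderOf x ∧ Mid 3 f x (1 : K) :=
  Three.exists_three f hf hK

end Cfsg.Agent.H23.Ore3D4
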