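import Cfsg.Agent.H23.Ore3D4.Setup
import Cfsg.Agent.H71.D4Two.Main

/-!
# The covering property for ³D₄(2)
-/

set_option autoImplicit false

namespace Cfsg.Agent.H23.Ore3D4

open Cfsg.Lie

variable {K : Type*} [Field K]

/-- The case `q = 2`: the class of an element of order 21. -/
theorem exists_two [Fintype K] [CharP K 2] (f : K →+* K) (_hf : ∀ x, f x = x ^ 2)
    (hK : Fintype.card K = 2 ^ 3) :
    ∃ x ∈ twistedD4 K 2, ¬ 2 ∣ orderOf x ∧ ∀ g ∈ twistedD4 K 2, g ≠ 1 →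
      ∃ a b, ConjS 2 x a ∧ ConjS 2 x b ∧ g = a * b := by
  obtain ⟨x, hodd, h⟩ := Cfsg.Agent.H71.D4Two.exists_two (K := K) (by rw [hK]; norm_num)
  refine ⟨x, x.2, ?_, fun g hg hg1 => ?_⟩
  · rw [Subgroup.orderOf_coe]
    exact fun h2 => Nat.not_even_iff_odd.2 hodd (even_iff_two_dvd.2 h2)
  · obtain ⟨a, b, ha, hb, e⟩ := h ⟨g, hg⟩ (fun e => hg1 (congrArg Subtype.val e))
    have key : ∀ {a : ↥(twistedD4 K 2)}, IsConj x a → ConjS 2 (x : GL chevD4.Idx K) a := fun ha => by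
      obtain ⟨c, hc⟩ := isConj_iff.1 ha
      exact ⟨c, c.2, congrArg Subtype.val hc⟩
    exact ⟨a, b, key ha, key hb, congrArg Subtype.val e⟩

end Cfsg.Agent.H23.Ore3D4
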